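import Cfsg.Agent.E6TwoFive.Classes
import Cfsg.Agent.AltPres54.Tiny

/-!
A copy of `A₈` generated by the long roots orthogonal to the orbit `{p₁, p₆}`.
-/

set_option autoImplicit false
set_option maxRecDepth 100000

namespace CfsgLib.E6TwoFive

open Cfsg.Lie CfsgLib.Chevalley CfsgLib.TwistedLie CfsgLib.Fi22Twist

/-- The images of the six three-cycles through two points. -/
def aTri : List (List ℕ) :=
  [[46, 69, 25, 2],
   [32, 25, 46, 2, 69, 32],
   [46, 39, 46, 25, 2, 69, 39, 46],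
   [46, 32, 39, 69, 25, 46, 39, 46, 2, 32],
   [39, 46, 32, 25, 2, 69, 32, 39, 46, 69],
   [39, 69, 32, 25, 46, 2, 32, 39, 46, 69]]

/-- The image attached to a point. -/
def aW (i : Fin 8) : List (ℕ × ℕ) := rW (aTri.getD ((i : ℕ) - 2) [])

theorem aTri_fR : ∀ i : Fin 8, ∀ r ∈ aTri.getD ((i : ℕ) - 2) [], r ∈ fR := by decide +kernel

theorem aW_cube : ∀ i : Fin 8, i ≠ 0 → i ≠ 1 → sameF (aW i ++ aW i ++ aW i) [] = true := by
  decide +kernel

theorem aW_pair : ∀ i j : Fin 8, i ≠ 0 → i ≠ 1 → j ≠ 0 → j ≠ 1 → i ≠ j →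
    sameF (aW i ++ aW j ++ (aW i ++ aW j)) [] = true := by
  decide +kernel

theorem aW_ne : diffF (aW 2) [] = true := by decide +kernel

theorem aW_comm : ∀ r ∈ [39, 46, 69, 32, 25, 2],
    sameF (rW [r] ++ yS false 2) (yS false 2 ++ rW [r]) = true := by
  decide +kernel

theorem aTri_small : ∀ i : Fin 8, ∀ r ∈ aTri.getD ((i : ℕ) - 2) [], r ∈ [39, 46, 69, 32, 25, 2] := by
  decide +kernel

variable {K : Type*} [Field K] [Fintype K] [CharP K 2] (hK : Fintype.card K = 2 ^ 2) (w : K)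
  (hw : w * w = w + 1)

include hK hw in
theorem exists_alt8 : ∃ f : alternatingGroup (Fin 8) →* GL chevE6.Idx K, Function.Injective f ∧
    ∀ s, f s ∈ (TW hK).G ∧ Commute (f s) (x0 w) := by
  set C : Subgroup (GL chevE6.Idx K) := (TW hK).G ⊓ Subgroup.centralizer {x0 w}
  have hcomm : ∀ l : List ℕ, (∀ r ∈ l, r ∈ [39, 46, 69, 32, 25, 2]) →
      Commute (ev w (rW l)) (x0 w) := by
    intro l hl
    induction l with
    | nil => simp [rW, ev_nil']
    | cons r l ih =>
      rw [List.forall_mem_cons] at hl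
      rw [show rW (r :: l) = rW [r] ++ rW l from rfl, ev_append]
      refine Commute.mul_left ?_ (ih hl.2)
      show ev w (rW [r]) * x0 w = x0 w * ev w (rW [r])
      rw [x0, ← ev_append, ← ev_append]
      exact ev_eqF w hw (aW_comm r hl.1)
  have hmem : ∀ i, ev w (aW i) ∈ C := fun i => Subgroup.mem_inf.mpr
    ⟨ev_rW_mem hK w hw (aTri_fR i),
      Subgroup.mem_centralizer_singleton_iff.mpr (hcomm _ (aTri_small i)).eq⟩
  obtain ⟨Φ, hΦ⟩ := AltPres54.exists_hom_alt (0 : Fin 8) 1 (by decide)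
    (fun i => (⟨ev w (aW i), hmem i⟩ : ↥C))
    (fun i _ h0 h1 => Subtype.ext (by
      show ev w (aW i) ^ 3 = 1
      rw [pow_succ, sq, ← ev_append, ← ev_append, ev_eqF w hw (aW_cube i h0 h1), ev_nil']))
    (fun i _ j _ hi0 hi1 hj0 hj1 hij => Subtype.ext (by
      show (ev w (aW i) * ev w (aW j)) ^ 2 = 1
      rw [sq, ← ev_append, ← ev_append, ev_eqF w hw (aW_pair i j hi0 hi1 hj0 hj1 hij), ev_nil']))
  haveI : IsSimpleGroup ↥(alternatingGroup (Fin 8)) :=
    alternatingGroup.isSimpleGroup (by rw [Nat.card_fin]; norm_num)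
  have hinj : Function.Injective Φ := by
    rcases Subgroup.Normal.eq_bot_or_eq_top (inferInstance : Φ.ker.Normal) with h | h
    · exact (MonoidHom.ker_eq_bot_iff _).mp h
    · exfalso
      have h2 := hΦ 2 (by decide) (by decide)
      rw [show Φ _ = 1 from MonoidHom.mem_ker.mp (h ▸ Subgroup.mem_top _)] at h2
      exact ev_neF w hw aW_ne ((congrArg Subtype.val h2).symm.trans (ev_nil' w).symm)
  exact ⟨C.subtype.comp Φ, C.subtype_injective.comp hinj, fun s =>
    ⟨(Φ s).2.1, Subgroup.mem_centralizer_singleton_iff.mp (Φ s).2.2⟩⟩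

end CfsgLib.E6TwoFive
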