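import Cfsg.Agent.E6TwoFive.Centralizer
import Mathlib.GroupTheory.SpecificGroups.Alternating
import Mathlib.GroupTheory.NoncommCoprod

/-!
From a copy of `A₈` centralizing the element of order five to the statement about `²E₆(2)`.
-/

set_option autoImplicit false

namespace CfsgLib.E6TwoFive

open Cfsg.Lie CfsgLib.Chevalley CfsgLib.TwistedLie CfsgLib.Fi22Twist

variable {K : Type*} [Field K] [Fintype K] [CharP K 2] (hK : Fintype.card K = 2 ^ 2) (w : K)
  (hw : w * w = w + 1)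

omit [Fintype K] [CharP K 2] in
theorem card_alt8 : Nat.card (alternatingGroup (Fin 8)) = 20160 := by
  have h := two_mul_nat_card_alternatingGroup (α := Fin 8)
  rw [Nat.card_perm, Nat.card_fin, show Nat.factorial 8 = 40320 from rfl] at h
  omega

include hw in
theorem x0_mem : x0 w ∈ (TW hK).G := Pj_le hK (x0_spec hK w hw).1

include hK hw in
theorem orderOf_x0 : orderOf (x0 w) = 5 :=
  haveI := Fact.mk (show Nat.Prime 5 by norm_num)
  orderOf_eq_prime (x0_spec hK w hw).2.1 (x0_spec hK w hw).2.2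

include hw in
theorem centralizer_iso
    (f : alternatingGroup (Fin 8) →* GL chevE6.Idx K) (hf : Function.Injective f)
    (hfG : ∀ s, f s ∈ (TW hK).G ∧ Commute (f s) (x0 w)) :
    Nonempty ((Multiplicative (ZMod 5) × ↥(alternatingGroup (Fin 8))) ≃*
      ↥((TW hK).G ⊓ Subgroup.centralizer {x0 w} : Subgroup (GL chevE6.Idx K))) := by
  haveI := Fact.mk (show Nat.Prime 5 by norm_num)
  have e5 : Nat.card (Multiplicative (ZMod 5)) = 5 :=
    (Nat.card_congr Multiplicative.toAdd).trans (Nat.card_zmod 5)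
  let e : Multiplicative (ZMod 5) ≃* ↥(Subgroup.zpowers (x0 w)) :=
    mulEquivOfPrimeCardEq (p := 5) e5 (by rw [Nat.card_zpowers, orderOf_x0 hK w hw])
  let φ : Multiplicative (ZMod 5) →* GL chevE6.Idx K := (Subgroup.zpowers (x0 w)).subtype.comp e.toMonoidHom
  have hφ : ∀ i, ∃ k : ℤ, x0 w ^ k = φ i := fun i => Subgroup.mem_zpowers_iff.mp (e i).2
  have hcomm : ∀ i s, Commute (φ i) (f s) := fun i s => by
    obtain ⟨k, hk⟩ := hφ i
    rw [← hk]
    exact (hfG s).2.symm.zpow_left k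
  let ψ := φ.noncommCoprod f hcomm
  have hψ : ∀ a, ψ a ∈ ((TW hK).G ⊓ Subgroup.centralizer {x0 w} : Subgroup (GL chevE6.Idx K)) := by
    rintro ⟨i, s⟩
    obtain ⟨k, hk⟩ := hφ i
    show φ i * f s ∈ _
    rw [← hk]
    have h1 : x0 w ∈ ((TW hK).G ⊓ Subgroup.centralizer {x0 w} : Subgroup (GL chevE6.Idx K)) :=
      Subgroup.mem_inf.mpr ⟨x0_mem hK w hw, Subgroup.mem_centralizer_singleton_iff.mpr rfl⟩
    have h2 : f s ∈ ((TW hK).G ⊓ Subgroup.centralizer {x0 w} : Subgroup (GL chevE6.Idx K)) :=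
      Subgroup.mem_inf.mpr ⟨(hfG s).1, Subgroup.mem_centralizer_singleton_iff.mpr (hfG s).2.eq⟩
    exact mul_mem (Subgroup.zpow_mem _ h1 k) h2
  have hψi : Function.Injective ψ := by
    rw [injective_iff_map_eq_one]
    rintro ⟨i, s⟩ h
    have h' : φ i * f s = 1 := h
    have hs : s ∈ Subgroup.center (alternatingGroup (Fin 8)) := by
      refine Subgroup.mem_center_iff.mpr fun t => hf ?_
      rw [map_mul, map_mul, eq_inv_of_mul_eq_one_right h']
      exact ((hcomm i t).inv_left.eq).symm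
    rw [alternatingGroup.center_eq_bot (by rw [Nat.card_fin]; norm_num), Subgroup.mem_bot] at hs
    rw [hs, map_one, mul_one] at h'
    refine Prod.ext ?_ hs
    exact e.map_eq_one_iff.mp (Subtype.ext h')
  let Ψ := ψ.codRestrict _ hψ
  refine ⟨MulEquiv.ofBijective Ψ (Function.Injective.bijective_of_nat_card_le
    (fun a b h => hψi (congrArg Subtype.val h)) ?_)⟩
  rw [Nat.card_prod, e5, card_alt8]
  exact card_centralizer_le hK w hw

omit [Fintype K] [CharP K 2] in
/-- The centralizer of a conjugate inside a subgroup. -/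
theorem centralizer_transport {G : Subgroup (GL chevE6.Idx K)} {x₀ : GL chevE6.Idx K} (z : ↥G)
    (g : GL chevE6.Idx K) (hg : g ∈ G) (h : g * (z : GL chevE6.Idx K) * g⁻¹ = x₀) :
    Nonempty (↥(Subgroup.centralizer ({z} : Set ↥G)) ≃*
      ↥(G ⊓ Subgroup.centralizer {x₀} : Subgroup (GL chevE6.Idx K))) := by
  subst h
  refine ⟨{ toFun := fun c => ⟨g * ((c : ↥G) : GL chevE6.Idx K) * g⁻¹,
              mul_mem (mul_mem hg (c : ↥G).2) (Subgroup.inv_mem _ hg), ?_⟩
            invFun := fun c => ⟨⟨g⁻¹ * (c : GL chevE6.Idx K) * g,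
              mul_mem (mul_mem (Subgroup.inv_mem _ hg) c.2.1) hg⟩, ?_⟩
            left_inv := fun c => by ext1; ext1; simp [mul_assoc]
            right_inv := fun c => by ext1; simp [mul_assoc]
            map_mul' := fun c d => by ext1; simp [mul_assoc] }⟩
  · refine Subgroup.mem_centralizer_singleton_iff.mpr ?_
    have := congrArg Subtype.val (Subgroup.mem_centralizer_singleton_iff.mp c.2)
    rw [Subgroup.coe_mul, Subgroup.coe_mul] at this
    calc g * ((c : ↥G) : GL chevE6.Idx K) * g⁻¹ * (g * (z : GL chevE6.Idx K) * g⁻¹)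
        = g * (((c : ↥G) : GL chevE6.Idx K) * (z : GL chevE6.Idx K)) * g⁻¹ := by group
      _ = g * ((z : GL chevE6.Idx K) * ((c : ↥G) : GL chevE6.Idx K)) * g⁻¹ := by rw [this]
      _ = _ := by group
  · refine Subgroup.mem_centralizer_singleton_iff.mpr (Subtype.ext ?_)
    have := Subgroup.mem_centralizer_singleton_iff.mp c.2.2
    show g⁻¹ * (c : GL chevE6.Idx K) * g * (z : GL chevE6.Idx K) =
      (z : GL chevE6.Idx K) * (g⁻¹ * (c : GL chevE6.Idx K) * g)
    calc g⁻¹ * (c : GL chevE6.Idx K) * g * (z : GL chevE6.Idx K)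
        = g⁻¹ * ((c : GL chevE6.Idx K) * (g * (z : GL chevE6.Idx K) * g⁻¹)) * g := by group
      _ = g⁻¹ * (g * (z : GL chevE6.Idx K) * g⁻¹ * (c : GL chevE6.Idx K)) * g := by rw [this]
      _ = _ := by group

include hw in
/-- The statement for one conjugacy class with the given centralizer. -/
theorem main_of
    (halt : ∃ f : alternatingGroup (Fin 8) →* GL chevE6.Idx K, Function.Injective f ∧
      ∀ s, f s ∈ (TW hK).G ∧ Commute (f s) (x0 w))
    (hconj : ∀ z ∈ (TW hK).G, orderOf z = 5 → ∃ g ∈ (TW hK).G, g * z * g⁻¹ = x0 w) :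
    (∀ x y : ↥(TW hK).G, orderOf x = 5 → orderOf y = 5 → IsConj x y) ∧
      ∀ x : ↥(TW hK).G, orderOf x = 5 →
        Nonempty (↥(Subgroup.centralizer ({x} : Set ↥(TW hK).G)) ≃*
          (Multiplicative (ZMod 5) × ↥(alternatingGroup (Fin 8)))) := by
  have hc : ∀ x : ↥(TW hK).G, orderOf x = 5 →
      ∃ g ∈ (TW hK).G, g * (x : GL chevE6.Idx K) * g⁻¹ = x0 w :=
    fun x hx => hconj _ x.2 (by rw [Subgroup.orderOf_coe]; exact hx)
  refine ⟨fun x y hx hy => ?_, fun x hx => ?_⟩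
  · obtain ⟨g, hg, eg⟩ := hc x hx
    obtain ⟨g', hg', eg'⟩ := hc y hy
    refine isConj_iff.mpr ⟨(⟨g', hg'⟩ : ↥(TW hK).G)⁻¹ * ⟨g, hg⟩, Subtype.ext ?_⟩
    show g'⁻¹ * g * (x : GL chevE6.Idx K) * (g'⁻¹ * g)⁻¹ = (y : GL chevE6.Idx K)
    calc g'⁻¹ * g * (x : GL chevE6.Idx K) * (g'⁻¹ * g)⁻¹
        = g'⁻¹ * (g * (x : GL chevE6.Idx K) * g⁻¹) * g' := by group
      _ = _ := by rw [eg, ← eg']; group
  · obtain ⟨g, hg, eg⟩ := hc x hx
    obtain ⟨f, hf, hfG⟩ := halt
    obtain ⟨e⟩ := centralizer_iso hK w hw f hf hfG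
    obtain ⟨e'⟩ := centralizer_transport x g hg eg
    exact ⟨e'.trans e.symm⟩

end CfsgLib.E6TwoFive
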