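import Cfsg.Agent.E6TwoFive.Steps

/-!
The number of fixed elements of the flipped part of each path.
-/

set_option autoImplicit false

namespace CfsgLib.E6TwoFive

open Cfsg.Lie CfsgLib.Chevalley CfsgLib.TwistedLie CfsgLib.TwistedLie.E6 CfsgLib.Fi22Twist

local notation "S" => sysE6

variable {K : Type*} [Field K] [Fintype K] [CharP K 2] (hK : Fintype.card K = 2 ^ 2) (w : K)

local notation "T2" => TW hK

/-- The fixed elements of the element of order five of a state in a flipped part. -/
noncomputable def Fx (L : List (Fin 4)) (st : Bool) (c : ℕ) : Subgroup (GL chevE6.Idx K) :=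
  (T2).flipFix L ⊓ Subgroup.centralizer {ev w (yS st c)}

omit [CharP K 2] in
theorem mem_Fx {L : List (Fin 4)} {st : Bool} {c : ℕ} {u : GL chevE6.Idx K} :
    u ∈ Fx hK w L st c ↔ u ∈ (T2).flipFix L ∧ ev w (yS st c) * u = u * ev w (yS st c) := by
  rw [Fx, Subgroup.mem_inf, Subgroup.mem_centralizer_singleton_iff]
  exact and_congr_right fun _ => eq_comm

variable (hw : w * w = w + 1)
include hw

theorem conj_flip {L : List (Fin 4)} {st : Bool} (hn : normChk L st = true) {c : ℕ}
    (hc : c ∈ [2, 3]) {u : GL chevE6.Idx K} (hu : u ∈ (T2).flipFix L) :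
    ev w (yS st c) * u * (ev w (yS st c))⁻¹ ∈ (T2).flipFix L := by
  refine (T2).mem_flipFix.mpr
    ⟨y_norm hK w hn (yS_roots st c hc) ((T2).mem_flipFix.mp hu).1, (T2).σ_mem ?_⟩
  exact mul_mem (mul_mem (y_mem hK w hw st hc) ((T2).flipFix_le_G L hu))
    (Subgroup.inv_mem _ (y_mem hK w hw st hc))

theorem wit_mem : ∀ k : Fin 6, ev w (steps.getD k.1 ([], false, false, [])).2.2.2 ∈ (T2).G := by
  obtain ⟨s0, -, s2, s3, s4, s5⟩ := E6.simple_eq
  intro k
  fin_cases k <;> simp only [steps, List.getD_cons_zero, List.getD_cons_succ] <;>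
    show _ ∈ chevE6.genSubgroup K (e6Words K 2)
  · simp [ev, Sys.wG]
  · simp [ev, Sys.wG]
  · simp [ev, Sys.wG]
  · have h := (E6.pair_mem prime_two_pow hK (Or.inl ⟨rfl, rfl⟩ : ((0 : ℕ) = 0 ∧ (5 : ℕ) = 5) ∨ _) (1 : K)).1
    rw [E6.P_eq, s0, s5, one_pow] at h
    simpa [ev, cv_one] using h
  · have h := (E6.pair_mem prime_two_pow hK (Or.inr ⟨rfl, rfl⟩ : _ ∨ ((2 : ℕ) = 2 ∧ (4 : ℕ) = 4)) (1 : K)).1
    rw [E6.P_eq, s2, s4, one_pow] at h
    simpa [ev, cv_one] using h
  · have h := (E6.fix_mem prime_two_pow hK (a := 3) (Or.inr rfl) (t := (1 : K)) (map_one _)).1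
    rw [s3] at h
    simpa [ev, cv_one, Sys.wG] using h

theorem card_step_fixed (k : Fin 6) {c : ℕ} (hc : c ∈ [2, 3]) :
    Nat.card (Fx hK w (steps.getD k.1 ([], false, false, [])).1
      (steps.getD k.1 ([], false, false, [])).2.1 c) ≤
      if (steps.getD k.1 ([], false, false, [])).2.2.2.isEmpty then 2 else 1 := by
  have hstep := (List.all_eq_true.mp norm_steps) (steps.getD k.1 ([], false, false, []))
    (by rw [List.getD_eq_getElem _ _ k.isLt]; exact List.getElem_mem _)
  have hwit := wit_ok k c hc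
  have hmem := wit_mem hK w hw k
  generalize steps.getD k.1 ([], false, false, []) = s at hstep hwit hmem
  obtain ⟨g, a, b, z⟩ := s
  simp only [Bool.and_eq_true, Nat.beq_eq, Nat.blt_eq, List.all_eq_true] at hstep
  obtain ⟨⟨⟨hn, -⟩, hcard⟩, hz⟩ := hstep
  have hle : Fx hK w g a c ≤ (T2).flipFix g := inf_le_left
  haveI : Finite ↥((T2).flipFix g) := Nat.finite_of_card_ne_zero (by rw [card_flip]; positivity)
  rcases z with _ | ⟨z0, z⟩
  · simp only [List.isEmpty_nil, if_true] at hcard ⊢
    refine le_trans (Subgroup.card_le_of_le hle) ?_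
    rw [card_flip, hcard]
    norm_num
  · simp only [List.isEmpty_cons, Bool.false_eq_true, if_false] at hcard ⊢
    set y := ev w (yS a c) with hy
    have h16 : Nat.card ↥((T2).flipFix g) = 16 := by rw [card_flip, hcard]; norm_num
    let σ : Equiv.Perm ↥((T2).flipFix g) :=
      { toFun := fun u => ⟨y * u * y⁻¹, conj_flip hK w hw hn hc u.2⟩
        invFun := fun u => ⟨y⁻¹ * u * y, by
          have h4 : ∀ (i : ℕ) (v : GL chevE6.Idx K), v ∈ (T2).flipFix g →
              y ^ i * v * (y ^ i)⁻¹ ∈ (T2).flipFix g := by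
            intro i
            induction i with
            | zero => intro v hv; simpa using hv
            | succ i ih =>
              intro v hv
              have := conj_flip hK w hw hn hc (ih v hv)
              rw [← hy] at this
              rw [pow_succ' y i]
              convert this using 1
              group
          have h5 := h4 4 u u.2
          have e4 : y ^ 4 = y⁻¹ := eq_inv_of_mul_eq_one_left (by rw [← pow_succ]; exact y_pow w hw a hc)
          rwa [e4, inv_inv] at h5⟩
        left_inv := fun u => Subtype.ext (by show y⁻¹ * (y * u * y⁻¹) * y = u; group)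
        right_inv := fun u => Subtype.ext (by show y * (y⁻¹ * u * y) * y⁻¹ = u; group) }
    have hpow : σ ^ 5 ^ 1 = 1 := by
      have h : ∀ i, ∀ u, (((σ ^ i) u : ↥((T2).flipFix g)) : GL chevE6.Idx K) = y ^ i * u * (y ^ i)⁻¹ := by
        intro i
        induction i with
        | zero => intro u; simp
        | succ i ih =>
          intro u
          rw [pow_succ', Equiv.Perm.mul_apply]
          show y * ((σ ^ i) u : GL chevE6.Idx K) * y⁻¹ = _
          rw [ih, pow_succ']
          group
      refine Equiv.ext fun u => Subtype.ext ?_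
      rw [h, pow_one, hy, y_pow w hw a hc]
      simp
    classical
    haveI := Fintype.ofFinite ↥((T2).flipFix g)
    haveI := Fact.mk (show Nat.Prime 5 by norm_num)
    have hmod := Equiv.Perm.card_compl_support_modEq hpow
    have e : Nat.card (Fx hK w g a c) = σ.supportᶜ.card := by
      rw [← Fintype.card_coe, ← Nat.card_eq_fintype_card]
      refine Nat.card_congr ⟨fun u => ⟨⟨u, hle u.2⟩, ?_⟩, fun u => ⟨u.1.1, ?_⟩, fun u => rfl, fun u => rfl⟩
      · rw [Finset.mem_compl, Equiv.Perm.notMem_support]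
        refine Subtype.ext ?_
        show y * (u : GL chevE6.Idx K) * y⁻¹ = u
        rw [((mem_Fx hK w).mp u.2).2, mul_inv_cancel_right]
      · have h := u.2
        rw [Finset.mem_compl, Equiv.Perm.notMem_support] at h
        refine (mem_Fx hK w).mpr ⟨u.1.2, ?_⟩
        have h' : y * (u.1 : GL chevE6.Idx K) * y⁻¹ = u.1 := congrArg Subtype.val h
        exact mul_inv_eq_iff_eq_mul.mp h'
    rw [← e, ← Nat.card_eq_fintype_card, h16] at hmod
    have hdvd : Nat.card (Fx hK w g a c) ∣ 2 ^ 4 := by
      rw [show (2 : ℕ) ^ 4 = 16 from rfl, ← h16]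
      exact Subgroup.card_dvd_of_le hle
    obtain ⟨i, hi, hi'⟩ := (Nat.dvd_prime_pow Nat.prime_two).mp hdvd
    have hne : Nat.card (Fx hK w g a c) ≠ 16 := by
      intro h
      have hEq : Fx hK w g a c = (T2).flipFix g :=
        Subgroup.eq_of_le_of_card_ge hle (by rw [h, h16])
      have hzu : ev w (z0 :: z) ∈ (T2).flipFix g := by
        refine (T2).mem_flipFix.mpr ⟨wG_pos_mem S K fun x hx => ?_, (T2).σ_mem hmem⟩
        obtain ⟨x', hx', rfl⟩ := List.mem_map.mp hx
        exact inFlip_mem hK (hz x' hx').1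
      rw [← hEq] at hzu
      have hc' := ((mem_Fx hK w).mp hzu).2
      rcases hwit with hwit | hwit
      · simp at hwit
      · refine ev_neF w hw hwit ?_
        rw [ev_append, ev_append]
        exact hc'
    rw [hi'] at hmod hne ⊢
    interval_cases i <;> simp_all [Nat.ModEq]

end CfsgLib.E6TwoFive
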