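import Cfsg.Agent.E6TwoFive.Upper

/-!
The order of the centralizer of the element of order five.
-/

set_option autoImplicit false
set_option maxRecDepth 100000

namespace CfsgLib.E6TwoFive

open Cfsg.Lie CfsgLib.Chevalley CfsgLib.TwistedLie CfsgLib.TwistedLie.E6 CfsgLib.Fi22Twist

local notation "S" => sysE6

theorem keep_sum_fin : 320 * ∑ i : Fin keepN.length, (node keepN[i]).2.2.1 ≤ 100800 := by
  decide +kernel

variable {K : Type*} [Field K] [Fintype K] [CharP K 2] (hK : Fintype.card K = 2 ^ 2) (w : K)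
  (hw : w * w = w + 1)

local notation "T2" => TW hK
local notation "Bo" => Tw.B1 (TW hK)

include hw in
theorem y_mem_Pj {c : ℕ} (hc : c ∈ [2, 3]) : ev w (yS false c) ∈ Pj hK := by
  obtain ⟨s0, -, -, -, -, s5⟩ := E6.simple_eq
  have hc4 : c < 4 := by
    simp only [List.mem_cons, List.not_mem_nil, or_false] at hc; omega
  rw [y_three_eq, ev_append, ← nWord_eval hK w 3, ← n3_eq hK]
  refine mul_mem (B1_le_Pj hK ((T2).U_le_B1 ((T2).X_le_U 3 ?_))) (n3_mem_Pj hK)
  show ev w _ ∈ E6.XX prime_two_pow hK 3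
  refine (Folded.mem_X2 S _ (h := two05)).mpr ⟨cv w c, ?_⟩
  rw [E6.P_eq, s0, s5, ← cv_sq w hw hc4]
  rfl

include hw in
/-- The element of order five is not conjugate to its square in the parabolic subgroup. -/
theorem no_sq {q : GL chevE6.Idx K} (hq : q ∈ Pj hK) : q * x0 w * q⁻¹ ≠ x0 w ^ 2 := by
  intro hconj
  obtain ⟨hx, h5, hne⟩ := x0_spec hK w hw
  haveI : Finite ↥(Pj hK) := Nat.finite_of_card_ne_zero (by rw [card_Pj]; positivity)
  haveI := Fact.mk (show Nat.Prime 2 from Nat.prime_two)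
  have hiter : ∀ k, q ^ k * x0 w * (q ^ k)⁻¹ = x0 w ^ 2 ^ k := by
    intro k
    induction k with
    | zero => simp
    | succ k ih =>
      calc q ^ (k + 1) * x0 w * (q ^ (k + 1))⁻¹ = q * (q ^ k * x0 w * (q ^ k)⁻¹) * q⁻¹ := by
            rw [pow_succ']; group
        _ = (q * x0 w * q⁻¹) ^ 2 ^ k := by rw [ih, conj_pow]
        _ = _ := by rw [hconj, ← pow_mul, pow_succ']
  set q' : ↥(Pj hK) := ⟨q, hq⟩ with hq'
  obtain ⟨a, m, hm, ho⟩ := Nat.exists_eq_two_pow_mul_odd (orderOf_pos q').ne'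
  have hP : IsPGroup 2 (Subgroup.zpowers (q' ^ m)) := by
    refine IsPGroup.of_card (n := a) ?_
    rw [Nat.card_zpowers, orderOf_pow, ho, Nat.gcd_eq_right (Dvd.intro_left _ rfl),
      Nat.mul_div_cancel _ hm.pos]
  obtain ⟨P, hPle⟩ := hP.exists_le_sylow
  have hU : (chevE6.posUnipotent K ⊓ (T2).G).subgroupOf (Pj hK) ≤ ⊤ := le_top
  have hle : chevE6.posUnipotent K ⊓ (T2).G ≤ Pj hK := ((T2).U_le_B1).trans (B1_le_Pj hK)
  have hcardU : Nat.card ↥((chevE6.posUnipotent K ⊓ (T2).G).subgroupOf (Pj hK)) = 2 ^ 36 := by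
    rw [Nat.card_congr (Subgroup.subgroupOfEquivOfLe hle).toEquiv]
    exact E6.card_U prime_two_pow hK
  have hfac : (Nat.card ↥(Pj hK)).factorization 2 = 36 := by
    rw [card_Pj, mul_assoc, Nat.factorization_mul (by norm_num) (by norm_num),
      Nat.Prime.factorization_pow Nat.prime_two]
    simp [Nat.factorization_eq_zero_of_not_dvd]
  let Q : Sylow 2 ↥(Pj hK) := Sylow.ofCard _ (by rw [hcardU, hfac])
  obtain ⟨g, hg⟩ := MulAction.exists_smul_eq ↥(Pj hK) P Q
  have hmem : g * q' ^ m * g⁻¹ ∈ (chevE6.posUnipotent K ⊓ (T2).G).subgroupOf (Pj hK) := by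
    have h1 : q' ^ m ∈ (P : Subgroup ↥(Pj hK)) := hPle (Subgroup.mem_zpowers _)
    have h2 : g * q' ^ m * g⁻¹ ∈ ((g • P : Sylow 2 ↥(Pj hK)) : Subgroup ↥(Pj hK)) := by
      rw [Sylow.coe_subgroup_smul]
      exact Subgroup.smul_mem_pointwise_smul _ (MulAut.conj g) _ h1
    rw [hg] at h2
    exact h2
  rw [Subgroup.mem_subgroupOf] at hmem
  simp only [Subgroup.coe_mul, Subgroup.coe_inv, SubmonoidClass.coe_pow, hq'] at hmem
  set r := (g : GL chevE6.Idx K) with hr
  set u := r * q ^ m * r⁻¹ with hu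
  set x' := r * x0 w * r⁻¹ with hx'
  have hux : u * x' * u⁻¹ = x' ^ 2 ^ m := by
    rw [hu, hx', conj_pow, ← hiter]; group
  have hu2 : u * u ∈ UJ hK := by
    obtain ⟨v, hv, -, z, hz, e⟩ := U_radical hK hmem
    have hz2 : z * z = 1 := by
      obtain ⟨t, ht⟩ := (Folded.mem_X2 S _ (h := two05)).mp
        (show z ∈ E6.XX prime_two_pow hK 3 from flip_three hK hz)
      rw [ht, E6.P_eq]
      obtain ⟨s0, -, -, -, -, s5⟩ := E6.simple_eq
      rw [s0, s5, E6.wG_pair]
      have hcm : Commute (Sys.xG S K 56 t) (Sys.xG S K 36 (t ^ 2)) :=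
        xG_commute S K (by decide) (by decide) (by decide) (by decide +kernel) (by decide +kernel) _ _
      have hsq : ∀ r s, Sys.xG S K r s * Sys.xG S K r s = 1 := fun r s => by
        rw [Sys.xG_add S K, CharTwo.add_self_eq_zero, Sys.xG_zero]
      calc _ = Sys.xG S K 56 t * (Sys.xG S K 36 (t ^ 2) * Sys.xG S K 56 t) * Sys.xG S K 36 (t ^ 2) := by
            simp only [mul_assoc]
        _ = Sys.xG S K 56 t * Sys.xG S K 56 t * (Sys.xG S K 36 (t ^ 2) * Sys.xG S K 36 (t ^ 2)) := by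
            rw [← hcm.eq]; simp only [mul_assoc]
        _ = 1 := by rw [hsq, hsq, one_mul]
    have hz' : z⁻¹ = z := inv_eq_of_mul_eq_one_right hz2
    rw [show u = r * q ^ m * r⁻¹ from rfl] at *
    rw [e, show v * z * (v * z) = v * (z * v * z⁻¹) * (z * z) by group, hz2, mul_one]
    exact mul_mem hv (Pj_normalizer hK w hw z (B1_le_Pj hK (flip_le_B1 hK hz)) v hv)
  have hx'P : x' ∈ Pj hK := mul_mem (mul_mem g.2 hx) (inv_mem g.2)
  have hcomm : u * u * x' * (u * u)⁻¹ * x'⁻¹ ∈ UJ hK := by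
    have h1 := Pj_normalizer hK w hw x' hx'P _ (inv_mem hu2)
    have := mul_mem hu2 h1
    simpa [mul_assoc] using this
  have hpow : u * u * x' * (u * u)⁻¹ = x' ^ (2 ^ m * 2 ^ m) := by
    rw [show u * u * x' * (u * u)⁻¹ = u * (u * x' * u⁻¹) * u⁻¹ by group, hux, ← conj_pow, hux,
      ← pow_mul]
  have h5' : x' ^ 5 = 1 := by rw [hx', conj_pow, h5]; group
  have hmod : 2 ^ m * 2 ^ m % 5 = 4 := by
    obtain ⟨j, rfl⟩ := hm
    rw [← pow_add, show 2 * j + 1 + (2 * j + 1) = 4 * j + 2 by ring, pow_add, pow_mul, Nat.mul_mod,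
      Nat.pow_mod]
    norm_num
  have hpow4 : x' ^ (2 ^ m * 2 ^ m) = x' ^ 4 := by
    rw [← Nat.mod_add_div (2 ^ m * 2 ^ m) 5, hmod, pow_add, pow_mul, h5', one_pow, mul_one]
  rw [hpow, hpow4] at hcomm
  have h3 : x' ^ 3 ∈ UJ hK := by
    rwa [show x' ^ 4 * x'⁻¹ = x' ^ 3 by rw [pow_succ x' 3, mul_inv_cancel_right]] at hcomm
  haveI := Fact.mk (show Nat.Prime 5 by norm_num)
  have hx1 : x' ≠ 1 := fun h => hne (by
    rw [hx', conj_eq_one_iff] at h; exact h)
  have ho5 : orderOf x' = 5 := orderOf_eq_prime h5' hx1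
  have ho3 : orderOf (x' ^ 3) = 5 := by
    rw [orderOf_pow, ho5]; norm_num
  have hdvd : 5 ∣ 2 ^ nFlip (node topN).1 := by
    rw [← card_flip hK, ← ho3]
    exact Subgroup.orderOf_dvd_natCard _ h3
  exact absurd ((Nat.Prime.dvd_of_dvd_pow (by norm_num) hdvd)) (by norm_num)

omit [CharP K 2] in
theorem torus_trivial {c : ℕ → Kˣ} (hc : c ∈ Folded.fixC (E6.phi prime_two_pow hK) chevE6 E6.qE)
    (h : torusVal chevE6 c 56 = 1) : tor chevE6 K c = 1 := by
  obtain ⟨h1, h3, h5, h4⟩ := E6.fixC_vals prime_two_pow hK hc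
  rw [E6.phi_apply] at h1 h3
  have hu : ∀ u : Kˣ, (u : K) ^ 2 = u → u = 1 := fun u hu => by
    refine Units.ext (mul_left_cancel₀ u.ne_zero ?_)
    rw [Units.val_one, mul_one, ← sq, hu]
  have hsq : ∀ u : Kˣ, Folded.uMap (E6.phi prime_two_pow hK) u = u ^ 2 := fun u => Units.ext (by
    show E6.phi prime_two_pow hK (u : K) = _
    rw [E6.phi_apply, Units.val_pow_eq_pow_val])
  have hcube : ∀ u : Kˣ, u ^ (3 : ℤ) = 1 := fun u => by
    classical
    have := pow_card_eq_one (x := u)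
    rw [Fintype.card_units, hK] at this
    exact_mod_cast this
  have tv : ∀ r, torusVal chevE6 c r = c 0 ^ chevE6.cartan 0 r * c 1 ^ chevE6.cartan 1 r *
      c 2 ^ chevE6.cartan 2 r * c 3 ^ chevE6.cartan 3 r * c 4 ^ chevE6.cartan 4 r *
      c 5 ^ chevE6.cartan 5 r := by
    intro r
    rw [torusVal, show chevE6.rank = 6 from rfl]
    simp [Finset.prod_range_succ]
  have hval : ∀ r, torusVal chevE6 c r = c 0 ^ (chevE6.cartan 0 r + 2 * chevE6.cartan 5 r) *
      c 2 ^ (chevE6.cartan 2 r + 2 * chevE6.cartan 4 r) := by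
    intro r
    rw [tv, h5, h4, hsq, hsq, hu _ h1, hu _ h3, one_zpow, one_zpow, mul_one, mul_one, zpow_add,
      zpow_add, ← zpow_natCast, ← zpow_natCast, ← zpow_mul, ← zpow_mul]
    simp only [Nat.cast_ofNat, mul_assoc, mul_comm, mul_left_comm]
  have hc2 : c 2 = c 0 ^ (2 : ℤ) := by
    rw [hval, show chevE6.cartan 0 56 + 2 * chevE6.cartan 5 56 = 2 by decide +kernel,
      show chevE6.cartan 2 56 + 2 * chevE6.cartan 4 56 = -1 by decide +kernel, zpow_neg_one,
      mul_inv_eq_one] at h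
    exact h.symm
  refine tor_eq_one_of_simple S K c fun i hi => ?_
  rw [hval, hc2, ← zpow_mul, ← zpow_add]
  have key : (chevE6.cartan 0 (chevE6.simple i) + 2 * chevE6.cartan 5 (chevE6.simple i) +
      2 * (chevE6.cartan 2 (chevE6.simple i) + 2 * chevE6.cartan 4 (chevE6.simple i))) % 3 = 0 :=
    (by decide +kernel : ∀ i < 6, (chevE6.cartan 0 (chevE6.simple i) +
      2 * chevE6.cartan 5 (chevE6.simple i) + 2 * (chevE6.cartan 2 (chevE6.simple i) +
        2 * chevE6.cartan 4 (chevE6.simple i))) % 3 = 0) i hi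
  rw [← Int.emod_add_mul_ediv (_ + _) 3, key, zero_add, zpow_mul, hcube, one_zpow]

include hw in
/-- The fixed part of the Borel subgroup lies in the radical. -/
theorem borel_fixed {b : GL chevE6.Idx K} (hb : b ∈ Bo) (hc : x0 w * b = b * x0 w) :
    b ∈ Fx hK w (node topN).1 false 2 := by
  obtain ⟨hx, -, -⟩ := x0_spec hK w hw
  obtain ⟨u, hu, t, ht, rfl⟩ := (T2).mem_B1.mp hb
  obtain ⟨a, ha, han, z, hz, rfl⟩ := U_radical hK hu
  set P := ev w [(56, 2), (36, 3)] with hP
  have hPX : P ∈ (T2).flipFix [3] := by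
    refine X_mem_flip hK ?_
    obtain ⟨s0, -, -, -, -, s5⟩ := E6.simple_eq
    show P ∈ E6.XX prime_two_pow hK 3
    refine (Folded.mem_X2 S _ (h := two05)).mpr ⟨cv w 2, ?_⟩
    rw [E6.P_eq, s0, s5, ← cv_sq w hw (by decide)]
    rfl
  have hx0 : x0 w = P * n3 hK := by
    rw [x0, y_three_eq, ev_append, ← nWord_eval hK w 3, ← n3_eq hK]
    rfl
  have hPB : P ∈ Bo := flip_le_B1 hK hPX
  set n := n3 hK with hn
  have hnt : n * t * n⁻¹ ∈ (T2).T := ((T2).T_word_conj [3] ht).1
  have h1 : n * (a * z * t) * n⁻¹ ∈ Bo := by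
    have e : n * (a * z * t) * n⁻¹ = P⁻¹ * (a * z * t) * P := by
      have h := hc
      rw [hx0] at h
      calc n * (a * z * t) * n⁻¹ = P⁻¹ * (P * n * (a * z * t)) * n⁻¹ := by group
        _ = _ := by rw [h]; group
    rw [e]
    exact mul_mem (mul_mem (inv_mem hPB) hb) hPB
  have hz1 : z = 1 := by
    have h2 : n * z * n⁻¹ ∈ Bo := by
      have := mul_mem (mul_mem (inv_mem han) h1) (inv_mem ((T2).T_le_B1 hnt))
      have e : (n * a * n⁻¹)⁻¹ * (n * (a * z * t) * n⁻¹) * (n * t * n⁻¹)⁻¹ = n * z * n⁻¹ := by group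
      rwa [e] at this
    have h3 : n * z * n⁻¹ ∈ chevE6.borelSubgroup K ⊓ chevE6.negUnipotent K :=
      ⟨((T2).B1_le h2).1, conj_neg hK hz⟩
    rw [Sys.borel_inf_neg S K, Subgroup.mem_bot, conj_eq_one_iff] at h3
    exact h3
  subst hz1
  rw [mul_one] at hc hb ⊢
  have ha' : x0 w * a * (x0 w)⁻¹ ∈ UJ hK := Pj_normalizer hK w hw _ hx a ha
  have hj : x0 w * t * (x0 w)⁻¹ * t⁻¹ ∈ UJ hK := by
    have e : x0 w * t * (x0 w)⁻¹ * t⁻¹ = (x0 w * a * (x0 w)⁻¹)⁻¹ * a := by
      calc x0 w * t * (x0 w)⁻¹ * t⁻¹ =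
          (x0 w * a * (x0 w)⁻¹)⁻¹ * (x0 w * (a * t)) * (x0 w)⁻¹ * t⁻¹ := by group
        _ = _ := by rw [hc]; group
    rw [e]
    exact mul_mem (inv_mem ha') ha
  set t' := n * t * n⁻¹ with ht'
  have hPt : t' * P⁻¹ * t'⁻¹ ∈ (T2).flipFix [3] := by
    have hd := (T2).T_le hnt
    rw [Sys.diagonal_eq S] at hd
    obtain ⟨c, hc'⟩ := hd
    refine (T2).mem_flipFix.mpr ⟨?_, (T2).σ_mem (mul_mem (mul_mem ((T2).T_mem hnt)
      ((T2).flipFix_le_G _ (Subgroup.inv_mem _ hPX))) (Subgroup.inv_mem _ ((T2).T_mem hnt)))⟩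
    have hle : uSub chevE6 K (Sys.flipSet S K ((T2).nW [3])) ≤
        (uSub chevE6 K (Sys.flipSet S K ((T2).nW [3]))).comap
          (MulAut.conj (tor chevE6 K c)).toMonoidHom := by
      refine Sys.uSub_le S K fun r hr h1 h2 s => ?_
      rw [Subgroup.mem_comap, MulEquiv.coe_toMonoidHom, MulAut.conj_apply, Sys.tor_conj S K c h2]
      exact Sys.xG_mem_uSub S K hr h1 h2 _
    rw [← hc']
    exact hle ((T2).mem_flipFix.mp (Subgroup.inv_mem _ hPX)).1
  have hsplit : x0 w * t * (x0 w)⁻¹ * t⁻¹ = P * (t' * P⁻¹ * t'⁻¹) * (t' * t⁻¹) := by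
    rw [hx0, ht']; group
  have htt : t' = t := by
    have h2 : t' * t⁻¹ ∈ chevE6.posUnipotent K ⊓ chevE6.diagonalSubgroup K := by
      refine ⟨?_, (T2).T_le (mul_mem hnt (inv_mem ht))⟩
      have e : t' * t⁻¹ = (P * (t' * P⁻¹ * t'⁻¹))⁻¹ * (x0 w * t * (x0 w)⁻¹ * t⁻¹) := by
        rw [hsplit]; group
      rw [e]
      exact mul_mem (Subgroup.inv_mem _ (mul_mem (flip_le_U hK hPX).1 (flip_le_U hK hPt).1)) (flip_le_U hK hj).1
    rw [Sys.posUnipotent_inf_diagonal S K, Subgroup.mem_bot, mul_inv_eq_one] at h2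
    exact h2
  rw [htt, mul_inv_cancel, mul_one] at hsplit
  have hcom : P * (t * P⁻¹ * t⁻¹) = 1 :=
    UJ_disjoint hK (hsplit ▸ hj) (mul_mem hPX (htt ▸ hPt))
  have htP : t * P * t⁻¹ = P := by
    have := inv_eq_of_mul_eq_one_right hcom
    calc t * P * t⁻¹ = (t * P⁻¹ * t⁻¹)⁻¹ := by group
      _ = P := by rw [← this, inv_inv]
  have ht1 : t = 1 := by
    obtain ⟨c, hcfix, rfl⟩ := (show t ∈ E6.TT prime_two_pow hK from ht)
    refine torus_trivial hK hcfix ?_
    rw [hP, ev, wG_tor S K c (by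
      intro e he
      simp only [List.map_cons, List.map_nil, List.mem_cons, List.not_mem_nil, or_false] at he
      rcases he with rfl | rfl
      · show (56 : ℕ) < chevE6.nroots; decide
      · show (36 : ℕ) < chevE6.nroots; decide)] at htP
    have hs0 : chevE6.simple 0 = 56 := E6.simple_eq.1
    have key := lead_coeff S K (i := 0) (by decide) (A := []) (A' := [])
      (B := [(36, (torusVal chevE6 c 36 : K) * cv w 3)]) (B' := [(36, cv w 3)])
      (a := (torusVal chevE6 c 56 : K) * cv w 2) (a' := cv w 2)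
      (by simp) (by
        intro e he
        rw [List.mem_singleton] at he
        subst he
        exact ⟨by show chevE6.nroots / 2 ≤ 36; decide, by show (36 : ℕ) < chevE6.nroots; decide,
          by show (36 : ℕ) ≠ chevE6.simple 0; rw [hs0]; decide⟩)
      (by simp) (by
        intro e he
        rw [List.mem_singleton] at he
        subst he
        exact ⟨by show chevE6.nroots / 2 ≤ 36; decide, by show (36 : ℕ) < chevE6.nroots; decide,
          by show (36 : ℕ) ≠ chevE6.simple 0; rw [hs0]; decide⟩)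
      (by rw [hs0]; simpa using htP)
    have hne0 : cv w 2 ≠ (0 : K) := by
      rw [cv_two]; intro e; simp [e] at hw
    exact Units.ext ((mul_eq_right₀ hne0).mp key)
  subst ht1
  rw [mul_one] at hc ⊢
  exact (mem_Fx hK w).mpr ⟨ha, hc⟩

/-- The centralizer in the parabolic subgroup. -/
noncomputable def CP : Subgroup (GL chevE6.Idx K) := Pj hK ⊓ Subgroup.centralizer {x0 w}

include hw in
theorem card_CP : Nat.card (CP hK w) ≤ 320 := by
  haveI : Finite ↥(Pj hK) := Nat.finite_of_card_ne_zero (by rw [card_Pj]; positivity)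
  haveI : Finite ↥(CP hK w) :=
    Finite.of_injective _ (Subgroup.inclusion_injective (inf_le_left : CP hK w ≤ Pj hK))
  have hB : Nat.card ↥(Tw.B1 (T2) ⊓ CP hK w : Subgroup (GL chevE6.Idx K)) ≤ 64 := by
    have hle : (Tw.B1 (T2) ⊓ CP hK w : Subgroup (GL chevE6.Idx K)) ≤ Fx hK w (node topN).1 false 2 := by
      rintro b ⟨hb, -, hc⟩
      exact borel_fixed hK w hw hb (Subgroup.mem_centralizer_singleton_iff.mp hc).symm
    haveI : Finite ↥((T2).flipFix (node topN).1) :=
      Nat.finite_of_card_ne_zero (by rw [card_flip]; positivity)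
    haveI : Finite ↥(Fx hK w (node topN).1 false 2) := Finite.of_injective _
      (Subgroup.inclusion_injective (inf_le_left : Fx hK w (node topN).1 false 2 ≤ _))
    refine le_trans (Subgroup.card_le_of_le hle) ?_
    have := node_fixed hK w hw topN (by decide) 2 (by simp)
    rwa [top_bound.1, top_bound.2] at this
  have hrel : (Tw.B1 (T2)).relIndex (CP hK w) ≤ 5 := by
    have h5 : (Tw.B1 (T2)).relIndex (Pj hK) = 5 := by
      have := Subgroup.card_mul_index ((Tw.B1 (T2)).subgroupOf (Pj hK))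
      rw [Nat.card_congr (Subgroup.subgroupOfEquivOfLe (B1_le_Pj hK)).toEquiv, card_Bo, card_Pj] at this
      exact Nat.eq_of_mul_eq_mul_left (by norm_num) this
    rw [← h5]
    exact Subgroup.relIndex_le_of_le_right (inf_le_left) (by rw [h5]; norm_num)
  have e : Nat.card ↥(CP hK w) =
      Nat.card ↥(Tw.B1 (T2) ⊓ CP hK w : Subgroup (GL chevE6.Idx K)) *
        (Tw.B1 (T2)).relIndex (CP hK w) := by
    rw [← Subgroup.card_mul_index ((Tw.B1 (T2)).subgroupOf (CP hK w))]
    congr 1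
    rw [← Subgroup.inf_subgroupOf_right]
    exact Nat.card_congr (Subgroup.subgroupOfEquivOfLe inf_le_right).toEquiv
  rw [e]
  exact Nat.mul_le_mul hB hrel

include hw in
/-- The centralizer of the element of order five has order at most `100800`. -/
theorem card_centralizer_le :
    Nat.card ↥((T2).G ⊓ Subgroup.centralizer {x0 w} : Subgroup (GL chevE6.Idx K)) ≤ 100800 := by
  obtain ⟨hx, h5, hne⟩ := x0_spec hK w hw
  set C := ((T2).G ⊓ Subgroup.centralizer {x0 w} : Subgroup (GL chevE6.Idx K)) with hC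
  have key : ∀ g ∈ C, ∃ i : Fin keepN.length, ∃ p ∈ CP hK w,
      ∃ u ∈ Fx hK w (node keepN[i]).1 false 2, g = p * nn hK (node keepN[i]).1 * u := by
    rintro g ⟨hgG, hgc⟩
    have hgx : g * x0 w = x0 w * g := Subgroup.mem_centralizer_singleton_iff.mp hgc
    obtain ⟨p₀, hp₀, L, hL, u, hu, e⟩ := cover_pos hK hgG
    have hxu : u * x0 w * u⁻¹ ∈ Pj hK :=
      mul_mem (mul_mem (B1_le_Pj hK (flip_le_B1 hK hu)) hx) (inv_mem (B1_le_Pj hK (flip_le_B1 hK hu)))
    have hnm : ¬ Moves L := by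
      intro hm
      have h1 := no_fixed hK hL hm hxu (by rw [conj_pow, h5]; group) (by
        have e2 : nn hK L * (u * x0 w * u⁻¹) * (nn hK L)⁻¹ = p₀⁻¹ * (g * x0 w * g⁻¹) * p₀ := by
          rw [e]; group
        rw [e2, hgx, mul_inv_cancel_right]
        exact mul_mem (mul_mem (inv_mem hp₀) hx) hp₀)
      exact hne (conj_eq_one_iff.mp h1)
    obtain ⟨k, hk, hw'⟩ := classify hK hnm
    obtain ⟨hk96, hst⟩ := final_data k hk
    obtain ⟨t, ht, et⟩ := nn_eq hK hw'
    set M := (node k).1 with hM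
    have hflip : (T2).flipFix L = (T2).flipFix M := by
      have : Sys.flipSet S K ((T2).nW L) = Sys.flipSet S K ((T2).nW M) := by
        simp only [Sys.flipSet, Tw.perm_nW, hw']
      rw [Tw.flipFix, Tw.flipFix, this]
    rw [hflip] at hu
    have hMpos : Pos M := by
      have hr : ∀ r : Fin chevE6.nroots, wL chevE6 (wdN M.reverse) r = wL chevE6 (wdN L.reverse) r :=
        fun r => by rw [← wW_reverse_val hK, ← wW_reverse_val hK, hw']
      exact ⟨(hr ⟨56, by decide⟩).symm ▸ hL.1, (hr ⟨36, by decide⟩).symm ▸ hL.2⟩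
    set p := p₀ * (nn hK M * t * (nn hK M)⁻¹) with hp_def
    have hp : p ∈ Pj hK := mul_mem hp₀ (B1_le_Pj hK ((T2).T_le_B1 ((T2).T_word_conj M ht).1))
    have eg : g = p * nn hK M * u := by rw [e, et, hp_def]; group
    have hn := norm_ok hk96
    rw [show (nodes.getD k ([], false, 0, 0, 0)).2.1 = false from hst] at hn
    have huc := conj_flip hK w hw hn (c := 2) (by simp) hu
    have hswap : ∀ c' ∈ [2, 3], nn hK M * x0 w = ev w (yS false c') * nn hK M →
        u = x0 w * u * (x0 w)⁻¹ ∧ p⁻¹ * x0 w * p = ev w (yS false c') := by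
      intro c' hc23 hc'
      have e3 : nn hK M * u =
          (p⁻¹ * x0 w * p * (ev w (yS false c'))⁻¹) * nn hK M * (x0 w * u * (x0 w)⁻¹) := by
        have hg2 := hgx
        rw [eg] at hg2
        have hnn : (ev w (yS false c'))⁻¹ * nn hK M = nn hK M * (x0 w)⁻¹ := by
          rw [inv_mul_eq_iff_eq_mul, ← mul_assoc, ← hc', mul_inv_cancel_right]
        calc nn hK M * u = p⁻¹ * (p * nn hK M * u * x0 w) * (x0 w)⁻¹ := by group
          _ = p⁻¹ * x0 w * p * (nn hK M * (x0 w)⁻¹) * (x0 w * u * (x0 w)⁻¹) := by rw [hg2]; group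
          _ = _ := by rw [← hnn]; group
      have hq : p⁻¹ * x0 w * p * (ev w (yS false c'))⁻¹ ∈ Pj hK :=
        mul_mem (mul_mem (mul_mem (inv_mem hp) hx) hp) (inv_mem (y_mem_Pj hK w hw hc23))
      obtain ⟨-, hu'⟩ := coset_unique hK hMpos hMpos hu huc hq e3
      have hu'' : u = x0 w * u * (x0 w)⁻¹ := hu'
      refine ⟨hu'', ?_⟩
      have e5 : p⁻¹ * x0 w * p * (ev w (yS false c'))⁻¹ = 1 := by
        rw [← hu''] at e3
        have : 1 * (nn hK M * u) = p⁻¹ * x0 w * p * (ev w (yS false c'))⁻¹ * (nn hK M * u) := by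
          rw [one_mul, ← mul_assoc]; exact e3
        exact (mul_right_cancel this).symm
      exact mul_inv_eq_one.mp e5
    have hmove : ∀ v₁ v₂ : ℕ, wf M 56 = v₁ → wf M 36 = v₂ →
        nn hK M * x0 w = ev w (yW v₁ v₂ 2) * nn hK M := by
      intro v₁ v₂ e₁ e₂
      have h := conj_word hK w M (y_ok false 2 (by simp))
      rw [x0, show nn hK M * ev w (yS false 2) = _ from h, ← e₁, ← e₂,
        ← (wf_spec M (show 56 < 72 by decide)).1, ← (wf_spec M (show 36 < 72 by decide)).1]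
      simp [yS, yW, rA, rB, map_triW M (show 56 < chevE6.nroots by decide),
        map_triW M (show 36 < chevE6.nroots by decide), nn]
    rcases List.mem_append.mp hk with hk' | hk'
    · obtain ⟨i, hi, rfl⟩ := List.getElem_of_mem hk'
      obtain ⟨hu', hp'⟩ := hswap 2 (by simp) (hmove 56 36 (keep_maps _ hk').1 (keep_maps _ hk').2)
      refine ⟨⟨i, hi⟩, p, ⟨hp, ?_⟩, u, (mem_Fx hK w).mpr ⟨hu, ?_⟩, eg⟩
      · refine Subgroup.mem_centralizer_singleton_iff.mpr ?_
        calc p * x0 w = p * (p⁻¹ * x0 w * p) := by rw [hp']; rfl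
          _ = x0 w * p := by group
      · show x0 w * u = u * x0 w
        conv_rhs => rw [hu']
        group
    · exfalso
      have h32 : nn hK M * x0 w = ev w (yS false 3) * nn hK M := by
        rw [hmove 36 56 (swap_maps _ hk').1 (swap_maps _ hk').2]
        exact congrArg (· * _) (ev_eqF w hw (tri_comm false 2 (by simp)))
      obtain ⟨-, hp'⟩ := hswap 3 (by simp) h32
      have hl := lW_mem hK w hw
      have h3 : ev w (yS false 3) * ev w lW = ev w lW * x0 w ^ 2 := by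
        rw [x0, sq, ← ev_append, ← ev_append, ← ev_append, ← List.append_assoc]
        exact ev_eqF w hw lW_ok
      refine no_sq hK w hw (q := (ev w lW)⁻¹ * p⁻¹) (mul_mem (inv_mem hl) (inv_mem hp)) ?_
      calc (ev w lW)⁻¹ * p⁻¹ * x0 w * ((ev w lW)⁻¹ * p⁻¹)⁻¹ =
          (ev w lW)⁻¹ * (p⁻¹ * x0 w * p) * ev w lW := by group
        _ = (ev w lW)⁻¹ * (ev w (yS false 3) * ev w lW) := by rw [hp', mul_assoc]
        _ = _ := by rw [h3, inv_mul_cancel_left]
  choose I P hP U hU he using key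
  haveI : Finite ↥(Pj hK) := Nat.finite_of_card_ne_zero (by rw [card_Pj]; positivity)
  haveI : Finite ↥(CP hK w) :=
    Finite.of_injective _ (Subgroup.inclusion_injective (inf_le_left : CP hK w ≤ Pj hK))
  haveI : ∀ i : Fin keepN.length, Finite ↥(Fx hK w (node keepN[i]).1 false 2) := fun i => by
    haveI : Finite ↥((T2).flipFix (node keepN[i]).1) :=
      Nat.finite_of_card_ne_zero (by rw [card_flip]; positivity)
    exact Finite.of_injective _ (Subgroup.inclusion_injective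
      (inf_le_left : Fx hK w (node keepN[i]).1 false 2 ≤ _))
  have h1 : Nat.card C ≤
      Nat.card (↥(CP hK w) × Σ i : Fin keepN.length, ↥(Fx hK w (node keepN[i]).1 false 2)) := by
    refine Nat.card_le_card_of_injective
      (fun g : C => (⟨P g g.2, hP g g.2⟩, ⟨I g g.2, ⟨U g g.2, hU g g.2⟩⟩)) fun g g' h => ?_
    have hf := congrArg (fun z : ↥(CP hK w) × Σ i : Fin keepN.length,
        ↥(Fx hK w (node keepN[i]).1 false 2) =>
      (z.1 : GL chevE6.Idx K) * nn hK (node keepN[z.2.1]).1 * (z.2.2 : GL chevE6.Idx K)) h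
    exact Subtype.ext ((he g g.2).trans (hf.trans (he g' g'.2).symm))
  refine h1.trans ?_
  rw [Nat.card_prod, Nat.card_sigma]
  refine le_trans (Nat.mul_le_mul (card_CP hK w hw) (Finset.sum_le_sum fun i _ => ?_))
    keep_sum_fin
  · have hmem : keepN[i] ∈ keepN ++ swapN := List.mem_append_left _ (List.getElem_mem _)
    have := node_fixed hK w hw keepN[i] (final_data _ hmem).1 2 (by simp)
    rwa [(final_data _ hmem).2] at this

end CfsgLib.E6TwoFive
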