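/-! The reflection tables and the commutator supports of the two Levi complements. -/

set_option autoImplicit false

namespace CfsgLib.E6TwoFive

/-- The six fundamental reflections, one byte per root. -/
def reflT : List Nat :=
  [68860739535078100914596739045472550060558126031925906698557184978812794185875324317535844633006154102049939227231216439978584304288106533539790046234022772551535750302269696,
   67898379116758311409174261616388753868225998791303625563428882050626415270252589797741478371984307561973422256644613195820774439032392954730690482532434882508821640184463361,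
   68860695135535158216797058934368584078938789528211777354868258615236502524939434476014300653026239562496047166733737140692285179851664431971808751874688785261135318011412736,
   68856980314703697980439144254334973515401028023823060939175680109056393390696631820261994746199928716884708600540244424635743493790229057459399689936210111163618278074548736,
   68860724850632303803458732998465812266828810094652722312245356555948991877575451183817923578624086719198522082862514929281160200302940551006277733868069131789022201037127936,
   68860739477726650154684651250440147524905899556371060941805998667168077050675229181777609482453672249988869994526207384147299178654162362870440666247900439482662894518272256]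

/-- The supports of the commutators with the four roots of each state. -/
def commT : List (List (List (List Nat))) :=
  [[[[],[],[],[],[],[16],[17],[18],[19],[20],[21],[26],[27],[28],[29],[],[],[],[],[],[],[],[],[],[],[],[],[],[],[],[],[],[],[],[],[],[],[],[],[],[],[],[57],[58],[59],[60],[],[],[],[],[61],[62],[63],[64],[65],[66],[],[],[],[],[],[],[],[],[],[],[],[],[],[],[],[]],
    [[],[],[],[4],[],[],[7],[],[9],[],[],[12],[],[],[],[],[],[18],[],[20],[],[],[23],[],[],[],[27],[],[],[],[31],[],[],[34],[],[],[],[38],[],[],[41],[],[],[],[45],[],[],[],[49],[],[],[52],[],[54],[],[],[],[],[],[60],[],[],[63],[],[65],[],[],[68],[],[],[],[]],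
    [[],[],[],[],[],[],[],[],[],[],[],[],[],[],[],[],[5],[6],[7],[8],[9],[10],[],[],[],[],[11],[12],[13],[14],[],[],[],[],[],[],[],[],[],[],[],[],[],[],[],[],[],[],[],[],[],[],[],[],[],[],[],[42],[43],[44],[45],[50],[51],[52],[53],[54],[55],[],[],[],[],[]],
    [[],[],[],[],[3],[],[],[6],[],[8],[],[],[11],[],[],[],[],[],[17],[],[19],[],[],[22],[],[],[],[26],[],[],[],[30],[],[],[33],[],[],[],[37],[],[],[40],[],[],[],[44],[],[],[],[48],[],[],[51],[],[53],[],[],[],[],[],[59],[],[],[62],[],[64],[],[],[67],[],[],[]]],
   [[[],[],[5],[6],[7],[],[],[],[],[],[],[],[],[],[15],[],[],[],[],[22],[23],[24],[],[],[],[],[30],[31],[32],[],[],[],[],[],[],[],[],[],[],[43],[44],[45],[],[],[],[],[],[50],[51],[52],[],[],[],[],[],[],[57],[],[],[],[],[],[],[],[67],[68],[69],[],[],[],[],[]],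
    [[],[],[3],[],[],[6],[],[],[],[10],[],[],[13],[],[],[],[17],[],[],[],[21],[],[],[24],[],[],[],[28],[],[],[],[32],[],[35],[],[],[38],[],[],[40],[],[],[],[44],[],[],[],[48],[],[],[51],[],[],[],[55],[],[],[],[59],[],[],[62],[],[],[],[66],[],[],[69],[],[],[]],
    [[],[],[],[],[],[2],[3],[4],[],[],[],[],[],[],[],[14],[],[],[],[],[],[],[19],[20],[21],[],[],[],[],[],[26],[27],[28],[],[],[],[],[],[],[],[],[],[],[39],[40],[41],[],[],[],[],[47],[48],[49],[],[],[],[],[56],[],[],[],[],[],[],[],[],[],[64],[65],[66],[],[]],
    [[],[],[],[2],[],[],[5],[],[],[],[9],[],[],[12],[],[],[],[16],[],[],[],[20],[],[],[23],[],[],[],[27],[],[],[],[31],[],[],[33],[],[],[36],[],[39],[],[],[],[43],[],[],[],[47],[],[],[50],[],[],[],[54],[],[],[],[58],[],[],[61],[],[],[],[65],[],[],[68],[],[]]]]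

end CfsgLib.E6TwoFive
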