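import Cfsg.Agent.E6TwoFive.PathData
import Cfsg.Agent.E6TwoFive.TableData

/-! The decidable conditions on the paths. -/

set_option autoImplicit false
set_option maxRecDepth 100000

namespace CfsgLib.E6TwoFive

open Cfsg.Lie CfsgLib.Chevalley CfsgLib.TwistedLie CfsgLib.TwistedLie.E6 CfsgLib.Fi22Twist

/-- First root of a state. -/
def rA (st : Bool) : ℕ := if st then 42 else 56

/-- Second root of a state. -/
def rB (st : Bool) : ℕ := if st then 37 else 36

/-- The element of order five of a state. -/
def yS (st : Bool) (c : ℕ) : List (ℕ × ℕ) := yW (rA st) (rB st) c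

/-- The roots of the Levi complement of a state. -/
def rts (st : Bool) : List ℕ := [rA st, rB st, chevE6.neg (rA st), chevE6.neg (rB st)]

/-- A fundamental reflection, from the table. -/
def reflF (i r : ℕ) : ℕ := ((reflT.getD i 0) >>> (8 * r)) % 256

/-- A word on a root, from the table. -/
def wf (L : List (Fin 4)) (r : ℕ) : ℕ := (wdN L).foldr reflF r

theorem reflF_ok : ∀ i < 6, ∀ r < 72, chevE6.reflectRoot i r = reflF i r ∧ reflF i r < 72 := by
  decide +kernel

theorem wdN_lt (L : List (Fin 4)) : ∀ i ∈ wdN L, i < 6 := by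
  intro i hi
  obtain ⟨j, -, hj⟩ := List.mem_flatMap.mp hi
  exact blkN_lt j i hj

theorem wf_spec (L : List (Fin 4)) {r : ℕ} (hr : r < 72) :
    wL chevE6 (wdN L) r = wf L r ∧ wf L r < 72 := by
  have key : ∀ M : List ℕ, (∀ i ∈ M, i < 6) →
      wL chevE6 M r = M.foldr reflF r ∧ M.foldr reflF r < 72 := by
    intro M hM
    induction M with
    | nil => exact ⟨rfl, hr⟩
    | cons i M ih =>
      rw [List.forall_mem_cons] at hM
      obtain ⟨e, hlt⟩ := ih hM.2
      obtain ⟨e', hlt'⟩ := reflF_ok i hM.1 _ hlt
      exact ⟨by rw [List.foldr_cons, ← e', ← e]; rfl, hlt'⟩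
  exact key _ (wdN_lt L)

/-- The roots flipped by a word, as a check. -/
def inFlip (L : List (Fin 4)) (r : ℕ) : Bool :=
  Nat.ble 36 r && Nat.blt r 72 && Nat.blt (wf L r) 36

/-- The support of a commutator, from the table. -/
def commF (st : Bool) (k e : ℕ) : List ℕ :=
  ((commT.getD (if st then 1 else 0) []).getD k []).getD e []

/-- The flipped part is normalised by the Levi complement of the state. -/
def normChk (L : List (Fin 4)) (st : Bool) : Bool :=
  (List.range 72).all fun e => !inFlip L e || (!(rts st).contains e &&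
    (List.range 4).all fun k => (commF st k e).all (inFlip L))

theorem commF_ok : ∀ st : Bool, ∀ k < 4, ∀ e < 72, e ∈ rts st ∨
    ((chevE6.commTerms ((rts st).getD k 0) e).map fun q => q.1) = commF st k e := by
  decide +kernel

theorem rts_neg : ∀ st : Bool, ∀ a ∈ rts st, chevE6.neg a ∈ rts st := by decide +kernel

/-- The word of a step sends the state to the next one. -/
def movesTo (g : List (Fin 4)) (a b : Bool) : Bool :=
  (Nat.beq (wf g (rA a)) (rA b) && Nat.beq (wf g (rB a)) (rB b)) ||
    (Nat.beq (wf g (rA a)) (rB b) && Nat.beq (wf g (rB a)) (rA b))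

/-- The number of flipped roots, as a check. -/
def nFlip (L : List (Fin 4)) : ℕ := ((List.range 72).filter (inFlip L)).length

/-- One node against its parent. -/
def nodeChk (k : ℕ) : Bool :=
  let n := nodes.getD k ([], false, 0, 0, 0)
  let p := nodes.getD n.2.2.2.1 ([], false, 0, 0, 0)
  let s := steps.getD n.2.2.2.2 ([], false, false, [])
  Nat.blt n.2.2.2.1 k && Nat.blt n.2.2.2.2 6 && decide (n.1 = p.1 ++ s.1) && (n.2.1 == s.2.1) &&
    (p.2.1 == s.2.2.1) &&
    Nat.beq n.2.2.1 (p.2.2.1 * if s.2.2.2.isEmpty then 2 else 1) &&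
    ((List.range 72).all fun r => !inFlip s.1 r || inFlip n.1 r) &&
    ((List.range 72).all fun r => !inFlip p.1 r ||
      (inFlip n.1 (wf s.1.reverse r) && Nat.ble 36 (wf s.1 (wf s.1.reverse r)))) &&
    Nat.beq (nFlip n.1) (nFlip p.1 + nFlip s.1)

end CfsgLib.E6TwoFive
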