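/-! The six images of each final node, packed. -/

set_option autoImplicit false

namespace CfsgLib.E6TwoFive

/-- Packed images of the fundamental roots under the final nodes. -/
def nodeKeys : List (Nat × Nat) :=
  [(0, 1246965176120), (1, 1246981950648), (2, 1247755818936), (4, 1249886639032), (6, 1247785176120), (9, 1249888735288), (15, 1927717298852), (19, 1926928638628), (22, 1927971103524), (23, 1927782301988), (27, 1927954326436), (28, 1926978961700), (31, 1926926541604), (32, 1928048689316), (34, 1938912498596), (35, 1237902776120), (37, 1927687938980), (38, 1928048689188), (40, 1938910402468), (41, 1237904870584), (42, 1926978961572), (44, 1938914594852), (45, 1237900679096), (47, 1247690810296), (48, 1927782301732), (50, 1938914593828), (51, 1237900678072), (53, 1249836311352), (54, 1938910402340), (55, 1237904870456), (57, 1246887584696), (59, 1247785173048), (60, 1938912496804), (61, 1237902774328), (63, 1246887584568), (65, 1249888731320), (67, 1249836311224), (69, 1246981947448), (72, 1247690810040), (74, 1246965170360), (77, 1249886634296), (81, 1247755813176), (86, 1926926537636), (89, 1927687935908), (91, 1926928633892), (93, 1927717293092), (94, 1927954323236), (95, 1927971097764)]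

end CfsgLib.E6TwoFive
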