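import Cfsg.Agent.E6TwoFive.Checks
import Cfsg.Agent.E6TwoFive.KeyData

/-! Kernel checks classifying the Weyl words that fix the orbit. -/

set_option autoImplicit false
set_option maxRecDepth 100000

namespace CfsgLib.E6TwoFive

open Cfsg.Lie CfsgLib.Chevalley CfsgLib.TwistedLie CfsgLib.TwistedLie.E6

/-- The list of the Weyl words. -/
def allW : List (List (Fin 4)) :=
  reps4.flatMap fun c => (reps3.flatMap fun c => (reps2.flatMap fun c =>
    (reps1.flatMap fun c => [[]].map (c ++ ·)).map (c ++ ·)).map (c ++ ·)).map (c ++ ·)

/-- The packed images of the fundamental roots. -/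
def keyW (L : List (Fin 4)) : ℕ :=
  [56, 46, 42, 39, 37, 36].foldr (fun r acc => acc * 128 + wf L r) 0

/-- The word fixes or exchanges the orbit, as a check. -/
def hitsOrb (L : List (Fin 4)) : Bool :=
  let v := wf L 56
  let u := wf L 36
  Nat.beq v 56 || Nat.beq v 36 || Nat.beq u 56 || Nat.beq u 36

/-- The classification of the words fixing the orbit, as a check. -/
def clsChk (L : List (Fin 4)) : Bool :=
  bif hitsOrb L then (let m := keyW L; nodeKeys.any fun p => Nat.beq p.2 m) else true

theorem nodeKeys_ok : (nodeKeys.all fun p => (keepN ++ swapN).any (Nat.beq p.1) &&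
    Nat.beq (keyW (nodes.getD p.1 ([], false, 0, 0, 0)).1) p.2) = true := by decide +kernel

theorem cls_ok0 : ((allW.drop 0).take 144).all clsChk = true := by decide +kernel

theorem cls_ok1 : ((allW.drop 144).take 144).all clsChk = true := by decide +kernel

theorem cls_ok2 : ((allW.drop 288).take 144).all clsChk = true := by decide +kernel

theorem cls_ok3 : ((allW.drop 432).take 144).all clsChk = true := by decide +kernel

theorem cls_ok4 : ((allW.drop 576).take 144).all clsChk = true := by decide +kernel

theorem cls_ok5 : ((allW.drop 720).take 144).all clsChk = true := by decide +kernel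

theorem cls_ok6 : ((allW.drop 864).take 144).all clsChk = true := by decide +kernel

theorem cls_ok7 : ((allW.drop 1008).take 144).all clsChk = true := by decide +kernel

theorem allW_length : allW.length = 1152 := by decide +kernel

theorem cls_ok {M : List (Fin 4)} (hM : M ∈ allW) : clsChk M = true := by
  obtain ⟨i, hi, rfl⟩ := List.getElem_of_mem hM
  have hi' := allW_length ▸ hi
  have key : ∀ j < 8, ((allW.drop (144 * j)).take 144).all clsChk = true := by
    intro j hj
    interval_cases j
    exacts [cls_ok0, cls_ok1, cls_ok2, cls_ok3, cls_ok4, cls_ok5, cls_ok6, cls_ok7]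
  refine List.all_eq_true.mp (key (i / 144) (by omega)) _ ?_
  refine List.mem_iff_getElem.mpr ⟨i % 144, by simp; omega, ?_⟩
  simp [List.getElem_take, List.getElem_drop, Nat.div_add_mod]

end CfsgLib.E6TwoFive
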