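import Cfsg.Agent.E6TwoFive.Checks

/-! Kernel checks of the paths. -/

set_option autoImplicit false
set_option maxRecDepth 100000

namespace CfsgLib.E6TwoFive

open Cfsg.Lie CfsgLib.Chevalley CfsgLib.TwistedLie CfsgLib.TwistedLie.E6 CfsgLib.Fi22Twist

theorem nodes_ok0 : (List.range 16).all (fun k => Nat.ble 96 (16 * 0 + k + 1) || nodeChk (16 * 0 + k + 1)) = true := by
  decide +kernel

theorem nodes_ok1 : (List.range 16).all (fun k => Nat.ble 96 (16 * 1 + k + 1) || nodeChk (16 * 1 + k + 1)) = true := by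
  decide +kernel

theorem nodes_ok2 : (List.range 16).all (fun k => Nat.ble 96 (16 * 2 + k + 1) || nodeChk (16 * 2 + k + 1)) = true := by
  decide +kernel

theorem nodes_ok3 : (List.range 16).all (fun k => Nat.ble 96 (16 * 3 + k + 1) || nodeChk (16 * 3 + k + 1)) = true := by
  decide +kernel

theorem nodes_ok4 : (List.range 16).all (fun k => Nat.ble 96 (16 * 4 + k + 1) || nodeChk (16 * 4 + k + 1)) = true := by
  decide +kernel

theorem nodes_ok5 : (List.range 16).all (fun k => Nat.ble 96 (16 * 5 + k + 1) || nodeChk (16 * 5 + k + 1)) = true := by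
  decide +kernel

theorem nodes_ok {k : ℕ} (h1 : 1 ≤ k) (h2 : k < 96) : nodeChk k = true := by
  have key : ∀ j < 6, (List.range 16).all (fun k => Nat.ble 96 (16 * j + k + 1) || nodeChk (16 * j + k + 1)) = true := by
    intro j hj
    interval_cases j
    exacts [nodes_ok0, nodes_ok1, nodes_ok2, nodes_ok3, nodes_ok4, nodes_ok5]
  have h := List.all_eq_true.mp (key ((k - 1) / 16) (by omega)) ((k - 1) % 16)
    (List.mem_range.mpr (Nat.mod_lt _ (by omega)))
  rw [show 16 * ((k - 1) / 16) + (k - 1) % 16 + 1 = k by omega, Bool.or_eq_true, Nat.ble_eq] at h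
  exact h.resolve_left (by omega)

end CfsgLib.E6TwoFive
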