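import Cfsg.Agent.E6TwoFive.Checks

/-! Kernel checks of the paths. -/

set_option autoImplicit false
set_option maxRecDepth 100000

namespace CfsgLib.E6TwoFive

open Cfsg.Lie CfsgLib.Chevalley CfsgLib.TwistedLie CfsgLib.TwistedLie.E6 CfsgLib.Fi22Twist

theorem norm_ok0 : ((nodes.drop 0).take 24).all (fun n => normChk n.1 n.2.1) = true := by
  decide +kernel

theorem norm_ok1 : ((nodes.drop 24).take 24).all (fun n => normChk n.1 n.2.1) = true := by
  decide +kernel

theorem norm_ok2 : ((nodes.drop 48).take 24).all (fun n => normChk n.1 n.2.1) = true := by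
  decide +kernel

theorem norm_ok3 : ((nodes.drop 72).take 24).all (fun n => normChk n.1 n.2.1) = true := by
  decide +kernel

theorem norm_ok {k : ℕ} (hk : k < 96) :
    normChk (nodes.getD k ([], false, 0, 0, 0)).1 (nodes.getD k ([], false, 0, 0, 0)).2.1 = true := by
  have key : ∀ j < 4, ((nodes.drop (24 * j)).take 24).all (fun n => normChk n.1 n.2.1) = true := by
    intro j hj
    interval_cases j
    exacts [norm_ok0, norm_ok1, norm_ok2, norm_ok3]
  have hl : nodes.length = 96 := rfl
  refine List.all_eq_true.mp (key (k / 24) (by omega)) _ ?_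
  rw [List.getD_eq_getElem _ _ (by omega)]
  refine List.mem_iff_getElem.mpr ⟨k % 24, by simp; omega, ?_⟩
  simp [List.getElem_take, List.getElem_drop, Nat.div_add_mod]

theorem norm_steps : (steps.all fun s => normChk s.1 s.2.1 && movesTo s.1 s.2.1 s.2.2.1 &&
    Nat.beq (nFlip s.1) (if s.2.2.2.isEmpty then 1 else 4) &&
    s.2.2.2.all fun e => inFlip s.1 e.1 && Nat.blt e.2 4) = true := by decide +kernel

end CfsgLib.E6TwoFive
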