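import Cfsg.Agent.E6TwoFive.Letters
import Cfsg.Agent.E6TwoFive.SparseData

/-!
Words in literal root elements, evaluated by row operations on a matrix packed into two numbers.
-/

set_option autoImplicit false
set_option maxRecDepth 100000

namespace CfsgLib.E6TwoFive

open Cfsg.Lie CfsgLib.Chevalley CfsgLib.Fi22Twist

local notation "S" => sysE6

/-- The columns of the identity plus sparse entries. -/
def colE : List (ℕ × ℕ × ℕ) → ℕ → V
  | [], i => mon i 1
  | e :: E, i => vadd (pick (Nat.beq e.2.1 i) (mon e.1 e.2.2)) (colE E i)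

/-- The row `i` of a packed matrix moved to row `j`. -/
def moveRow (x i j : ℕ) : ℕ := ((x >>> (78 * i)) % 2 ^ 78) <<< (78 * j)

/-- One entry times a packed matrix. -/
def contrib (M : V) (e : ℕ × ℕ × ℕ) : V :=
  let v : V := (moveRow M.1 e.2.1 e.1, moveRow M.2 e.2.1 e.1)
  vadd (pick (e.2.2.testBit 0) v) (pick (e.2.2.testBit 1) (wmul v))

/-- The identity plus sparse entries, times a packed matrix. -/
def opE : List (ℕ × ℕ × ℕ) → V → V
  | [], M => M
  | e :: E, M => vadd (contrib M e) (opE E M)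

/-- The packed identity matrix. -/
def idF : V := ((List.range 78).foldr (fun i acc => (1 <<< (79 * i)) ||| acc) 0, 0)

/-- The entries of a letter. -/
def entOf (e : ℕ × ℕ) : Option (List (ℕ × ℕ × ℕ)) :=
  (sparse.find? fun x => Nat.beq x.1.1 e.1 && Nat.beq x.1.2 e.2).map fun x => x.2.2

/-- A word in literal root elements as a packed matrix. -/
def fW : List (ℕ × ℕ) → V
  | [] => idF
  | e :: L => opE ((entOf e).getD []) (fW L)

/-- The word has literal letters only. -/
def okF (L : List (ℕ × ℕ)) : Bool := L.all fun e => (entOf e).isSome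

/-- Two words have the same matrix, as a check. -/
def sameF (A B : List (ℕ × ℕ)) : Bool :=
  okF A && okF B && Nat.beq (fW A).1 (fW B).1 && Nat.beq (fW A).2 (fW B).2

/-- Two words have different matrices, as a check. -/
def diffF (A B : List (ℕ × ℕ)) : Bool :=
  okF A && okF B &&
    !Nat.beq ((((fW A).1 ^^^ (fW B).1) ||| ((fW A).2 ^^^ (fW B).2)) % 2 ^ (78 * 78)) 0

theorem sparse_ok : (sparse.all fun x => Nat.blt x.1.1 72 && Nat.blt x.1.2 4 &&
    eqP ((List.range 78).map (colE x.2.2)) x.2.1 &&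
    x.2.2.all fun e => Nat.blt e.1 78 && Nat.blt e.2.1 78 && Nat.blt e.2.2 4) = true := by
  decide +kernel

theorem sparse_mem : (sparse.map fun x => (x.1, x.2.1)) = letters := by rfl

theorem idF_bits : ∀ r < 78, ∀ c < 78, (idF.1.testBit (78 * r + c) = decide (r = c)) := by
  decide +kernel

variable {K : Type*} [Field K] (w : K)

/-- The matrix of a packed matrix. -/
def toF (M : V) : Matrix chevE6.Idx chevE6.Idx K :=
  fun r c => val w M (78 * enc chevE6 r + enc chevE6 c)

/-- The matrix of sparse entries. -/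
def matE : List (ℕ × ℕ × ℕ) → Matrix chevE6.Idx chevE6.Idx K
  | [] => 1
  | e :: E => Matrix.of (fun r c => if enc chevE6 r = e.1 ∧ enc chevE6 c = e.2.1 then cv w e.2.2 else 0) + matE E

theorem enc_lt (r : chevE6.Idx) : enc chevE6 r < 78 := by
  rcases r with j | s
  · have h : (j : ℕ) < 6 := j.isLt
    simp only [enc]
    omega
  · have h : (s : ℕ) < 72 := s.isLt
    show chevE6.rank + (s : ℕ) < 78
    change 6 + (s : ℕ) < 78
    omega

theorem enc_surj {n : ℕ} (h : n < 78) : ∃ r : chevE6.Idx, enc chevE6 r = n := exists_enc ⟨n, h⟩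

theorem toF_id : toF w idF = 1 := by
  ext r c
  rw [toF, Matrix.one_apply]
  simp only [val, show idF.2 = 0 from rfl, Nat.zero_testBit, idF_bits _ (enc_lt r) _ (enc_lt c),
    decide_eq_true_eq, (enc_injective chevE6).eq_iff, if_false, add_zero, Bool.false_eq_true]

variable [CharP K 2]

theorem toMat_colE : ∀ E : List (ℕ × ℕ × ℕ),
    toMat chevE6 w ((List.range 78).map (colE E)) = matE w E
  | [] => by
    show toMat chevE6 w ((List.range 78).map fun i => mon i 1) = 1
    exact toMat_idP chevE6 w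
  | e :: E => by
    funext r c
    rw [matE, Matrix.add_apply, ← toMat_colE E]
    simp only [toMat, List.getD_eq_getElem?_getD, List.getElem?_map, List.getElem?_range (enc_lt c),
      Option.map_some, Option.getD_some, colE, val_vadd, val_pick, val_mon]
    congr 1
    rw [Matrix.of_apply]
    by_cases h1 : e.2.1 = enc chevE6 c
    · rw [if_pos (Nat.beq_eq.mpr h1 : Nat.beq e.2.1 (enc chevE6 c) = true), one_mul]
      exact if_congr ⟨fun h => ⟨h, h1.symm⟩, And.left⟩ rfl rfl
    · rw [if_neg (fun h => h1 (Nat.beq_eq.mp h)), zero_mul, if_neg fun h => h1 h.2.symm]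

theorem testBit_moveRow (x i j : ℕ) {r c : ℕ} (hc : c < 78) :
    (moveRow x i j).testBit (78 * r + c) = (decide (r = j) && x.testBit (78 * i + c)) := by
  rw [moveRow, Nat.testBit_shiftLeft, Nat.testBit_mod_two_pow, Nat.testBit_shiftRight]
  by_cases h : r = j
  · subst h
    simp [hc, Nat.le_add_right, Nat.add_sub_cancel_left]
  · rcases Nat.lt_or_gt_of_ne h with hlt | hgt
    · have : ¬ 78 * j ≤ 78 * r + c := by omega
      simp [this, h]
    · have : ¬ 78 * r + c - 78 * j < 78 := by omega
      simp [this, h]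

variable (hw : w * w = w + 1)
include hw

theorem toF_opE : ∀ (E : List (ℕ × ℕ × ℕ)) (M : V),
    (∀ e ∈ E, e.2.1 < 78 ∧ e.2.2 < 4) → toF w (opE E M) = matE w E * toF w M
  | [], M, _ => by simp [opE, matE]
  | e :: E, M, h => by
    rw [List.forall_mem_cons] at h
    funext r c
    rw [matE, add_mul, Matrix.add_apply, ← toF_opE E M h.2]
    simp only [toF, opE, val_vadd]
    congr 1
    obtain ⟨i, hi⟩ := enc_surj h.1.1
    have hv : ∀ (a b : ℕ), val w ((moveRow M.1 e.2.1 e.1, moveRow M.2 e.2.1 e.1) : V) (78 * a + b) =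
        if b < 78 then (if a = e.1 then val w M (78 * e.2.1 + b) else 0)
        else val w ((moveRow M.1 e.2.1 e.1, moveRow M.2 e.2.1 e.1) : V) (78 * a + b) := by
      intro a b
      by_cases hb : b < 78
      · rw [if_pos hb]
        by_cases ha : a = e.1 <;> simp [val, testBit_moveRow _ _ _ hb, ha]
      · rw [if_neg hb]
    rw [contrib, val_vadd, val_pick, val_pick, val_wmul w hw, hv, if_pos (enc_lt c)]
    rw [Matrix.mul_apply, Finset.sum_eq_single i (fun b _ hb => ?_) (fun hni => absurd (Finset.mem_univ _) hni)]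
    · rw [Matrix.of_apply, hi]
      by_cases hr : enc chevE6 r = e.1
      · simp only [hr, and_self, if_true]
        show _ = cv w e.2.2 * val w M _
        simp only [cv, toF, hi]
        split_ifs <;> ring
      · simp [hr]
    · rw [Matrix.of_apply, if_neg fun hh => hb (enc_injective chevE6 (hh.2.trans hi.symm)), zero_mul]

variable [Fintype K]

theorem ev_fW : ∀ {L : List (ℕ × ℕ)}, okF L = true →
    (ev w L : Matrix chevE6.Idx chevE6.Idx K) = toF w (fW L)
  | [], _ => by
    rw [show fW [] = idF from rfl, toF_id]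
    simp [ev, Sys.wG]
  | e :: L, h => by
    simp only [okF, List.all_cons, Bool.and_eq_true] at h
    obtain ⟨h1, h2⟩ := h
    obtain ⟨E, hE⟩ := Option.isSome_iff_exists.mp h1
    rw [show fW (e :: L) = opE ((entOf e).getD []) (fW L) from rfl, hE, Option.getD_some]
    obtain ⟨x, hx, rfl⟩ := Option.map_eq_some_iff.mp hE
    have hm := List.mem_of_find?_eq_some hx
    have hp := List.find?_some hx
    simp only [Bool.and_eq_true, Nat.beq_eq] at hp
    have hok := List.all_eq_true.mp sparse_ok x hm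
    simp only [Bool.and_eq_true, Nat.blt_eq, List.all_eq_true] at hok
    obtain ⟨⟨⟨hr, ha⟩, hcol⟩, hent⟩ := hok
    have hl : (x.1, x.2.1) ∈ letters := sparse_mem ▸ List.mem_map.mpr ⟨x, hm, rfl⟩
    rw [toF_opE w hw _ _ fun q hq => ⟨(hent q hq).1.2, (hent q hq).2⟩, ← ev_fW h2, ← toMat_colE,
      eqP_iff.mp hcol, show x.2.1 = matX chevE6 x.1.1 x.1.2 from (eqP_iff.mp (letters_ok _ hl)).symm,
      toMat_matX chevE6 w hw sysE6.wf hr ha]
    have e1 : ev w (e :: L) = Sys.xG S K e.1 (cv w e.2) * ev w L := by simp [ev, Sys.wG]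
    rw [e1, Units.val_mul, Sys.xG_val, hp.1, hp.2]

theorem ev_eqF {A B : List (ℕ × ℕ)} (h : sameF A B = true) : ev w A = ev w B := by
  simp only [sameF, Bool.and_eq_true, Nat.beq_eq] at h
  obtain ⟨⟨⟨hA, hB⟩, h1⟩, h2⟩ := h
  exact Units.ext (by rw [ev_fW w hw hA, ev_fW w hw hB, show fW A = fW B from Prod.ext h1 h2])

theorem ev_neF {A B : List (ℕ × ℕ)} (h : diffF A B = true) : ev w A ≠ ev w B := by
  simp only [diffF, Bool.and_eq_true, Bool.not_eq_true', ← Bool.not_eq_true, Nat.beq_eq] at h
  obtain ⟨⟨hA, hB⟩, hne⟩ := h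
  intro e
  obtain ⟨p, hp⟩ := Nat.exists_testBit_of_ne_zero hne
  rw [Nat.testBit_mod_two_pow, Bool.and_eq_true, decide_eq_true_eq, Nat.testBit_or, Nat.testBit_xor,
    Nat.testBit_xor] at hp
  obtain ⟨r, hr⟩ := enc_surj (show p / 78 < 78 by omega)
  obtain ⟨c, hc⟩ := enc_surj (Nat.mod_lt p (show 78 > 0 by norm_num))
  have e1 := congrArg Units.val e
  rw [ev_fW w hw hA, ev_fW w hw hB] at e1
  have e2 := congrFun (congrFun e1 r) c
  rw [toF, toF, hr, hc, Nat.div_add_mod, val_code, val_code] at e2
  have e3 := cv_inj w hw (by split_ifs <;> omega) (by split_ifs <;> omega) e2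
  obtain ⟨-, h2⟩ := hp
  revert e3 h2
  cases (fW A).1.testBit p <;> cases (fW B).1.testBit p <;> cases (fW A).2.testBit p <;>
    cases (fW B).2.testBit p <;> simp

end CfsgLib.E6TwoFive
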