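import Cfsg.Agent.E6TwoFive.Checks
import Cfsg.Agent.E6TwoFive.Fast

/-! Kernel checks of the elements of order five. -/

set_option autoImplicit false
set_option maxRecDepth 100000

namespace CfsgLib.E6TwoFive

theorem tri_comm : ∀ st : Bool, ∀ c ∈ [2, 3],
    sameF (yW (rB st) (rA st) c) (yS st (5 - c)) = true := by decide +kernel

theorem y5_ok : ∀ st : Bool, ∀ c ∈ [2, 3],
    sameF (yS st c ++ yS st c ++ yS st c ++ yS st c ++ yS st c) [] = true := by decide +kernel

theorem wit_ok : ∀ k : Fin 6, ∀ c ∈ [2, 3],
    (steps.getD k.1 ([], false, false, [])).2.2.2 = [] ∨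
      diffF (yS (steps.getD k.1 ([], false, false, [])).2.1 c ++
            (steps.getD k.1 ([], false, false, [])).2.2.2)
          ((steps.getD k.1 ([], false, false, [])).2.2.2 ++
            yS (steps.getD k.1 ([], false, false, [])).2.1 c) = true := by decide +kernel

end CfsgLib.E6TwoFive
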