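import Cfsg.Agent.E6TwoFive.Fusion
import Cfsg.Agent.E6TwoFive.Assembly

/-! All elements of order five are conjugate to the chosen one. -/

set_option autoImplicit false

namespace CfsgLib.E6TwoFive

open Cfsg.Lie CfsgLib.Chevalley CfsgLib.TwistedLie CfsgLib.Fi22Twist

variable {K : Type*} [Field K] [Fintype K] [CharP K 2] (hK : Fintype.card K = 2 ^ 2) (w : K)
  (hw : w * w = w + 1)

include hw in
theorem exists_conj_x0 {z : GL chevE6.Idx K} (hz : z ∈ (TW hK).G) (ho : orderOf z = 5) :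
    ∃ g ∈ (TW hK).G, g * z * g⁻¹ = x0 w := by
  obtain ⟨g, hg, e⟩ := exists_conj_Y hK w hw hz ho
  obtain ⟨h, hh, e'⟩ := exists_conj_Y hK w hw (x0_mem hK w hw) (orderOf_x0 hK w hw)
  refine ⟨h⁻¹ * g, mul_mem (Subgroup.inv_mem _ hh) hg, ?_⟩
  calc h⁻¹ * g * z * (h⁻¹ * g)⁻¹ = h⁻¹ * (g * z * g⁻¹) * h := by group
    _ = x0 w := by rw [e, ← e']; group

end CfsgLib.E6TwoFive
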