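import Cfsg.Agent.E6TwoFive.Setup

/-!
The parabolic subgroup of the orbit `{p₁, p₆}`, the normal form of its right cosets, and the
size of its orbits on them.
-/

set_option autoImplicit false

namespace CfsgLib.E6TwoFive

open Cfsg.Lie CfsgLib.Chevalley CfsgLib.TwistedLie CfsgLib.TwistedLie.E6

local notation "S" => sysE6

variable {K : Type*} [Field K] [Fintype K] (hK : Fintype.card K = 2 ^ 2)

local notation "T2" => TW hK
local notation "Bo" => Tw.B1 (TW hK)

/-- The Weyl element of a word, in the general linear group. -/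
noncomputable def nn (L : List (Fin 4)) : GL chevE6.Idx K := ((TW hK).nW L : GL chevE6.Idx K)

/-- The Weyl element of the orbit `{p₁, p₆}`. -/
noncomputable def n3 : GL chevE6.Idx K := nn hK [3]

/-- The parabolic subgroup. -/
noncomputable def Pj : Subgroup (GL chevE6.Idx K) :=
  Subgroup.closure ((Tw.B1 (TW hK) : Set (GL chevE6.Idx K)) ∪ {n3 hK})

/-- The inverse of a word keeps the orbit positive. -/
def Pos (L : List (Fin 4)) : Prop :=
  36 ≤ wL chevE6 (wdN L.reverse) 56 ∧ 36 ≤ wL chevE6 (wdN L.reverse) 36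

theorem cls_three {r : ℕ} : r ∈ (TW hK).cls 3 ↔ r = 56 ∨ r = 36 := by
  show (∃ a ∈ blkF 3, chevE6.simple (a : ℕ) = r) ↔ _
  obtain ⟨s0, -, -, -, -, s5⟩ := E6.simple_eq
  constructor
  · rintro ⟨a, ha, rfl⟩
    rw [mem_blkF, show blkN 3 = [0, 5] from rfl] at ha
    simp only [List.mem_cons, List.not_mem_nil, or_false] at ha
    rcases ha with h | h <;> rw [h]
    · exact Or.inl s0
    · exact Or.inr s5
  · rintro (rfl | rfl)
    · exact ⟨⟨0, by decide⟩, by rw [mem_blkF]; decide, s0⟩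
    · exact ⟨⟨5, by decide⟩, by rw [mem_blkF]; decide, s5⟩

theorem perm_val (L : List (Fin 4)) (s : Fin chevE6.nroots) :
    (Sys.perm S K ((T2).nW L) s : ℕ) = wL chevE6 (wdN L) s := by
  rw [Tw.perm_nW]
  exact wperm_flat L s

theorem flip_mem {L : List (Fin 4)} {r : ℕ} :
    r ∈ Sys.flipSet S K ((T2).nW L) ↔ r < 72 ∧ wL chevE6 (wdN L) r < 36 := by
  constructor
  · rintro ⟨h, h'⟩
    rw [perm_val] at h'
    exact ⟨h, h'⟩
  · rintro ⟨h, h'⟩
    exact ⟨h, by rw [perm_val]; exact h'⟩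

theorem kept_mem {L : List (Fin 4)} {r : ℕ} :
    r ∈ Sys.keptSet S K ((T2).nW L) ↔ r < 72 ∧ 36 ≤ wL chevE6 (wdN L) r := by
  constructor
  · rintro ⟨h, h'⟩
    rw [perm_val] at h'
    exact ⟨h, h'⟩
  · rintro ⟨h, h'⟩
    exact ⟨h, by rw [perm_val]; exact h'⟩

theorem nn_mem (L : List (Fin 4)) : nn hK L ∈ (T2).G := (T2).nW_mem L

theorem nn_append (A B : List (Fin 4)) : nn hK (A ++ B) = nn hK A * nn hK B := by
  simp [nn, Tw.nW_append]

theorem nn_cons (i : Fin 4) (L : List (Fin 4)) : nn hK (i :: L) = nn hK [i] * nn hK L :=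
  nn_append hK [i] L

theorem nn_eq {L L' : List (Fin 4)} (h : (T2).wW L = (T2).wW L') :
    ∃ t ∈ (T2).T, nn hK L = nn hK L' * t := by
  refine ⟨(nn hK L')⁻¹ * nn hK L, ?_, (mul_inv_cancel_left _ _).symm⟩
  have h1 : ((T2).nW L')⁻¹ * (T2).nW L ∈ hSub chevE6 K := by
    rw [← Sys.perm_eq_iff S K, Tw.perm_nW, Tw.perm_nW, h]
  exact (T2).diag_inf ▸ (show (nn hK L')⁻¹ * nn hK L ∈ chevE6.diagonalSubgroup K ⊓ (T2).G from
    ⟨h1, mul_mem (Subgroup.inv_mem _ (nn_mem hK L')) (nn_mem hK L)⟩)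

/-- Moving an element of the Borel part across a Weyl element. -/
theorem push (L : List (Fin 4)) {b : GL chevE6.Idx K} (hb : b ∈ Bo) :
    ∃ b' ∈ Bo, ∃ f ∈ (T2).flipFix L, nn hK L * b = b' * nn hK L * f := by
  obtain ⟨u, hu, t, ht, rfl⟩ := (T2).mem_B1.mp hb
  have hu' : t⁻¹ * u * t ∈ chevE6.posUnipotent K ⊓ (T2).G := by
    have := (Subgroup.mem_normalizer_iff.mp ((T2).T_normalizes (inv_mem ht)) u).mp hu
    simpa using this
  obtain ⟨hu1, hu2⟩ := hu'
  set n := (T2).nW L with hn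
  rw [← Sys.uSub_kept_union_flip S K n] at hu1
  obtain ⟨p, hp, x, hx, ex⟩ := Sys.uSub_union_mul S K (Sys.closed_keptSet S K n)
    (Sys.closed_flipSet S K n) (Sys.closed_kept_union_flip S K n) hu1
  have h1 : (T2).σ p * (T2).σ x = p * x := by
    rw [← (T2).σ_mul p ((T2).uSub_mem_group hp) x ((T2).uSub_mem_group hx), ← ex, (T2).σ_mem hu2]
  have hkey : p⁻¹ * (T2).σ p = x * ((T2).σ x)⁻¹ := by
    rw [inv_mul_eq_iff_eq_mul, ← mul_assoc, ← h1, mul_inv_cancel_right]
  have hb0 : p⁻¹ * (T2).σ p ∈ uSub chevE6 K (Sys.keptSet S K n) ⊓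
      uSub chevE6 K (Sys.flipSet S K n) :=
    Subgroup.mem_inf.mpr ⟨mul_mem (inv_mem hp) ((T2).σ_kept _ hp),
      hkey ▸ mul_mem hx (inv_mem ((T2).σ_flip _ hx))⟩
  rw [Tw.kept_inf_flip, Subgroup.mem_bot, inv_mul_eq_one] at hb0
  have hσx : (T2).σ x = x := by
    rw [← hb0] at h1
    exact mul_left_cancel h1
  have hxF : x ∈ (T2).flipFix L := (T2).mem_flipFix.mpr ⟨hx, hσx⟩
  have hpG : p ∈ (T2).G := by
    have := mul_mem hu2 (Subgroup.inv_mem _ ((T2).flipFix_le_G _ hxF))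
    rwa [ex, mul_inv_cancel_right] at this
  have hp' : (n : GL chevE6.Idx K) * p * (n : GL chevE6.Idx K)⁻¹ ∈
      chevE6.borelSubgroup K ⊓ (T2).G :=
    ⟨Subgroup.mem_sup_left (Sys.conj_kept S K n hp),
      mul_mem (mul_mem (nn_mem hK L) hpG) (Subgroup.inv_mem _ (nn_mem hK L))⟩
  rw [(T2).borel_inf] at hp'
  refine ⟨((n : GL chevE6.Idx K) * t * (n : GL chevE6.Idx K)⁻¹) *
    ((n : GL chevE6.Idx K) * p * (n : GL chevE6.Idx K)⁻¹),
    mul_mem ((T2).T_le_B1 ((T2).T_word_conj _ ht).1) hp', x, hxF, ?_⟩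
  rw [show u * t = t * (p * x) by rw [← ex]; group]
  simp only [nn, ← hn]
  group

theorem flip_le_U {L : List (Fin 4)} {f : GL chevE6.Idx K} (hf : f ∈ (T2).flipFix L) :
    f ∈ chevE6.posUnipotent K ⊓ (T2).G :=
  ⟨uSub_le_posUnipotent K _ ((T2).mem_flipFix.mp hf).1, (T2).flipFix_le_G L hf⟩

theorem flip_le_B1 {L : List (Fin 4)} {f : GL chevE6.Idx K} (hf : f ∈ (T2).flipFix L) : f ∈ Bo :=
  (T2).U_le_B1 (flip_le_U hK hf)

theorem flip_three {f : GL chevE6.Idx K} (hf : f ∈ (T2).flipFix [3]) : f ∈ (T2).X 3 := by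
  obtain ⟨h1, h2⟩ := (T2).mem_flipFix.mp hf
  exact (T2).X_full 3 f ((T2).flip_blk 3 ▸ h1) h2

theorem X_mem_flip {f : GL chevE6.Idx K} (hf : f ∈ (T2).X 3) : f ∈ (T2).flipFix [3] :=
  (T2).mem_flipFix.mpr ⟨(T2).flip_blk 3 ▸ (T2).X_le 3 hf, (T2).σ_mem ((T2).X_mem 3 hf)⟩

theorem n3_eq : n3 hK = (Sys.wN S K ((T2).blk 3) : GL chevE6.Idx K) := by
  simp [n3, nn, Tw.nW_single]

theorem n3_sq : n3 hK * n3 hK ∈ (T2).T := by rw [n3_eq]; exact (T2).n_sq 3

theorem n3_mem_Pj : n3 hK ∈ Pj hK := Subgroup.subset_closure (Or.inr rfl)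

theorem B1_le_Pj : Bo ≤ Pj hK := fun _ h => Subgroup.subset_closure (Or.inl h)

theorem Pj_le : Pj hK ≤ (T2).G := by
  refine (Subgroup.closure_le _).mpr ?_
  rintro g (hg | rfl)
  · exact ((T2).B1_le hg).2
  · exact nn_mem hK [3]

/-- The two double cosets of the parabolic subgroup. -/
def InTwo (p : GL chevE6.Idx K) : Prop :=
  p ∈ Bo ∨ ∃ b ∈ Bo, ∃ f ∈ (T2).flipFix [3], p = b * n3 hK * f

theorem inTwo_n3_mul {p : GL chevE6.Idx K} (hp : InTwo hK p) : InTwo hK (n3 hK * p) := by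
  rcases hp with hp | ⟨b, hb, f, hf, rfl⟩
  · obtain ⟨b', hb', g, hg, e⟩ := push hK [3] hp
    exact Or.inr ⟨b', hb', g, hg, e⟩
  · obtain ⟨b', hb', g, hg, e⟩ := push hK [3] hb
    have e' : n3 hK * (b * n3 hK * f) = b' * n3 hK * g * n3 hK * f := by
      rw [show n3 hK = nn hK [3] from rfl, ← e]; group
    rw [e']
    have hsq := n3_sq hK
    by_cases h1 : g = 1
    · subst h1
      refine Or.inl ?_
      rw [mul_one, mul_assoc b']
      exact mul_mem (mul_mem hb' ((T2).T_le_B1 hsq)) (flip_le_B1 hK hf)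
    · obtain ⟨x', hx', t, ht, x'', hx'', e3⟩ := (T2).rank_one 3 g (flip_three hK hg) h1
      rw [← n3_eq] at e3
      have hmid : t * x'' * (n3 hK * n3 hK) * f ∈ Bo :=
        mul_mem (mul_mem (mul_mem ((T2).T_le_B1 ht)
          ((T2).U_le_B1 ((T2).X_le_U 3 hx''))) ((T2).T_le_B1 hsq)) (flip_le_B1 hK hf)
      obtain ⟨b2, hb2, g2, hg2, e4⟩ := push hK [3] hmid
      refine Or.inr ⟨b' * x' * b2, mul_mem (mul_mem hb' ((T2).U_le_B1 hx')) hb2, g2, hg2, ?_⟩
      calc b' * n3 hK * g * n3 hK * f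
          = b' * (n3 hK * g * (n3 hK)⁻¹) * (n3 hK * n3 hK) * f := by group
        _ = b' * x' * (n3 hK * (t * x'' * (n3 hK * n3 hK) * f)) := by rw [e3]; group
        _ = b' * x' * (b2 * n3 hK * g2) := by
          rw [show n3 hK * (t * x'' * (n3 hK * n3 hK) * f) = b2 * n3 hK * g2 from e4]
        _ = _ := by simp only [mul_assoc]

theorem mem_Pj {p : GL chevE6.Idx K} (hp : p ∈ Pj hK) : InTwo hK p := by
  have hl : ∀ a ∈ Bo, ∀ y, InTwo hK y → InTwo hK (a * y) := by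
    rintro a ha y (hy | ⟨b, hb, f, hf, rfl⟩)
    · exact Or.inl (mul_mem ha hy)
    · exact Or.inr ⟨a * b, mul_mem ha hb, f, hf, by simp only [mul_assoc]⟩
  induction hp using Subgroup.closure_induction_left with
  | one => exact Or.inl (one_mem _)
  | mul_left a ha y _ ih =>
    rcases ha with ha | rfl
    · exact hl a ha y ih
    · exact inTwo_n3_mul hK ih
  | inv_mul_cancel a ha y _ ih =>
    rcases ha with ha | rfl
    · exact hl a⁻¹ (inv_mem ha) y ih
    · have e : (n3 hK)⁻¹ * y = (n3 hK * n3 hK)⁻¹ * (n3 hK * y) := by group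
      rw [e]
      exact hl _ (inv_mem ((T2).T_le_B1 (n3_sq hK))) _ (inTwo_n3_mul hK ih)

theorem conj_neg {L : List (Fin 4)} {u : GL chevE6.Idx K} (hu : u ∈ (T2).flipFix L) :
    nn hK L * u * (nn hK L)⁻¹ ∈ chevE6.negUnipotent K := by
  have hle : uSub chevE6 K (Sys.flipSet S K ((T2).nW L)) ≤
      (chevE6.negUnipotent K).comap (MulAut.conj (nn hK L)).toMonoidHom := by
    refine Sys.uSub_le S K fun r hr h1 h2 t => ?_
    obtain ⟨h, hf⟩ := hr
    obtain ⟨c, -, hct⟩ := Sys.conj_root S K ((T2).nW L) ⟨r, h⟩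
    rw [Subgroup.mem_comap, MulEquiv.coe_toMonoidHom, MulAut.conj_apply, nn,
      show Sys.xG S K r t = Sys.xG S K ((⟨r, h⟩ : Fin chevE6.nroots) : ℕ) t from rfl, (hct t).1]
    exact Sys.xG_mem_negUnipotent S K hf _
  exact hle ((T2).mem_flipFix.mp hu).1

theorem wW_reverse_val (L : List (Fin 4)) (s : Fin chevE6.nroots) :
    (((T2).wW L)⁻¹ s : ℕ) = wL chevE6 (wdN L.reverse) s := by
  rw [← Tw.wW_reverse]
  exact wperm_flat _ s

theorem pos_iff_neg {L : List (Fin 4)} (h : Pos L) : ¬ Pos (3 :: L) := by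
  intro h'
  obtain ⟨h1, -⟩ := h
  obtain ⟨h1', h2'⟩ := h'
  rw [List.reverse_cons, wdN, List.flatMap_append] at h1' h2'
  have hw : ∀ r, wL chevE6 (wdN L.reverse ++ [0, 5]) r =
      wL chevE6 (wdN L.reverse) (wL chevE6 [0, 5] r) := fun r => by simp [wL]
  change 36 ≤ wL chevE6 (wdN L.reverse ++ [0, 5]) 56 at h1'
  rw [hw, show wL chevE6 [0, 5] 56 = 15 by decide +kernel] at h1'
  have e := congrArg Fin.val (Sys.wperm_negF S (L.reverse.flatMap blkF) ⟨56, by decide⟩)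
  rw [wperm_flat] at e
  change wL chevE6 (wdN L.reverse) (chevE6.neg 56) = _ at e
  rw [show chevE6.neg 56 = 15 by decide +kernel] at e
  have hneg : (Sys.negF S (Sys.wperm S (L.reverse.flatMap blkF) ⟨56, by decide⟩) : ℕ) < 36 :=
    (Sys.lt_half_negF S).mpr (by rw [wperm_flat]; exact h1)
  omega

/-- The normal form of a right coset is unique. -/
theorem coset_unique {L L' : List (Fin 4)} (hL : Pos L) (hL' : Pos L') {u u' p : GL chevE6.Idx K}
    (hu : u ∈ (T2).flipFix L) (hu' : u' ∈ (T2).flipFix L') (hp : p ∈ Pj hK)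
    (h : nn hK L * u = p * nn hK L' * u') : (T2).wW L = (T2).wW L' ∧ u = u' := by
  have hB : ∀ {g : GL chevE6.Idx K}, g ∈ Bo → g ∈ chevE6.borelSubgroup K := fun hg => ((T2).B1_le hg).1
  rcases mem_Pj hK hp with hb | ⟨b, hb, f, hf, rfl⟩
  · have hd := Sys.bruhat_unique S K (one_mem _) (hB (flip_le_B1 hK hu)) (hB hb)
      (hB (flip_le_B1 hK hu')) ((T2).nW L).2 ((T2).nW L').2
      (show 1 * nn hK L * u = p * nn hK L' * u' by rw [one_mul, h])
    have hw : (T2).wW L = (T2).wW L' := by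
      rw [← Tw.perm_nW, ← Tw.perm_nW]
      exact (Sys.perm_eq_iff S K).mpr hd
    obtain ⟨t, ht, e⟩ := nn_eq hK hw.symm
    refine ⟨hw, ?_⟩
    have hfl : (T2).flipFix L' = (T2).flipFix L := by
      have : Sys.flipSet S K ((T2).nW L') = Sys.flipSet S K ((T2).nW L) := by
        simp only [Sys.flipSet, Tw.perm_nW, hw]
      rw [Tw.flipFix, Tw.flipFix, this]
    have e' : 1 * nn hK L * u = (p * (nn hK L * t * (nn hK L)⁻¹)) * nn hK L * u' := by
      rw [one_mul, h, e]; group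
    exact (Sys.normal_form_unique S K (one_mem _)
      (hB (mul_mem hb ((T2).T_le_B1 ((T2).T_word_conj L ht).1))) (conj_neg hK hu)
      (conj_neg hK (hfl ▸ hu')) e').2
  · exfalso
    have hc : (nn hK L')⁻¹ * f * nn hK L' ∈ chevE6.borelSubgroup K := by
      refine Subgroup.mem_sup_left ?_
      have hle : uSub chevE6 K ((T2).cls 3) ≤
          (chevE6.posUnipotent K).comap (MulAut.conj (nn hK L')⁻¹).toMonoidHom := by
        refine Sys.uSub_le S K fun r hr h1 h2 t => ?_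
        obtain ⟨c, -, hct⟩ := Sys.conj_root S K ((T2).nW L')⁻¹ ⟨r, h2⟩
        rw [Subgroup.mem_comap, MulEquiv.coe_toMonoidHom, MulAut.conj_apply, nn,
          show Sys.xG S K r t = Sys.xG S K ((⟨r, h2⟩ : Fin chevE6.nroots) : ℕ) t from rfl,
          ← Subgroup.coe_inv, (hct t).1]
        refine uSub_le_posUnipotent K Set.univ (Sys.xG_mem_uSub S K (P := Set.univ) trivial ?_ (Fin.isLt _) _)
        rw [map_inv, Tw.perm_nW, wW_reverse_val]
        rcases (cls_three hK).mp hr with rfl | rfl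
        · exact hL'.1
        · exact hL'.2
      have := hle ((T2).X_le 3 (flip_three hK hf))
      rwa [Subgroup.mem_comap, MulEquiv.coe_toMonoidHom, MulAut.conj_apply, inv_inv] at this
    have hd := Sys.bruhat_unique S K (one_mem _) (hB (flip_le_B1 hK hu)) (hB hb)
      (mul_mem hc (hB (flip_le_B1 hK hu'))) ((T2).nW L).2 ((T2).nW (3 :: L')).2
      (show 1 * nn hK L * u = b * nn hK (3 :: L') * ((nn hK L')⁻¹ * f * nn hK L' * u') by
        rw [one_mul, h, nn_cons hK 3 L', n3]; group)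
    have hw : (T2).wW L = (T2).wW (3 :: L') := by
      rw [← Tw.perm_nW, ← Tw.perm_nW]
      exact (Sys.perm_eq_iff S K).mpr hd
    refine pos_iff_neg hL' ?_
    refine ⟨?_, ?_⟩
    · have e := congrArg Fin.val (Equiv.congr_fun (congrArg (·⁻¹) hw) ⟨56, by decide⟩)
      simp only [wW_reverse_val] at e
      exact e ▸ hL.1
    · have e := congrArg Fin.val (Equiv.congr_fun (congrArg (·⁻¹) hw) ⟨36, by decide⟩)
      simp only [wW_reverse_val] at e
      exact e ▸ hL.2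

/-- Every element has a normal form. -/
theorem cover_pos {g : GL chevE6.Idx K} (hg : g ∈ (T2).G) :
    ∃ p ∈ Pj hK, ∃ L, Pos L ∧ ∃ u ∈ (T2).flipFix L, g = p * nn hK L * u := by
  obtain ⟨b, hb, L, b', hb', rfl⟩ := (T2).cover hg
  have hsame : ∀ a r, 36 ≤ (Sys.wperm S a r : ℕ) ∨ (Sys.wperm S a r : ℕ) < 36 := fun a r => by omega
  by_cases hL : Pos L
  · obtain ⟨c, hc, f, hf, e⟩ := push hK L hb'
    refine ⟨b * c, B1_le_Pj hK (mul_mem hb hc), L, hL, f, hf, ?_⟩
    rw [mul_assoc b, ← nn, e]; group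
  · have hpos : Pos (3 :: L) := by
      have e0 : ∀ r, wL chevE6 (wdN (3 :: L).reverse) r =
          wL chevE6 (wdN L.reverse) (wL chevE6 [0, 5] r) := fun r => by
        simp [wdN, wL, blkN]
      have en : ∀ r : Fin chevE6.nroots, 36 ≤ wL chevE6 (wdN L.reverse) (chevE6.neg r) ↔
          wL chevE6 (wdN L.reverse) r < 36 := fun r => by
        have e := congrArg Fin.val (Sys.wperm_negF S (L.reverse.flatMap blkF) r)
        rw [wperm_flat] at e
        change wL chevE6 (wdN L.reverse) (chevE6.neg r) = _ at e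
        have h := (Sys.lt_half_negF S (s := Sys.wperm S (L.reverse.flatMap blkF) r))
        rw [wperm_flat] at h
        change _ < 36 ↔ 36 ≤ _ at h
        omega
      have hs : 36 ≤ wL chevE6 (wdN L.reverse) 56 ↔ 36 ≤ wL chevE6 (wdN L.reverse) 36 := by
        have h0 : (Sys.simpleF S (⟨0, by decide⟩ : Fin chevE6.rank) : ℕ) = 56 := by decide +kernel
        have h5 : (Sys.simpleF S (⟨5, by decide⟩ : Fin chevE6.rank) : ℕ) = 36 := by decide +kernel
        constructor <;> intro hh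
        · have := (T2).blk_sign (i := 3) L.reverse (a := ⟨0, by decide⟩) (b := ⟨5, by decide⟩)
            (mem_blkF.mpr (by decide)) (mem_blkF.mpr (by decide))
            (by show 36 ≤ _; rw [Tw.wW, ← Tw.wW, show ((T2).wW L.reverse) = Sys.wperm S (L.reverse.flatMap blkF) from rfl, wperm_flat, h0]; exact hh)
          change 36 ≤ (Sys.wperm S (L.reverse.flatMap blkF) _ : ℕ) at this
          rwa [wperm_flat, h5] at this
        · have := (T2).blk_sign (i := 3) L.reverse (a := ⟨5, by decide⟩) (b := ⟨0, by decide⟩)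
            (mem_blkF.mpr (by decide)) (mem_blkF.mpr (by decide))
            (by show 36 ≤ _; rw [show ((T2).wW L.reverse) = Sys.wperm S (L.reverse.flatMap blkF) from rfl, wperm_flat, h5]; exact hh)
          change 36 ≤ (Sys.wperm S (L.reverse.flatMap blkF) _ : ℕ) at this
          rwa [wperm_flat, h0] at this
      have hneg : wL chevE6 (wdN L.reverse) 56 < 36 := not_le.mp fun h => hL ⟨h, hs.mp h⟩
      have hneg' : wL chevE6 (wdN L.reverse) 36 < 36 := not_le.mp fun h => hL ⟨hs.mpr h, h⟩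
      refine ⟨?_, ?_⟩
      · rw [e0, show wL chevE6 [0, 5] 56 = chevE6.neg (⟨56, by decide⟩ : Fin chevE6.nroots) by decide +kernel]
        exact (en _).mpr hneg
      · rw [e0, show wL chevE6 [0, 5] 36 = chevE6.neg (⟨36, by decide⟩ : Fin chevE6.nroots) by decide +kernel]
        exact (en _).mpr hneg'
    obtain ⟨c, hc, f, hf, e⟩ := push hK (3 :: L) hb'
    refine ⟨b * (n3 hK)⁻¹ * c, mul_mem (mul_mem (B1_le_Pj hK hb) (inv_mem (n3_mem_Pj hK)))
      (B1_le_Pj hK hc), 3 :: L, hpos, f, hf, ?_⟩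
    calc b * nn hK L * b' = b * (n3 hK)⁻¹ * (nn hK (3 :: L) * b') := by rw [nn_cons, n3]; group
      _ = _ := by rw [e]; group

end CfsgLib.E6TwoFive
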