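import Cfsg.Agent.E6TwoFive.Fast
import Cfsg.Agent.E6TwoFive.Cosets
import Mathlib.GroupTheory.NoncommCoprod
import Mathlib.GroupTheory.Sylow

/-!
All elements of order five are conjugate: a subgroup of order `25` in the long root subgroup
`D₄(2)`, all of whose lines are conjugate under it and the Weyl elements of triality.
-/

set_option autoImplicit false
set_option maxRecDepth 100000

namespace CfsgLib.E6TwoFive

open Cfsg.Lie CfsgLib.Chevalley CfsgLib.TwistedLie CfsgLib.TwistedLie.E6 CfsgLib.Fi22Twist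

local notation "S" => sysE6

/-- A long root as an atom. -/
def atR : ℕ → Atom
  | 2 => ([2, 3, 1, 2, 1], 1, 1)
  | 11 => ([3, 2], 3, 1)
  | 25 => ([], 1, 1)
  | 27 => ([2], 3, 1)
  | 32 => ([], 3, 1)
  | 39 => ([], 2, 1)
  | 44 => ([2], 2, 1)
  | 46 => ([], 0, 1)
  | 60 => ([3, 2], 2, 1)
  | 69 => ([2, 3, 1, 2, 1], 0, 1)
  | _ => ([], 0, 1)

/-- A word of long root elements. -/
def rW (l : List ℕ) : List (ℕ × ℕ) := l.map fun r => (r, 1)

/-- The long roots in use. -/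
def fR : List ℕ := [2, 11, 25, 27, 32, 39, 44, 46, 60, 69]

/-- The long roots of the first generator of the group of order `25`. -/
def fY : List ℕ := [39, 46, 69, 32, 25, 2]

/-- The long roots of the second generator. -/
def fZ : List ℕ := [44, 27, 46, 25, 11, 44, 27, 39, 46, 39, 46, 69, 32, 25, 2, 46, 39, 27, 44, 11, 25, 46, 27, 44]

/-- The long roots conjugating the first generator to its square. -/
def fS : List ℕ := [44, 46, 60, 46, 44, 27, 32, 39, 46, 25, 32, 46]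

/-- Conjugators of the lines. -/
def fC : List (List (Fin 4) × List ℕ) :=
  [([], [46, 39, 27, 44, 11, 25, 46, 27, 44]),
   ([2, 3], [46, 25, 32, 39, 11, 25, 32, 27, 44, 25, 32]),
   ([2], [46, 44, 46, 25, 32, 39, 27, 11, 60, 25, 46, 60]),
   ([2], [46, 39, 44, 46, 25, 32, 27, 25, 11, 60, 46, 39, 25, 46]),
   ([2, 3], [46, 25, 32, 39, 11, 60, 25, 32, 27, 44, 25])]

/-- A line representative. -/
def lineW : ℕ → List (ℕ × ℕ)
  | 0 => rW fZ
  | j + 1 => rW fY ++ (List.replicate (j + 1) (rW fZ)).flatten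

/-- The word of a conjugator. -/
def gW (e : List (Fin 4) × List ℕ) : List (ℕ × ℕ) := rW e.2 ++ e.1.flatMap nWord

theorem atom_ok : ∀ r ∈ fR, atomW (atR r) = [(r, 1)] ∧ (atR r).2.2 < 4 := by decide +kernel

theorem fR_ok : ∀ r ∈ fY ++ fZ ++ fS ++ fC.flatMap (fun e => e.2), r ∈ fR := by decide +kernel

theorem line_ok : ∀ j < 5, sameF (gW (fC.getD j ([], [])) ++ lineW j)
    (rW fY ++ gW (fC.getD j ([], []))) = true := by decide +kernel

theorem sq_ok : sameF (rW fS ++ rW fY) (rW fY ++ rW fY ++ rW fS) = true := by decide +kernel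

theorem fY_five : sameF (List.replicate 5 (rW fY)).flatten [] = true := by decide +kernel

theorem fY_ne : diffF (rW fY) [] = true := by decide +kernel

theorem fYZ_comm : sameF (rW fY ++ rW fZ) (rW fZ ++ rW fY) = true := by decide +kernel

theorem fZ_out : ∀ k < 5, diffF (rW fZ) (List.replicate k (rW fY)).flatten = true := by decide +kernel

variable {K : Type*} [Field K] [Fintype K] [CharP K 2] (hK : Fintype.card K = 2 ^ 2) (w : K)
  (hw : w * w = w + 1)

omit [Fintype K] [CharP K 2] in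
theorem ev_nil' : ev w [] = (1 : GL chevE6.Idx K) := by simp [ev, Sys.wG]

omit [Fintype K] [CharP K 2] in
theorem ev_replicate (l : List (ℕ × ℕ)) : ∀ k, ev w (List.replicate k l).flatten = ev w l ^ k
  | 0 => by simp [ev_nil']
  | k + 1 => by rw [List.replicate_succ, List.flatten_cons, ev_append, ev_replicate l k, pow_succ']

include hK hw in
theorem ev_rW_mem : ∀ {l : List ℕ}, (∀ r ∈ l, r ∈ fR) → ev w (rW l) ∈ (TW hK).G
  | [], _ => by simp [rW, ev_nil', one_mem]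
  | r :: l, h => by
    rw [List.forall_mem_cons] at h
    have e : rW (r :: l) = atomW (atR r) ++ rW l := by rw [(atom_ok r h.1).1]; rfl
    rw [e, ev_append]
    exact mul_mem (ev_atom_mem w hw (by rw [hK]; norm_num) _ (atom_ok r h.1).2) (ev_rW_mem h.2)

omit [Fintype K] in
theorem ev_nWords [Fintype K] (hK : Fintype.card K = 2 ^ 2) :
    ∀ L : List (Fin 4), ev w (L.flatMap nWord) = nn hK L
  | [] => by simp [ev_nil', nn, Tw.nW_nil]
  | i :: L => by
    rw [List.flatMap_cons, ev_append, ev_nWords hK L, ← nWord_eval hK w i, nn, nn, Tw.nW_cons]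
    rfl

include hw in
theorem ev_gW_mem {e : List (Fin 4) × List ℕ} (he : ∀ r ∈ e.2, r ∈ fR) :
    ev w (gW e) ∈ (TW hK).G := by
  rw [gW, ev_append, ev_nWords w hK]
  exact mul_mem (ev_rW_mem hK w hw he) ((TW hK).nW_mem _)

include hw in
/-- All elements of order five are conjugate to one long root word. -/
theorem exists_conj_Y {z : GL chevE6.Idx K} (hz : z ∈ (TW hK).G) (ho : orderOf z = 5) :
    ∃ g ∈ (TW hK).G, g * z * g⁻¹ = ev w (rW fY) := by
  haveI := Fact.mk (show Nat.Prime 5 by norm_num)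
  set Y := ev w (rW fY) with hY
  set Z := ev w (rW fZ) with hZ
  have hR := fR_ok
  simp only [List.mem_append] at hR
  have hYG : Y ∈ (TW hK).G := ev_rW_mem hK w hw fun r hr => hR r (Or.inl (Or.inl (Or.inl hr)))
  have hZG : Z ∈ (TW hK).G := ev_rW_mem hK w hw fun r hr => hR r (Or.inl (Or.inl (Or.inr hr)))
  have hsG : ev w (rW fS) ∈ (TW hK).G := ev_rW_mem hK w hw fun r hr => hR r (Or.inl (Or.inr hr))
  have hY5 : Y ^ 5 = 1 := by rw [hY, ← ev_replicate, ev_eqF w hw fY_five, ev_nil']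
  have hY1 : Y ≠ 1 := by rw [← ev_nil' w]; exact ev_neF w hw fY_ne
  have hoY : orderOf Y = 5 := orderOf_eq_prime hY5 hY1
  have hC : Commute Y Z := by
    show Y * Z = Z * Y
    rw [hY, hZ, ← ev_append, ← ev_append]; exact ev_eqF w hw fYZ_comm
  have hline : ∀ j < 5, ∃ g ∈ (TW hK).G, g * ev w (lineW j) * g⁻¹ = Y := by
    intro j hj
    refine ⟨ev w (gW (fC.getD j ([], []))), ev_gW_mem hK w hw fun r hr => hR r (Or.inr ?_), ?_⟩
    · have hlen : j < fC.length := hj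
      rw [List.getD_eq_getElem _ _ hlen] at hr
      exact List.mem_flatMap.mpr ⟨_, List.getElem_mem hlen, hr⟩
    · rw [mul_inv_eq_iff_eq_mul, hY, ← ev_append, ← ev_append]
      exact ev_eqF w hw (line_ok j hj)
  have hZ5 : Z ^ 5 = 1 := by
    obtain ⟨g, -, hg⟩ := hline 0 (by norm_num)
    have : (g * Z * g⁻¹) ^ 5 = 1 := by rw [show g * Z * g⁻¹ = Y from hg, hY5]
    rw [conj_pow, conj_eq_one_iff] at this
    exact this
  -- the powers of `Y` are conjugate to `Y`
  have hpow : ∀ a : ℕ, a % 5 ≠ 0 → ∃ g ∈ (TW hK).G, g * Y ^ a * g⁻¹ = Y := by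
    set s := ev w (rW fS) with hs
    have h1 : ∀ a : ℕ, s * Y ^ a * s⁻¹ = Y ^ (2 * a) := by
      intro a
      rw [← conj_pow, pow_mul, show s * Y * s⁻¹ = Y ^ 2 from ?_]
      rw [mul_inv_eq_iff_eq_mul, sq, hs, hY, ← ev_append, ← ev_append, ← ev_append]
      exact ev_eqF w hw sq_ok
    have hit : ∀ m a : ℕ, s ^ m * Y ^ a * (s ^ m)⁻¹ = Y ^ (2 ^ m * a) := by
      intro m
      induction m with
      | zero => intro a; simp
      | succ m ih =>
        intro a
        calc s ^ (m + 1) * Y ^ a * (s ^ (m + 1))⁻¹ = s * (s ^ m * Y ^ a * (s ^ m)⁻¹) * s⁻¹ := by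
              rw [pow_succ']; group
          _ = _ := by rw [ih, h1, pow_succ', mul_assoc]
    intro a ha
    obtain ⟨m, hm⟩ : ∃ m, 2 ^ m * a % 5 = 1 := by
      obtain ⟨m, hm⟩ := (by decide : ∀ r < 5, r ≠ 0 → ∃ m : Fin 4, 2 ^ (m : ℕ) * r % 5 = 1)
        (a % 5) (Nat.mod_lt _ (by norm_num)) ha
      exact ⟨m, by rw [Nat.mul_mod, Nat.mod_mod_of_dvd] at * <;> simpa [Nat.mul_mod] using hm⟩
    refine ⟨s ^ m, pow_mem hsG m, ?_⟩
    rw [hit, ← pow_mod_orderOf, hoY, hm, pow_one]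
  -- every nontrivial element of the group of order 25
  have hP : ∀ a b : ℕ, Y ^ a * Z ^ b ≠ 1 → ∃ g ∈ (TW hK).G, g * (Y ^ a * Z ^ b) * g⁻¹ = Y := by
    intro a b hab
    have hmodZ : Z ^ b = Z ^ (b % 5) := pow_eq_pow_mod b hZ5
    by_cases hb : b % 5 = 0
    · rw [hmodZ, hb, pow_zero, mul_one] at hab ⊢
      refine hpow a fun h => hab ?_
      rw [← pow_mod_orderOf, hoY, h, pow_zero]
    by_cases ha : a % 5 = 0
    · rw [← pow_mod_orderOf Y a, hoY, ha, pow_zero, one_mul]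
      obtain ⟨g, hg, e⟩ := hline 0 (by norm_num)
      obtain ⟨g', hg', e'⟩ := hpow b hb
      refine ⟨g' * g, mul_mem hg' hg, ?_⟩
      calc g' * g * Z ^ b * (g' * g)⁻¹ = g' * (g * Z * g⁻¹) ^ b * g'⁻¹ := by rw [conj_pow]; group
        _ = Y := by rw [show g * Z * g⁻¹ = Y from e, e']
    obtain ⟨j, hj1, hj5, hj⟩ : ∃ j, 1 ≤ j ∧ j < 5 ∧ j * a % 5 = b % 5 := by
      obtain ⟨j, h1, h2⟩ := (by decide : ∀ r < 5, r ≠ 0 → ∀ q < 5, q ≠ 0 →
        ∃ j : Fin 5, 1 ≤ (j : ℕ) ∧ (j : ℕ) * r % 5 = q)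
        (a % 5) (Nat.mod_lt _ (by norm_num)) ha (b % 5) (Nat.mod_lt _ (by norm_num)) hb
      exact ⟨j, h1, j.isLt, by simpa [Nat.mul_mod] using h2⟩
    obtain ⟨g, hg, e⟩ := hline j hj5
    obtain ⟨g', hg', e'⟩ := hpow a ha
    refine ⟨g' * g, mul_mem hg' hg, ?_⟩
    have el : ev w (lineW j) = Y * Z ^ j := by
      obtain ⟨k, rfl⟩ := Nat.exists_eq_add_of_le' hj1
      rw [lineW, ev_append, ev_replicate]
    have ep : Y ^ a * Z ^ b = (Y * Z ^ j) ^ a := by
      rw [(hC.pow_right j).mul_pow, ← pow_mul, hmodZ, pow_eq_pow_mod (j * a) hZ5, hj]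
    rw [ep, ← el]
    calc g' * g * ev w (lineW j) ^ a * (g' * g)⁻¹ = g' * (g * ev w (lineW j) * g⁻¹) ^ a * g'⁻¹ := by
          rw [conj_pow]; group
      _ = Y := by rw [e, e']
  -- the group of order 25 is a Sylow subgroup
  let G0 := (TW hK).G
  haveI : Finite ↥G0 := inferInstance
  let Y' : ↥G0 := ⟨Y, hYG⟩
  let Z' : ↥G0 := ⟨Z, hZG⟩
  have hC' : Commute Y' Z' := Subtype.ext hC
  let ψ : ↥(Subgroup.zpowers Y') × ↥(Subgroup.zpowers Z') →* ↥G0 :=
    (Subgroup.zpowers Y').subtype.noncommCoprod (Subgroup.zpowers Z').subtype (by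
      rintro ⟨_, m, rfl⟩ ⟨_, n, rfl⟩
      exact hC'.zpow_zpow m n)
  have hoY' : orderOf Y' = 5 := by rw [← Subgroup.orderOf_coe]; exact hoY
  have hZ1 : Z ≠ 1 := by
    have := ev_neF w hw (fZ_out 0 (by norm_num))
    rwa [ev_replicate, pow_zero] at this
  have hoZ' : orderOf Z' = 5 := by rw [← Subgroup.orderOf_coe]; exact orderOf_eq_prime hZ5 hZ1
  have hψi : Function.Injective ψ := by
    rw [injective_iff_map_eq_one]
    rintro ⟨⟨y, hy⟩, ⟨z', hz'⟩⟩ h
    have h' : y * z' = 1 := h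
    by_cases hz1 : z' = 1
    · rw [hz1, mul_one] at h'
      exact Prod.ext (Subtype.ext h') (Subtype.ext hz1)
    exfalso
    haveI : Fact (Nat.card ↥(Subgroup.zpowers Z')).Prime :=
      ⟨by rw [Nat.card_zpowers, hoZ']; norm_num⟩
    have hz'Y : z' ∈ Subgroup.zpowers Y' := by
      rw [eq_inv_of_mul_eq_one_right h']; exact inv_mem hy
    have hle : Subgroup.zpowers Z' ≤ Subgroup.zpowers Y' := by
      have htop := (Subgroup.zpowers z').subgroupOf (Subgroup.zpowers Z') |>.eq_bot_or_eq_top_of_prime_card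
      rcases htop with hb | ht
      · exact absurd (by
          rw [Subgroup.subgroupOf_eq_bot, disjoint_iff, inf_eq_left.mpr ((Subgroup.zpowers_le).mpr hz'),
            Subgroup.zpowers_eq_bot] at hb
          exact hb) hz1
      · rw [Subgroup.subgroupOf_eq_top] at ht
        exact ht.trans (Subgroup.zpowers_le.mpr hz'Y)
    have hmem : Z' ∈ Submonoid.powers Y' :=
      (isOfFinOrder_of_finite Y').mem_powers_iff_mem_zpowers.mpr (hle (Subgroup.mem_zpowers _))
    obtain ⟨k, hk⟩ := Submonoid.mem_powers_iff _ _ |>.mp hmem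
    refine ev_neF w hw (fZ_out (k % 5) (Nat.mod_lt _ (by norm_num))) ?_
    rw [ev_replicate]
    show Z = Y ^ (k % 5)
    rw [← pow_eq_pow_mod k hY5]
    exact (congrArg Subtype.val hk).symm
  have hcardP : Nat.card ↥ψ.range = 5 ^ 2 := by
    rw [Nat.card_congr (MonoidHom.ofInjective hψi).toEquiv.symm, Nat.card_prod, Nat.card_zpowers,
      Nat.card_zpowers, hoY', hoZ']
    norm_num
  have hfac : (Nat.card ↥G0).factorization 5 = 2 := by
    have hg := card_group prime_two_pow hK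
    rw [show Nat.gcd 3 (2 + 1) = 3 from rfl] at hg
    have e3 : Nat.card ↥G0 * 3 =
        2 ^ 36 * (2 ^ 2 - 1) * (2 ^ 5 + 1) * (2 ^ 6 - 1) * (2 ^ 8 - 1) * (2 ^ 9 + 1) * (2 ^ 12 - 1) := by
      rw [mul_comm]; exact hg
    norm_num at e3
    obtain ⟨M, hM, hM5⟩ : ∃ M, Nat.card ↥G0 = 25 * M ∧ ¬ 5 ∣ M :=
      ⟨Nat.card ↥G0 / 25, by omega, by omega⟩
    rw [hM, Nat.factorization_mul (by norm_num) (by rintro rfl; simp at hM5), Finsupp.add_apply,
      Nat.factorization_eq_zero_of_not_dvd hM5, show (25 : ℕ) = 5 ^ 2 by norm_num,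
      Nat.Prime.factorization_pow (by norm_num : Nat.Prime 5)]
    simp
  let Q : Sylow 5 ↥G0 := Sylow.ofCard ψ.range (by rw [hcardP, hfac])
  have hzP : IsPGroup 5 (Subgroup.zpowers (⟨z, hz⟩ : ↥G0)) := by
    refine IsPGroup.of_card (n := 1) ?_
    rw [Nat.card_zpowers, ← Subgroup.orderOf_coe, pow_one]
    exact ho
  obtain ⟨R, hR'⟩ := hzP.exists_le_sylow
  obtain ⟨c, hc⟩ := MulAction.exists_smul_eq ↥G0 R Q
  have hcz : c * ⟨z, hz⟩ * c⁻¹ ∈ ψ.range := by
    have h1 : c * ⟨z, hz⟩ * c⁻¹ ∈ ((c • R : Sylow 5 ↥G0) : Subgroup ↥G0) := by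
      rw [Sylow.coe_subgroup_smul]
      exact Subgroup.smul_mem_pointwise_smul _ (MulAut.conj c) _ (hR' (Subgroup.mem_zpowers _))
    rw [hc] at h1
    exact h1
  obtain ⟨⟨⟨y, hy⟩, ⟨z', hz'⟩⟩, hyz⟩ := hcz
  obtain ⟨a, rfl⟩ := (Submonoid.mem_powers_iff _ _).mp
    ((isOfFinOrder_of_finite Y').mem_powers_iff_mem_zpowers.mpr hy)
  obtain ⟨b, rfl⟩ := (Submonoid.mem_powers_iff _ _).mp
    ((isOfFinOrder_of_finite Z').mem_powers_iff_mem_zpowers.mpr hz')
  have e : Y ^ a * Z ^ b = (c : GL chevE6.Idx K) * z * (c : GL chevE6.Idx K)⁻¹ := by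
    simpa [ψ] using congrArg Subtype.val hyz
  obtain ⟨g, hg, eg⟩ := hP a b (by
    rw [e]; intro h
    rw [conj_eq_one_iff] at h
    rw [h, orderOf_one] at ho
    norm_num at ho)
  refine ⟨g * c, mul_mem hg c.2, ?_⟩
  rw [← eg, e]; group

end CfsgLib.E6TwoFive
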