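import Cfsg.Agent.E6TwoFive.Setup
import Cfsg.Agent.E6TwoFive.LetterData

/-! Kernel checks of the literal root elements. -/

set_option autoImplicit false
set_option maxRecDepth 100000

namespace CfsgLib.E6TwoFive

open Cfsg.Lie CfsgLib.Fi22Twist

theorem mx56_1_ok : eqP (matX chevE6 56 1) mx56_1 = true := by decide +kernel

theorem mx46_1_ok : eqP (matX chevE6 46 1) mx46_1 = true := by decide +kernel

theorem mx42_1_ok : eqP (matX chevE6 42 1) mx42_1 = true := by decide +kernel

theorem mx39_1_ok : eqP (matX chevE6 39 1) mx39_1 = true := by decide +kernel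

theorem mx37_1_ok : eqP (matX chevE6 37 1) mx37_1 = true := by decide +kernel

theorem mx36_1_ok : eqP (matX chevE6 36 1) mx36_1 = true := by decide +kernel

theorem mx15_1_ok : eqP (matX chevE6 15 1) mx15_1 = true := by decide +kernel

theorem mx25_1_ok : eqP (matX chevE6 25 1) mx25_1 = true := by decide +kernel

theorem mx29_1_ok : eqP (matX chevE6 29 1) mx29_1 = true := by decide +kernel

theorem mx32_1_ok : eqP (matX chevE6 32 1) mx32_1 = true := by decide +kernel

theorem mx34_1_ok : eqP (matX chevE6 34 1) mx34_1 = true := by decide +kernel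

theorem mx35_1_ok : eqP (matX chevE6 35 1) mx35_1 = true := by decide +kernel

end CfsgLib.E6TwoFive
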