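import Cfsg.Agent.E6TwoFive.Setup
import Cfsg.Agent.E6TwoFive.LetterData

/-! Kernel checks of the literal root elements. -/

set_option autoImplicit false
set_option maxRecDepth 100000

namespace CfsgLib.E6TwoFive

open Cfsg.Lie CfsgLib.Fi22Twist

theorem mx0_1_ok : eqP (matX chevE6 0 1) mx0_1 = true := by decide +kernel

theorem mx1_1_ok : eqP (matX chevE6 1 1) mx1_1 = true := by decide +kernel

theorem mx2_1_ok : eqP (matX chevE6 2 1) mx2_1 = true := by decide +kernel

theorem mx6_1_ok : eqP (matX chevE6 6 1) mx6_1 = true := by decide +kernel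

theorem mx8_1_ok : eqP (matX chevE6 8 1) mx8_1 = true := by decide +kernel

theorem mx11_1_ok : eqP (matX chevE6 11 1) mx11_1 = true := by decide +kernel

theorem mx18_1_ok : eqP (matX chevE6 18 1) mx18_1 = true := by decide +kernel

theorem mx20_1_ok : eqP (matX chevE6 20 1) mx20_1 = true := by decide +kernel

theorem mx24_1_ok : eqP (matX chevE6 24 1) mx24_1 = true := by decide +kernel

theorem mx27_1_ok : eqP (matX chevE6 27 1) mx27_1 = true := by decide +kernel

theorem mx44_1_ok : eqP (matX chevE6 44 1) mx44_1 = true := by decide +kernel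

theorem mx47_1_ok : eqP (matX chevE6 47 1) mx47_1 = true := by decide +kernel

end CfsgLib.E6TwoFive
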