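import Cfsg.Agent.E6TwoFive.Setup
import Cfsg.Agent.E6TwoFive.LetterData

/-! Kernel checks of the literal root elements. -/

set_option autoImplicit false
set_option maxRecDepth 100000

namespace CfsgLib.E6TwoFive

open Cfsg.Lie CfsgLib.Fi22Twist

theorem mx51_1_ok : eqP (matX chevE6 51 1) mx51_1 = true := by decide +kernel

theorem mx53_1_ok : eqP (matX chevE6 53 1) mx53_1 = true := by decide +kernel

theorem mx60_1_ok : eqP (matX chevE6 60 1) mx60_1 = true := by decide +kernel

theorem mx63_1_ok : eqP (matX chevE6 63 1) mx63_1 = true := by decide +kernel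

theorem mx65_1_ok : eqP (matX chevE6 65 1) mx65_1 = true := by decide +kernel

theorem mx69_1_ok : eqP (matX chevE6 69 1) mx69_1 = true := by decide +kernel

theorem mx70_1_ok : eqP (matX chevE6 70 1) mx70_1 = true := by decide +kernel

theorem mx71_1_ok : eqP (matX chevE6 71 1) mx71_1 = true := by decide +kernel

theorem mx56_2_ok : eqP (matX chevE6 56 2) mx56_2 = true := by decide +kernel

theorem mx56_3_ok : eqP (matX chevE6 56 3) mx56_3 = true := by decide +kernel

theorem mx36_2_ok : eqP (matX chevE6 36 2) mx36_2 = true := by decide +kernel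

theorem mx36_3_ok : eqP (matX chevE6 36 3) mx36_3 = true := by decide +kernel

end CfsgLib.E6TwoFive
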