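import Cfsg.Agent.E6TwoFive.Setup
import Cfsg.Agent.E6TwoFive.LetterData

/-! Kernel checks of the literal root elements. -/

set_option autoImplicit false
set_option maxRecDepth 100000

namespace CfsgLib.E6TwoFive

open Cfsg.Lie CfsgLib.Fi22Twist

theorem mx42_2_ok : eqP (matX chevE6 42 2) mx42_2 = true := by decide +kernel

theorem mx42_3_ok : eqP (matX chevE6 42 3) mx42_3 = true := by decide +kernel

theorem mx37_2_ok : eqP (matX chevE6 37 2) mx37_2 = true := by decide +kernel

theorem mx37_3_ok : eqP (matX chevE6 37 3) mx37_3 = true := by decide +kernel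

theorem mx15_2_ok : eqP (matX chevE6 15 2) mx15_2 = true := by decide +kernel

theorem mx15_3_ok : eqP (matX chevE6 15 3) mx15_3 = true := by decide +kernel

theorem mx35_2_ok : eqP (matX chevE6 35 2) mx35_2 = true := by decide +kernel

theorem mx35_3_ok : eqP (matX chevE6 35 3) mx35_3 = true := by decide +kernel

theorem mx29_2_ok : eqP (matX chevE6 29 2) mx29_2 = true := by decide +kernel

theorem mx29_3_ok : eqP (matX chevE6 29 3) mx29_3 = true := by decide +kernel

theorem mx34_2_ok : eqP (matX chevE6 34 2) mx34_2 = true := by decide +kernel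

theorem mx34_3_ok : eqP (matX chevE6 34 3) mx34_3 = true := by decide +kernel

end CfsgLib.E6TwoFive
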