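import Cfsg.Agent.E6TwoFive.LetterChk0
import Cfsg.Agent.E6TwoFive.LetterChk1
import Cfsg.Agent.E6TwoFive.LetterChk2
import Cfsg.Agent.E6TwoFive.LetterChk3

/-! Products of literal root elements. -/

set_option autoImplicit false
set_option maxRecDepth 100000

namespace CfsgLib.E6TwoFive

open Cfsg.Lie CfsgLib.Fi22Twist

theorem letters_ok : ∀ e ∈ letters, eqP (matX chevE6 e.1.1 e.1.2) e.2 = true := by
  simp only [letters, List.forall_mem_cons, List.not_mem_nil, false_implies, implies_true, and_true]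
  exact ⟨mx56_1_ok, mx46_1_ok, mx42_1_ok, mx39_1_ok, mx37_1_ok, mx36_1_ok, mx15_1_ok, mx25_1_ok, mx29_1_ok, mx32_1_ok, mx34_1_ok, mx35_1_ok, mx0_1_ok, mx1_1_ok, mx2_1_ok, mx6_1_ok, mx8_1_ok, mx11_1_ok, mx18_1_ok, mx20_1_ok, mx24_1_ok, mx27_1_ok, mx44_1_ok, mx47_1_ok, mx51_1_ok, mx53_1_ok, mx60_1_ok, mx63_1_ok, mx65_1_ok, mx69_1_ok, mx70_1_ok, mx71_1_ok, mx56_2_ok, mx56_3_ok, mx36_2_ok, mx36_3_ok, mx42_2_ok, mx42_3_ok, mx37_2_ok, mx37_3_ok, mx15_2_ok, mx15_3_ok, mx35_2_ok, mx35_3_ok, mx29_2_ok, mx29_3_ok, mx34_2_ok, mx34_3_ok⟩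

/-- A literal root element. -/
def mX (e : ℕ × ℕ) : List V :=
  match letters.find? fun x => Nat.beq x.1.1 e.1 && Nat.beq x.1.2 e.2 with
  | some x => x.2
  | none => []

/-- The word has literal letters only. -/
def inTab (L : List (ℕ × ℕ)) : Bool :=
  L.all fun e => (letters.find? fun x => Nat.beq x.1.1 e.1 && Nat.beq x.1.2 e.2).isSome

/-- A word of literal root elements. -/
def mW (L : List (ℕ × ℕ)) : List V := L.foldr (fun e P => mulP (mX e) P) (idP 78)

theorem matW_eq_mW : ∀ {L : List (ℕ × ℕ)}, inTab L = true → matW chevE6 L = mW L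
  | [], _ => rfl
  | e :: L, h => by
    simp only [inTab, List.all_cons, Bool.and_eq_true] at h
    obtain ⟨h1, h2⟩ := h
    rw [show matW chevE6 (e :: L) = mulP (matX chevE6 e.1 e.2) (matW chevE6 L) from rfl,
      show mW (e :: L) = mulP (mX e) (mW L) from rfl, matW_eq_mW (L := L) h2]
    congr 1
    obtain ⟨x, hx⟩ := Option.isSome_iff_exists.mp h1
    have hmem := List.mem_of_find?_eq_some hx
    have hp := List.find?_some hx
    simp only [Bool.and_eq_true, Nat.beq_eq] at hp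
    rw [mX, hx, ← hp.1, ← hp.2]
    exact eqP_iff.mp (letters_ok x hmem)

/-- Two words of literal root elements have the same matrix, as a check. -/
def sameW (A B : List (ℕ × ℕ)) : Bool := inTab A && inTab B && eqP (mW A) (mW B)

theorem sameW_spec {A B : List (ℕ × ℕ)} (h : sameW A B = true) :
    eqP (matW chevE6 A) (matW chevE6 B) = true := by
  simp only [sameW, Bool.and_eq_true] at h
  rw [matW_eq_mW h.1.1, matW_eq_mW h.1.2]
  exact h.2

end CfsgLib.E6TwoFive
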