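import Cfsg.Agent.E6TwoFive.Cosets

/-!
An element of order five of the parabolic subgroup fixes no coset outside the stabiliser of the
orbit `{p₁, p₆}` in the Weyl group.
-/

set_option autoImplicit false

namespace CfsgLib.E6TwoFive

open Cfsg.Lie CfsgLib.Chevalley CfsgLib.TwistedLie CfsgLib.TwistedLie.E6

local notation "S" => sysE6

variable {K : Type*} [Field K] [Fintype K] (hK : Fintype.card K = 2 ^ 2)

local notation "T2" => TW hK
local notation "Bo" => Tw.B1 (TW hK)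

/-- The inverse of a word moves the orbit. -/
def Moves (L : List (Fin 4)) : Prop :=
  ∀ r ∈ [56, 36], wL chevE6 (wdN L.reverse) 56 ≠ r ∧ wL chevE6 (wdN L.reverse) 36 ≠ r

theorem inv_card_eq (L : List (Fin 4)) :
    Nat.card ((T2).flipFix L) = 2 ^ (invSet ((T2).wW L)).card :=
  (T2).flipFix_card L (E6.card_X prime_two_pow hK)

theorem card_three : Nat.card ((T2).flipFix [3]) = 4 := by
  rw [inv_card_eq, show (T2).wW [3] = Sys.wperm S (List.flatMap blkF [3]) from rfl, E6.inv_card,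
    show (Finset.univ.filter fun s : Fin chevE6.nroots =>
      36 ≤ (s : ℕ) ∧ wL chevE6 (wdN [3]) (s : ℕ) < 36).card = 2 by decide +kernel]
  norm_num

theorem card_TT : Nat.card ↥(T2).T = 3 := by
  have h := E6.card_T prime_two_pow hK
  rw [show Nat.gcd 3 (2 + 1) = 3 from rfl] at h
  norm_num at h
  show Nat.card ↥(E6.tw prime_two_pow hK).T = 3
  omega

theorem card_Bo : Nat.card ↥Bo = 2 ^ 36 * 3 := by
  rw [Tw.card_B1, E6.card_U prime_two_pow hK, card_TT]

theorem n3_conj_neg {f : GL chevE6.Idx K} (hf : f ∈ (T2).flipFix [3]) :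
    n3 hK * f * (n3 hK)⁻¹ ∈ chevE6.negUnipotent K := conj_neg hK hf

theorem card_Pj : Nat.card ↥(Pj hK) = 2 ^ 36 * 3 * 5 := by
  let F : ↥Bo ⊕ (↥Bo × ↥((T2).flipFix [3])) → ↥(Pj hK) := fun z => match z with
    | Sum.inl b => ⟨b, B1_le_Pj hK b.2⟩
    | Sum.inr (b, f) => ⟨(b : GL chevE6.Idx K) * n3 hK * f,
        mul_mem (mul_mem (B1_le_Pj hK b.2) (n3_mem_Pj hK)) (B1_le_Pj hK (flip_le_B1 hK f.2))⟩
  have hno : ∀ (b c : ↥Bo) (f : ↥((T2).flipFix [3])),
      (b : GL chevE6.Idx K) ≠ c * n3 hK * f := by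
    intro b c f h
    have hB : ∀ {g : GL chevE6.Idx K}, g ∈ Bo → g ∈ chevE6.borelSubgroup K :=
      fun hg => ((T2).B1_le hg).1
    have hd := Sys.bruhat_unique S K (hB b.2) (one_mem _) (hB c.2) (hB (flip_le_B1 hK f.2))
      (one_mem (chevE6.monomialSubgroup K)) ((T2).nW [3]).2
      (show (b : GL chevE6.Idx K) * 1 * 1 = c * n3 hK * f by rw [mul_one, mul_one, h])
    rw [inv_one, one_mul] at hd
    have hp := Sys.perm_of_mem_hSub S K (show (T2).nW [3] ∈ hSub chevE6 K from hd)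
    have := congrArg Fin.val (Equiv.congr_fun hp (⟨56, by decide⟩ : Fin chevE6.nroots))
    rw [perm_val] at this
    revert this
    decide +kernel
  have hF : Function.Bijective F := by
    refine ⟨?_, fun p => ?_⟩
    · rintro (b | ⟨b, f⟩) (c | ⟨c, g⟩) h <;> have h' := congrArg Subtype.val h <;>
        simp only [F] at h'
      · exact congrArg Sum.inl (Subtype.ext h')
      · exact absurd h' (hno b c g)
      · exact absurd h'.symm (hno c b f)
      · obtain ⟨e1, e2⟩ := Sys.normal_form_unique S K ((T2).B1_le b.2).1 ((T2).B1_le c.2).1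
          (n3_conj_neg hK f.2) (n3_conj_neg hK g.2) h'
        rw [Subtype.ext e1, Subtype.ext e2]
    · rcases mem_Pj hK p.2 with hp | ⟨b, hb, f, hf, e⟩
      · exact ⟨Sum.inl ⟨_, hp⟩, rfl⟩
      · exact ⟨Sum.inr (⟨b, hb⟩, ⟨f, hf⟩), Subtype.ext e.symm⟩
  rw [← Nat.card_congr (Equiv.ofBijective F hF), Nat.card_sum, Nat.card_prod, card_three, card_Bo]
  norm_num

theorem cls_perm {r : ℕ} (h1 : 36 ≤ r) (h2 : r < 72) (h3 : r ≠ 56) (h4 : r ≠ 36) :
    36 ≤ wL chevE6 [0, 5] r :=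
  (by decide +kernel : ∀ r < 72, 36 ≤ r → r ≠ 56 → r ≠ 36 → 36 ≤ wL chevE6 [0, 5] r) r h2 h1 h3 h4

theorem wdN_append_three (L : List (Fin 4)) : wdN (L ++ [3]) = wdN L ++ [0, 5] := by
  simp [wdN, blkN]

theorem wL_append (A B : List ℕ) (r : ℕ) : wL chevE6 (A ++ B) r = wL chevE6 A (wL chevE6 B r) := by
  simp [wL]

/-- Appending the reflection of the orbit keeps the inverse positive. -/
theorem pos_append {L : List (Fin 4)} (hL : Pos L) (hm : Moves L) : Pos (L ++ [3]) := by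
  have e : ∀ r, wL chevE6 (wdN (L ++ [3]).reverse) r =
      wL chevE6 [0, 5] (wL chevE6 (wdN L.reverse) r) := fun r => by
    simp [wdN, blkN, wL]
  have hlt : ∀ r, r < chevE6.nroots → wL chevE6 (wdN L.reverse) r < 72 := fun r hr => by
    have := (Sys.wperm S (L.reverse.flatMap blkF) ⟨r, hr⟩).isLt
    rwa [wperm_flat] at this
  refine ⟨?_, ?_⟩ <;> rw [e]
  · exact cls_perm hL.1 (hlt _ (by decide)) (hm 56 (by simp)).1 (hm 36 (by simp)).1
  · exact cls_perm hL.2 (hlt _ (by decide)) (hm 56 (by simp)).2 (hm 36 (by simp)).2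

theorem no_fixed_pos {L : List (Fin 4)} (hL : Pos L) (hm : Moves L)
    (hp : 36 ≤ wL chevE6 (wdN L) 56 ∧ 36 ≤ wL chevE6 (wdN L) 36) {x : GL chevE6.Idx K}
    (hx : x ∈ Pj hK) (h5 : x ^ 5 = 1) (hc : nn hK L * x * (nn hK L)⁻¹ ∈ Pj hK) : x = 1 := by
  have hL1 := pos_append hL hm
  have e1 : nn hK (L ++ [3]) = nn hK L * n3 hK := nn_append hK L [3]
  set R : Subgroup ↥(Pj hK) :=
    ((Pj hK).comap (MulAut.conj (nn hK L)).toMonoidHom).subgroupOf (Pj hK) with hR
  have memR : ∀ q : ↥(Pj hK), q ∈ R ↔ nn hK L * q * (nn hK L)⁻¹ ∈ Pj hK := fun q => Iff.rfl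
  let G : ↥((T2).flipFix L) ⊕ ↥((T2).flipFix (L ++ [3])) → ↥(Pj hK) ⧸ R := fun z => match z with
    | Sum.inl f => QuotientGroup.mk (⟨f, B1_le_Pj hK (flip_le_B1 hK f.2)⟩ : ↥(Pj hK))⁻¹
    | Sum.inr f => QuotientGroup.mk
        (⟨n3 hK * f, mul_mem (n3_mem_Pj hK) (B1_le_Pj hK (flip_le_B1 hK f.2))⟩ : ↥(Pj hK))⁻¹
  have hne : (T2).wW L ≠ (T2).wW (L ++ [3]) := by
    intro e
    have := congrArg Fin.val (Equiv.congr_fun e (⟨56, by decide⟩ : Fin chevE6.nroots))
    change (Sys.wperm S (L.flatMap blkF) _ : ℕ) = (Sys.wperm S ((L ++ [3]).flatMap blkF) _ : ℕ) at this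
    rw [wperm_flat, wperm_flat, wdN_append_three, wL_append,
      show wL chevE6 [0, 5] 56 = chevE6.neg 56 by decide +kernel] at this
    have e := congrArg Fin.val (Sys.wperm_negF S (L.flatMap blkF) ⟨56, by decide⟩)
    rw [wperm_flat] at e
    change wL chevE6 (wdN L) (chevE6.neg 56) = _ at e
    have h := (Sys.lt_half_negF S (s := Sys.wperm S (L.flatMap blkF) ⟨56, by decide⟩)).mpr
      (by rw [wperm_flat]; exact hp.1)
    have : chevE6.nroots = 72 := rfl
    have := hp.1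
    simp only at *
    omega
  have key : ∀ (A A' : List (Fin 4)) (q q' : GL chevE6.Idx K), Pos A → Pos A' →
      ∀ f ∈ (T2).flipFix A, ∀ f' ∈ (T2).flipFix A', nn hK L * q = nn hK A * f →
      nn hK L * q' = nn hK A' * f' → nn hK L * (q * q'⁻¹) * (nn hK L)⁻¹ ∈ Pj hK →
      (T2).wW A = (T2).wW A' ∧ f = f' := by
    intro A A' q q' hA hA' f hf f' hf' e e' hmem
    refine coset_unique hK hA hA' hf hf' hmem ?_
    rw [← e, mul_assoc _ (nn hK A') f', ← e']
    group
  have hG : Function.Bijective G := by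
    refine ⟨?_, fun z => ?_⟩
    · rintro (f | f) (f' | f') h <;> simp only [G, QuotientGroup.eq, inv_inv, memR,
        Subgroup.coe_mul, InvMemClass.coe_inv] at h
      · exact congrArg Sum.inl (Subtype.ext (key _ _ _ _ hL hL _ f.2 _ f'.2 rfl rfl h).2)
      · exact absurd (key _ _ (f : GL chevE6.Idx K) (n3 hK * f') hL hL1 _ f.2 _ f'.2 rfl
          (by rw [e1]; group) h).1 hne
      · exact absurd (key _ _ (n3 hK * f) (f' : GL chevE6.Idx K) hL1 hL _ f.2 _ f'.2
          (by rw [e1]; group) rfl h).1.symm hne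
      · exact congrArg Sum.inr (Subtype.ext (key _ _ (n3 hK * f) (n3 hK * f') hL1 hL1 _ f.2 _ f'.2
          (by rw [e1]; group) (by rw [e1]; group) h).2)
    · obtain ⟨z, rfl⟩ := QuotientGroup.mk_surjective z
      have hmk : ∀ (q : ↥(Pj hK)) (b : GL chevE6.Idx K), b ∈ Pj hK →
          nn hK L * ((z⁻¹ : ↥(Pj hK)) : GL chevE6.Idx K) = b * (nn hK L * q) →
          (QuotientGroup.mk q⁻¹ : ↥(Pj hK) ⧸ R) = QuotientGroup.mk z := by
        intro q b hb e
        rw [QuotientGroup.eq, inv_inv]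
        have hz : z⁻¹ * q⁻¹ ∈ R := by
          rw [memR, Subgroup.coe_mul, Subgroup.coe_inv _ q, ← mul_assoc (nn hK L), e]
          have e' : b * (nn hK L * q) * (q : GL chevE6.Idx K)⁻¹ * (nn hK L)⁻¹ = b := by group
          rwa [e']
        simpa using inv_mem hz
      rcases mem_Pj hK (z⁻¹).2 with hb | ⟨b, hb, f, hf, e⟩
      · obtain ⟨b', hb', f', hf', e'⟩ := push hK L hb
        exact ⟨Sum.inl ⟨f', hf'⟩, hmk ⟨f', B1_le_Pj hK (flip_le_B1 hK hf')⟩ b' (B1_le_Pj hK hb')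
          (by rw [e']; group)⟩
      · obtain ⟨b', hb', f', hf', e'⟩ := push hK L hb
        have hmid : (n3 hK)⁻¹ * f' * n3 hK ∈ Bo := by
          have hle : uSub chevE6 K (Sys.flipSet S K ((T2).nW L)) ≤
              (chevE6.posUnipotent K).comap (MulAut.conj (n3 hK)⁻¹).toMonoidHom := by
            refine Sys.uSub_le S K fun r hr h1 h2 t => ?_
            obtain ⟨-, hneg⟩ := (flip_mem hK).mp hr
            obtain ⟨c, -, hct⟩ := Sys.conj_root S K ((T2).nW [3])⁻¹ ⟨r, h2⟩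
            rw [Subgroup.mem_comap, MulEquiv.coe_toMonoidHom, MulAut.conj_apply, n3, nn,
              show Sys.xG S K r t = Sys.xG S K ((⟨r, h2⟩ : Fin chevE6.nroots) : ℕ) t from rfl,
              ← Subgroup.coe_inv, (hct t).1]
            refine uSub_le_posUnipotent K Set.univ
              (Sys.xG_mem_uSub S K (P := Set.univ) trivial ?_ (Fin.isLt _) _)
            rw [map_inv, Tw.perm_nW, wW_reverse_val]
            refine cls_perm h1 h2 (fun e => ?_) (fun e => ?_)
            · subst e; omega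
            · subst e; omega
          have h := hle ((T2).mem_flipFix.mp hf').1
          rw [Subgroup.mem_comap, MulEquiv.coe_toMonoidHom, MulAut.conj_apply, inv_inv] at h
          exact (T2).U_le_B1 ⟨h, mul_mem (mul_mem (Subgroup.inv_mem _ (nn_mem hK [3]))
            ((T2).flipFix_le_G L hf')) (nn_mem hK [3])⟩
        obtain ⟨b2, hb2, f2, hf2, e2⟩ := push hK (L ++ [3]) (mul_mem hmid (flip_le_B1 hK hf))
        refine ⟨Sum.inr ⟨f2, hf2⟩, hmk ⟨n3 hK * f2,
          mul_mem (n3_mem_Pj hK) (B1_le_Pj hK (flip_le_B1 hK hf2))⟩ (b' * b2)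
          (B1_le_Pj hK (mul_mem hb' hb2)) ?_⟩
        rw [e]
        calc nn hK L * (b * n3 hK * f) = nn hK L * b * n3 hK * f := by group
          _ = b' * (nn hK (L ++ [3]) * ((n3 hK)⁻¹ * f' * n3 hK * f)) := by rw [e', e1]; group
          _ = _ := by rw [e2, e1]; group
  have hcard : Nat.card (↥(Pj hK) ⧸ R) = 2 ^ (invSet ((T2).wW L)).card * 5 := by
    rw [← Nat.card_congr (Equiv.ofBijective G hG), Nat.card_sum, inv_card_eq, inv_card_eq]
    have hstep := (T2).flip_card_step (L := L ++ [3]) (i := 3) (a := ⟨0, by decide⟩)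
      (mem_blkF.mpr (by decide)) (by
        show ((T2).wW (L ++ [3]) _ : ℕ) < 36
        rw [show (T2).wW (L ++ [3]) = Sys.wperm S ((L ++ [3]).flatMap blkF) from rfl, wperm_flat,
          wdN_append_three, wL_append,
          show wL chevE6 [0, 5] ((Sys.simpleF S (⟨0, by decide⟩ : Fin chevE6.rank)) : ℕ) =
            chevE6.neg 56 by decide +kernel]
        have e := congrArg Fin.val (Sys.wperm_negF S (L.flatMap blkF) ⟨56, by decide⟩)
        rw [wperm_flat] at e
        change wL chevE6 (wdN L) (chevE6.neg 56) = _ at e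
        rw [e]
        exact (Sys.lt_half_negF S).mpr (by rw [wperm_flat]; exact hp.1))
    have h2 : (invSet (Sys.wperm S ((T2).blk 3))).card = 2 := by
      have h3 := card_three hK
      rw [inv_card_eq, show (T2).wW [3] = Sys.wperm S ((T2).blk 3) from Tw.wW_single _ 3] at h3
      exact Nat.pow_right_injective le_rfl (h3.trans (by norm_num : (4 : ℕ) = 2 ^ 2))
    have h4 : (T2).wW (L ++ [3] ++ [3]) = (T2).wW L := by
      rw [List.append_assoc, Tw.wW_append, Tw.wW_append, Tw.wW_single, Tw.wperm_blk_sq, mul_one]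
    rw [h4, h2] at hstep
    rw [hstep, pow_add]
    ring
  by_contra hne1
  haveI := Fact.mk (show Nat.Prime 5 by norm_num)
  have h5R : 5 ∣ Nat.card R := by
    have ho : orderOf (⟨⟨x, hx⟩, (memR _).mpr hc⟩ : R) = 5 := by
      rw [← Subgroup.orderOf_coe, ← Subgroup.orderOf_coe]
      exact orderOf_eq_prime h5 hne1
    exact ho ▸ orderOf_dvd_natCard _
  obtain ⟨m, hm5⟩ := h5R
  have hLag := Subgroup.card_eq_card_quotient_mul_card_subgroup R
  rw [card_Pj, hcard, hm5] at hLag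
  have h25 : 25 ∣ 2 ^ 36 * 3 * 5 :=
    ⟨2 ^ (invSet ((T2).wW L)).card * m, hLag.trans (by ring)⟩
  norm_num at h25

/-- No element of order five fixes a coset moving the orbit. -/
theorem no_fixed {L : List (Fin 4)} (hL : Pos L) (hm : Moves L) {x : GL chevE6.Idx K}
    (hx : x ∈ Pj hK) (h5 : x ^ 5 = 1) (hc : nn hK L * x * (nn hK L)⁻¹ ∈ Pj hK) : x = 1 := by
  by_cases hp : 36 ≤ wL chevE6 (wdN L) 56 ∧ 36 ≤ wL chevE6 (wdN L) 36
  · exact no_fixed_pos hK hL hm hp hx h5 hc
  have hlt : ∀ (M : List (Fin 4)) r, r < chevE6.nroots → wL chevE6 (wdN M) r < 72 := fun M r hr => by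
    have := (Sys.wperm S (M.flatMap blkF) ⟨r, hr⟩).isLt
    rwa [wperm_flat] at this
  have hneg : ∀ r : Fin chevE6.nroots, 36 ≤ wL chevE6 (wdN L) (chevE6.neg r) ↔
      wL chevE6 (wdN L) r < 36 := fun r => by
    have e := congrArg Fin.val (Sys.wperm_negF S (L.flatMap blkF) r)
    rw [wperm_flat] at e
    change wL chevE6 (wdN L) (chevE6.neg r) = _ at e
    have h := (Sys.lt_half_negF S (s := Sys.wperm S (L.flatMap blkF) r))
    rw [wperm_flat] at h
    change _ < 36 ↔ 36 ≤ _ at h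
    omega
  have hs : 36 ≤ wL chevE6 (wdN L) 56 ↔ 36 ≤ wL chevE6 (wdN L) 36 := by
    have h0 : (Sys.simpleF S (⟨0, by decide⟩ : Fin chevE6.rank) : ℕ) = 56 := by decide +kernel
    have h5' : (Sys.simpleF S (⟨5, by decide⟩ : Fin chevE6.rank) : ℕ) = 36 := by decide +kernel
    have ev : ∀ a : Fin chevE6.rank, ((T2).wW L (Sys.simpleF S a) : ℕ) =
        wL chevE6 (wdN L) (Sys.simpleF S a : ℕ) := fun a => wperm_flat L _
    constructor <;> intro hh
    · have := (T2).blk_sign (i := 3) L (a := ⟨0, by decide⟩) (b := ⟨5, by decide⟩)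
        (mem_blkF.mpr (by decide)) (mem_blkF.mpr (by decide)) (by rw [ev, h0]; exact hh)
      rwa [ev, h5'] at this
    · have := (T2).blk_sign (i := 3) L (a := ⟨5, by decide⟩) (b := ⟨0, by decide⟩)
        (mem_blkF.mpr (by decide)) (mem_blkF.mpr (by decide)) (by rw [ev, h5']; exact hh)
      rwa [ev, h0] at this
  have hn56 : wL chevE6 (wdN L) 56 < 36 := not_le.mp fun h => hp ⟨h, hs.mp h⟩
  have hn36 : wL chevE6 (wdN L) 36 < 36 := not_le.mp fun h => hp ⟨hs.mpr h, h⟩
  have hm' : Moves (L ++ [3]) := by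
    have e : ∀ r, wL chevE6 (wdN (L ++ [3]).reverse) r =
        wL chevE6 [0, 5] (wL chevE6 (wdN L.reverse) r) := fun r => by simp [wdN, blkN, wL]
    intro r hr
    have key : ∀ v < 72, 36 ≤ v → wL chevE6 [0, 5] v ≠ r := by
      simp only [List.mem_cons, List.not_mem_nil, or_false] at hr
      rcases hr with rfl | rfl <;> decide +kernel
    rw [e, e]
    exact ⟨key _ (hlt _ _ (by decide)) hL.1, key _ (hlt _ _ (by decide)) hL.2⟩
  have hp' : 36 ≤ wL chevE6 (wdN (L ++ [3])) 56 ∧ 36 ≤ wL chevE6 (wdN (L ++ [3])) 36 := by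
    rw [wdN_append_three, wL_append, wL_append,
      show wL chevE6 [0, 5] 56 = chevE6.neg (⟨56, by decide⟩ : Fin chevE6.nroots) by decide +kernel,
      show wL chevE6 [0, 5] 36 = chevE6.neg (⟨36, by decide⟩ : Fin chevE6.nroots) by decide +kernel]
    exact ⟨(hneg _).mpr hn56, (hneg _).mpr hn36⟩
  have key := no_fixed_pos hK (pos_append hL hm) hm' hp'
    (x := (n3 hK)⁻¹ * x * n3 hK) (mul_mem (mul_mem (inv_mem (n3_mem_Pj hK)) hx) (n3_mem_Pj hK))
    (by
      have : ((n3 hK)⁻¹ * x * n3 hK) ^ 5 = (n3 hK)⁻¹ * x ^ 5 * n3 hK := by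
        have h := (conj_pow (a := (n3 hK)⁻¹) (b := x) (i := 5))
        rwa [inv_inv] at h
      rw [this, h5, mul_one, inv_mul_cancel])
    (by
      have e : nn hK (L ++ [3]) * ((n3 hK)⁻¹ * x * n3 hK) * (nn hK (L ++ [3]))⁻¹ =
          nn hK L * x * (nn hK L)⁻¹ := by rw [nn_append]; simp only [n3]; group
      rwa [e])
  have e : n3 hK * ((n3 hK)⁻¹ * x * n3 hK) * (n3 hK)⁻¹ = x := by group
  rw [← e, key, mul_one, mul_inv_cancel]

end CfsgLib.E6TwoFive
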