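import Cfsg.Agent.E6TwoFive.Bound
import Cfsg.Agent.E6TwoFive.ChecksCls

/-!
The bound along a path, and the classification of the Weyl words fixing the orbit.
-/

set_option autoImplicit false
set_option maxRecDepth 100000

namespace CfsgLib.E6TwoFive

open Cfsg.Lie CfsgLib.Chevalley CfsgLib.TwistedLie CfsgLib.TwistedLie.E6 CfsgLib.Fi22Twist

local notation "S" => sysE6

/-- A node. -/
abbrev node (k : ℕ) : List (Fin 4) × Bool × ℕ × ℕ × ℕ := nodes.getD k ([], false, 0, 0, 0)

variable {K : Type*} [Field K] [Fintype K] [CharP K 2] (hK : Fintype.card K = 2 ^ 2) (w : K)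
  (hw : w * w = w + 1)

local notation "T2" => TW hK

include hw in
theorem node_fixed : ∀ k < 96, ∀ c ∈ [2, 3],
    Nat.card (Fx hK w (node k).1 (node k).2.1 c) ≤ (node k).2.2.1 := by
  intro k
  induction k using Nat.strong_induction_on with
  | _ k ih =>
    intro hk c hc
    rcases Nat.eq_zero_or_pos k with rfl | hpos
    · haveI : Finite ↥((T2).flipFix []) := Nat.finite_of_card_ne_zero (by rw [card_flip]; positivity)
      refine le_trans (Subgroup.card_le_of_le (show Fx hK w [] false c ≤ (T2).flipFix [] from inf_le_left)) ?_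
      rw [card_flip, show nFlip [] = 0 by decide +kernel]
      decide +kernel
    have hchk := nodes_ok hpos hk
    simp only [nodeChk, Bool.and_eq_true, Nat.blt_eq, Nat.beq_eq, decide_eq_true_eq, beq_iff_eq,
      List.all_eq_true, List.mem_range, Bool.or_eq_true, Bool.not_eq_true', Nat.ble_eq] at hchk
    obtain ⟨⟨⟨⟨⟨⟨⟨⟨hpk, hs6⟩, hL⟩, hst⟩, hpst⟩, hf⟩, hsub⟩, hkeep⟩, hlen⟩ := hchk
    set si := (node k).2.2.2.2 with hsi
    set pi := (node k).2.2.2.1 with hpi
    have hstep := (List.all_eq_true.mp norm_steps) (steps.getD si ([], false, false, []))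
      (by
        have hlt : si < steps.length := hs6
        rw [List.getD_eq_getElem _ _ hlt]
        exact List.getElem_mem _)
    simp only [Bool.and_eq_true] at hstep
    have hzfix := fun c hc => card_step_fixed hK w hw ⟨si, hs6⟩ (c := c) hc
    have hih := ih pi hpk (by omega)
    have hpn := norm_ok (k := pi) (by omega)
    obtain ⟨⟨L', b', f', p1, p2⟩, hp⟩ : ∃ p, nodes.getD pi ([], false, 0, 0, 0) = p := ⟨_, rfl⟩
    obtain ⟨⟨g, a', b, z⟩, hg⟩ : ∃ s, steps.getD si ([], false, false, []) = s := ⟨_, rfl⟩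
    obtain ⟨⟨L, a, f, k1, k2⟩, hn⟩ : ∃ n, nodes.getD k ([], false, 0, 0, 0) = n := ⟨_, rfl⟩
    simp only [node, hp, hg, hn] at hL hst hpst hf hsub hkeep hlen hzfix hih hpn hstep ⊢
    subst hL hst
    subst b'
    obtain ⟨⟨⟨hgn, hmv⟩, -⟩, -⟩ := hstep
    obtain ⟨c', hc', hn'⟩ := y_move hK w hw hmv hc
    set n := nn hK g with hdef
    have hconj : ∀ {v : GL chevE6.Idx K}, v ∈ (T2).flipFix L' →
        n⁻¹ * v * n ∈ uSub chevE6 K (Sys.flipSet S K ((T2).nW (L' ++ g))) ⊓
          uSub chevE6 K (Sys.keptSet S K ((T2).nW g)) := by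
      intro v hv
      have hle : uSub chevE6 K (Sys.flipSet S K ((T2).nW L')) ≤
          (uSub chevE6 K (Sys.flipSet S K ((T2).nW (L' ++ g))) ⊓
            uSub chevE6 K (Sys.keptSet S K ((T2).nW g))).comap (MulAut.conj n⁻¹).toMonoidHom := by
        refine Sys.uSub_le S K fun r hr h1 h2 t => ?_
        have hin := mem_inFlip hK h1 hr
        rcases hkeep r h2 with h | ⟨hfl, hk36⟩
        · rw [hin] at h; exact absurd h (by simp)
        obtain ⟨q1, q2, q3⟩ := inFlip_mem hK hfl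
        obtain ⟨e, -, hct⟩ := Sys.conj_root S K ((T2).nW g)⁻¹ ⟨r, h2⟩
        rw [Subgroup.mem_comap, MulEquiv.coe_toMonoidHom, MulAut.conj_apply, hdef, nn,
          show Sys.xG S K r t = Sys.xG S K ((⟨r, h2⟩ : Fin chevE6.nroots) : ℕ) t from rfl,
          ← Subgroup.coe_inv, (hct t).1]
        have hv2 : ((Sys.perm S K ((T2).nW g)⁻¹) ⟨r, h2⟩ : ℕ) = wf g.reverse r := by
          rw [map_inv, Tw.perm_nW, wW_reverse_val]
          exact (wf_spec _ h2).1
        have hk2 : wf g.reverse r ∈ Sys.keptSet S K ((T2).nW g) :=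
          (kept_mem hK).mpr ⟨q2, by rw [(wf_spec g q2).1]; exact hk36⟩
        refine ⟨Sys.xG_mem_uSub S K ?_ (by rw [hv2]; exact q1) (Fin.isLt _) _,
          Sys.xG_mem_uSub S K ?_ (by rw [hv2]; exact q1) (Fin.isLt _) _⟩ <;> rw [hv2]
        exacts [q3, hk2]
      have h := hle ((T2).mem_flipFix.mp hv).1
      rwa [Subgroup.mem_comap, MulEquiv.coe_toMonoidHom, MulAut.conj_apply, inv_inv] at h
    have hz_le : ∀ {z : GL chevE6.Idx K}, z ∈ (T2).flipFix g → z ∈ (T2).flipFix (L' ++ g) := by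
      intro z hz
      obtain ⟨h1, h2⟩ := (T2).mem_flipFix.mp hz
      refine (T2).mem_flipFix.mpr ⟨?_, h2⟩
      refine Sys.uSub_le S K (fun r hr h36 h72 t => ?_) h1
      have hin := mem_inFlip hK h36 hr
      rcases hsub r h72 with h | h
      · rw [hin] at h; exact absurd h (by simp)
      · exact Sys.xG_mem_uSub S K (inFlip_mem hK h).2.2 h36 h72 t
    have hin : ∀ v ∈ (T2).flipFix L', ∀ z ∈ (T2).flipFix g,
        n⁻¹ * v * n * z ∈ (T2).flipFix (L' ++ g) := by
      intro v hv z hz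
      refine mul_mem ((T2).mem_flipFix.mpr ⟨(hconj hv).1, (T2).σ_mem ?_⟩) (hz_le hz)
      exact mul_mem (mul_mem (Subgroup.inv_mem _ (nn_mem hK g)) ((T2).flipFix_le_G L' hv))
        (nn_mem hK g)
    let Φ : ↥((T2).flipFix L') × ↥((T2).flipFix g) → ↥((T2).flipFix (L' ++ g)) :=
      fun vz => ⟨_, hin _ vz.1.2 _ vz.2.2⟩
    have hinj : ∀ v ∈ (T2).flipFix L', ∀ z ∈ (T2).flipFix g, ∀ v' ∈ (T2).flipFix L',
        ∀ z' ∈ (T2).flipFix g, n⁻¹ * v * n * z = n⁻¹ * v' * n * z' → v = v' ∧ z = z' := by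
      intro v hv z hz v' hv' z' hz' h
      have e : (n⁻¹ * v' * n)⁻¹ * (n⁻¹ * v * n) = z' * z⁻¹ := by
        rw [inv_mul_eq_iff_eq_mul, ← mul_assoc, ← h, mul_inv_cancel_right]
      have hb : (n⁻¹ * v' * n)⁻¹ * (n⁻¹ * v * n) ∈
          uSub chevE6 K (Sys.keptSet S K ((T2).nW g)) ⊓ uSub chevE6 K (Sys.flipSet S K ((T2).nW g)) :=
        Subgroup.mem_inf.mpr ⟨mul_mem (inv_mem (hconj hv').2) (hconj hv).2,
          e ▸ mul_mem ((T2).mem_flipFix.mp hz').1 (inv_mem ((T2).mem_flipFix.mp hz).1)⟩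
      rw [Tw.kept_inf_flip, Subgroup.mem_bot] at hb
      have hz2 := e.symm.trans hb
      rw [mul_inv_eq_one] at hz2
      rw [inv_mul_eq_one] at hb
      exact ⟨by simpa using hb.symm, hz2.symm⟩
    have hfin : ∀ M : List (Fin 4), Finite ↥((T2).flipFix M) := fun M =>
      Nat.finite_of_card_ne_zero (by rw [card_flip]; positivity)
    haveI := hfin L'
    haveI := hfin g
    haveI := hfin (L' ++ g)
    have hΦ : Function.Bijective Φ := by
      refine (Nat.bijective_iff_injective_and_card Φ).mpr ⟨fun x y h => ?_, ?_⟩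
      · obtain ⟨h1, h2⟩ := hinj _ x.1.2 _ x.2.2 _ y.1.2 _ y.2.2 (congrArg Subtype.val h)
        exact Prod.ext (Subtype.ext h1) (Subtype.ext h2)
      · rw [Nat.card_prod, card_flip, card_flip, card_flip, hlen, pow_add]
    have hkey : ∀ u : ↥(Fx hK w (L' ++ g) a c), ∃ v : ↥(Fx hK w L' b c'),
        ∃ z : ↥(Fx hK w g a c), n⁻¹ * (v : GL chevE6.Idx K) * n * z = u := by
      intro u
      obtain ⟨hu, huc⟩ := (mem_Fx hK w).mp u.2
      obtain ⟨⟨v, z⟩, hvz⟩ := hΦ.2 ⟨u, hu⟩
      have he : n⁻¹ * (v : GL chevE6.Idx K) * n * z = u := congrArg Subtype.val hvz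
      have hv' := conj_flip hK w hw hpn hc' v.2
      have hz' := conj_flip hK w hw hgn hc z.2
      have hyu : ev w (yS a c) * (n⁻¹ * v * n * z) * (ev w (yS a c))⁻¹ = n⁻¹ * v * n * z := by
        rw [he, huc, mul_inv_cancel_right]
      have hyn : ev w (yS a c) * n⁻¹ = n⁻¹ * ev w (yS b c') := by
        rw [eq_inv_mul_iff_mul_eq, ← mul_assoc, hn', mul_inv_cancel_right]
      have hnr : ev w (yS b c') = n * ev w (yS a c) * n⁻¹ := eq_mul_inv_of_mul_eq hn'.symm
      have hexp : n⁻¹ * (ev w (yS b c') * v * (ev w (yS b c'))⁻¹) * n *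
          (ev w (yS a c) * z * (ev w (yS a c))⁻¹) =
          ev w (yS a c) * (n⁻¹ * v * n * z) * (ev w (yS a c))⁻¹ := by
        rw [hnr]; group
      obtain ⟨e1, e2⟩ := hinj _ hv' _ hz' _ v.2 _ z.2 (hexp.trans hyu)
      exact ⟨⟨v, (mem_Fx hK w).mpr ⟨v.2, mul_inv_eq_iff_eq_mul.mp e1⟩⟩,
        ⟨z, (mem_Fx hK w).mpr ⟨z.2, mul_inv_eq_iff_eq_mul.mp e2⟩⟩, he⟩
    choose V Z hVZ using hkey
    have hle1 : Fx hK w L' b c' ≤ (T2).flipFix L' := inf_le_left
    have hle2 : Fx hK w g a c ≤ (T2).flipFix g := inf_le_left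
    haveI : Finite ↥(Fx hK w L' b c') := Finite.of_injective _ (Subgroup.inclusion_injective hle1)
    haveI : Finite ↥(Fx hK w g a c) := Finite.of_injective _ (Subgroup.inclusion_injective hle2)
    have h1 : Nat.card ↥(Fx hK w (L' ++ g) a c) ≤
        Nat.card (↥(Fx hK w L' b c') × ↥(Fx hK w g a c)) :=
      Nat.card_le_card_of_injective (fun u => (V u, Z u)) fun u u' h => Subtype.ext (by
        obtain ⟨h1', h2'⟩ := Prod.mk.injEq .. ▸ h
        rw [← hVZ u, ← hVZ u', h1', h2'])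
    rw [Nat.card_prod] at h1
    refine h1.trans ?_
    rw [hf]
    exact Nat.mul_le_mul (hih c' hc') (hzfix c hc)

omit [CharP K 2] in
/-- A word fixing the orbit agrees with a node. -/
theorem classify {L : List (Fin 4)} (hL : ¬ Moves L) :
    ∃ k ∈ keepN ++ swapN, (T2).wW L = (T2).wW (node k).1 := by
  have hb : ∀ i, ((TW hK).blk i).map (fun a : Fin chevE6.rank => (a : ℕ)) = blkN i := blkF_val
  have r4 := Tw.Reps.step (T2) hb (Tw.Reps.step (T2) hb (Tw.Reps.step (T2) hb
    (Tw.Reps.step (T2) hb ((T2).reps_nil 2) level1) level2) level3) level4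
  obtain ⟨M, hM, e⟩ : ∃ M ∈ allW, (T2).wW L = (T2).wW M := by
    clear hL
    induction L with
    | nil =>
      obtain ⟨M, hM, e⟩ := r4.one
      exact ⟨M, hM, by rw [e, Tw.wW_nil]⟩
    | cons i L ih =>
      obtain ⟨M, hM, e⟩ := ih
      obtain ⟨M', hM', e'⟩ := r4.closed i ((by decide : ∀ i : Fin 4, i ∈ [0, 1, 2, 3]) i) M hM
      exact ⟨M', hM', by rw [← e', Tw.wW_cons, Tw.wW_cons, e]⟩
  have hv : ∀ r : Fin chevE6.nroots, wf M r = ((T2).wW L r : ℕ) := fun r => by
    rw [e, ← (wf_spec M r.isLt).1]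
    exact (wperm_flat M r).symm
  have hinv : ∀ r v : Fin chevE6.nroots, wL chevE6 (wdN L.reverse) r = (v : ℕ) →
      ((T2).wW L v : ℕ) = (r : ℕ) := by
    intro r v h
    have h1 : ((T2).wW L)⁻¹ r = v := Fin.ext ((wW_reverse_val hK L r).trans h)
    rw [← h1]
    simp
  have hsome : [56, 36].contains (wf M 56) = true ∨ [56, 36].contains (wf M 36) = true := by
    by_contra hcon
    push Not at hcon
    refine hL fun r hr => ?_
    have key : ∀ s : Fin chevE6.nroots, (s : ℕ) ∈ [56, 36] →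
        wL chevE6 (wdN L.reverse) s ≠ r := by
      intro s hs h
      have hr' : r < chevE6.nroots := by
        simp only [List.mem_cons, List.not_mem_nil, or_false] at hr
        rcases hr with rfl | rfl <;> decide
      have h2 := hinv s ⟨r, hr'⟩ h
      rw [← hv] at h2
      simp only [List.mem_cons, List.not_mem_nil, or_false] at hr hs
      rcases hr with rfl | rfl <;> rcases hs with hs | hs
      · exact hcon.1 (by simp [h2, hs])
      · exact hcon.1 (by simp [h2, hs])
      · exact hcon.2 (by simp [h2, hs])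
      · exact hcon.2 (by simp [h2, hs])
    exact ⟨key ⟨56, by decide⟩ (by simp), key ⟨36, by decide⟩ (by simp)⟩
  have hc := cls_ok hM
  have hhit : hitsOrb M = true := by
    rcases hsome with h' | h' <;>
      simp only [List.contains_cons, List.contains_nil, Bool.or_false, Bool.or_eq_true, beq_iff_eq] at h' <;>
      simp [hitsOrb, Nat.beq_eq] <;> tauto
  simp only [clsChk, hhit, cond_true, List.any_eq_true, Nat.beq_eq] at hc
  obtain ⟨⟨k, v⟩, hkv, hv'⟩ := hc
  have hk' := List.all_eq_true.mp nodeKeys_ok _ hkv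
  simp only [Bool.and_eq_true, List.any_eq_true, Nat.beq_eq] at hk'
  obtain ⟨⟨k', hk1, hk2⟩, hkey⟩ := hk'
  have hk : k ∈ keepN ++ swapN := by rw [hk2]; exact hk1
  have h := (hkey.trans hv').symm
  refine ⟨k, hk, ?_⟩
  rw [e]
  refine (T2).sameW hb fun m => ?_
  have hlt : chevE6.simple m < 72 := sysE6.wf.simple_lt m m.isLt
  show wL chevE6 (wdN M) _ = wL chevE6 (wdN (node k).1) _
  rw [(wf_spec M hlt).1, (wf_spec _ hlt).1]
  have b : ∀ (A : List (Fin 4)), ∀ r < 72, wf A r < 128 := fun A r hr => by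
    have := (wf_spec A hr).2; omega
  simp only [keyW, List.foldr_cons, List.foldr_nil] at h
  have := b M 56 (by omega); have := b M 46 (by omega); have := b M 42 (by omega)
  have := b M 39 (by omega); have := b M 37 (by omega); have := b M 36 (by omega)
  have := b (node k).1 56 (by omega); have := b (node k).1 46 (by omega)
  have := b (node k).1 42 (by omega); have := b (node k).1 39 (by omega)
  have := b (node k).1 37 (by omega); have := b (node k).1 36 (by omega)
  obtain ⟨s0, s1, s2, s3, s4, s5⟩ := E6.simple_eq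
  obtain ⟨m, hm⟩ := m
  change m < 6 at hm
  simp only [node] at *
  interval_cases m <;> simp only [s0, s1, s2, s3, s4, s5] <;> omega

end CfsgLib.E6TwoFive
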