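import Cfsg.Agent.Fi22Twist.Group
import Cfsg.Agent.TwistedLie.E6Order

/-!
Coded words in `²E₆(2)`: conjugation by Weyl words, and the elements of order five in the
Levi complements of the two short fundamental orbits.
-/

set_option autoImplicit false

namespace CfsgLib.E6TwoFive

open Cfsg.Lie CfsgLib.Chevalley CfsgLib.TwistedLie CfsgLib.TwistedLie.E6 CfsgLib.Fi22Twist

local notation "S" => sysE6

theorem prime_two_pow : IsPrimePow 2 := Nat.prime_two.isPrimePow

variable {K : Type*} [Field K] [Fintype K] (hK : Fintype.card K = 2 ^ 2)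

/-- The twisted group over the field with four elements. -/
noncomputable abbrev TW : Tw sysE6 K (Fin 4) := E6.tw prime_two_pow hK

/-- The word of one fundamental reflection element. -/
def triW (r : ℕ) : List (ℕ × ℕ) := [(r, 1), (chevE6.neg r, 1), (r, 1)]

/-- The word of a product of fundamental reflection elements. -/
def nWord (i : Fin 4) : List (ℕ × ℕ) := (blkN i).flatMap fun a => triW (chevE6.simple a)

/-- The word of an element of order five attached to two orthogonal roots. -/
def yW (a b c : ℕ) : List (ℕ × ℕ) := [(a, c), (b, cmul c c)] ++ triW a ++ triW b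

/-- All entries of a word are codes. -/
def Ok (l : List (ℕ × ℕ)) : Prop := ∀ e ∈ l, e.1 < chevE6.nroots ∧ e.2 < 4

instance (l : List (ℕ × ℕ)) : Decidable (Ok l) := by unfold Ok; infer_instance

variable [CharP K 2] (w : K) (hw : w * w = w + 1)
include hw

theorem ev_eq {A B : List (ℕ × ℕ)} (hA : Ok A) (hB : Ok B)
    (h : eqP (matW chevE6 A) (matW chevE6 B) = true) : ev w A = ev w B :=
  Units.ext (by rw [toMat_ev w hw hA, toMat_ev w hw hB, eqP_iff.mp h])

omit hw in
/-- The code of a coordinate. -/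
theorem val_code (v : V) (i : ℕ) :
    val w v i = cv w ((if v.1.testBit i then 1 else 0) + (if v.2.testBit i then 2 else 0)) := by
  cases h1 : v.1.testBit i <;> cases h2 : v.2.testBit i <;>
    simp [val, h1, h2, cv_zero, cv_one, cv_two, cv_three]

theorem cv_inj {a b : ℕ} (ha : a < 4) (hb : b < 4) (h : cv w a = cv w b) : a = b := by
  have h0 : w ≠ 0 := fun e => by simp [e] at hw
  have h1 : w ≠ 1 := fun e => by simp [e, CharTwo.add_self_eq_zero] at hw
  have h2 : (1 : K) + w ≠ 0 := fun e => h1 (CharTwo.add_eq_zero.mp e).symm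
  interval_cases a <;> interval_cases b <;>
    simp [cv_zero, cv_one, cv_two, cv_three, h0, h1, h2, Ne.symm h0, Ne.symm h1, Ne.symm h2] at h ⊢

/-- The code of a coordinate of a packed matrix. -/
def codeAt (M : List V) (row col : ℕ) : ℕ :=
  (if (M.getD col (0, 0)).1.testBit row then 1 else 0) +
    (if (M.getD col (0, 0)).2.testBit row then 2 else 0)

omit hw in
theorem exists_enc (c : Fin 78) : ∃ col : chevE6.Idx, enc chevE6 col = c := by
  by_cases h : (c : ℕ) < chevE6.rank
  · exact ⟨Sum.inl ⟨c, h⟩, rfl⟩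
  · refine ⟨Sum.inr ⟨c - chevE6.rank, ?_⟩, ?_⟩
    · have := c.isLt
      change (c : ℕ) - 6 < 72
      change ¬ (c : ℕ) < 6 at h
      omega
    · simp only [enc]; omega

theorem ev_ne {A B : List (ℕ × ℕ)} (hA : Ok A) (hB : Ok B)
    (h : ∃ row col : Fin 78, codeAt (matW chevE6 A) row col ≠ codeAt (matW chevE6 B) row col) :
    ev w A ≠ ev w B := by
  intro e
  obtain ⟨row, col, hne⟩ := h
  have e1 := congrArg Units.val e
  rw [toMat_ev w hw hA, toMat_ev w hw hB] at e1
  obtain ⟨r, hr⟩ := exists_enc row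
  obtain ⟨c, hc⟩ := exists_enc col
  have e2 := congrFun (congrFun e1 r) c
  rw [toMat, toMat, hr, hc, val_code, val_code] at e2
  exact hne (cv_inj w hw (by unfold codeAt; split_ifs <;> omega) (by unfold codeAt; split_ifs <;> omega) e2)

include hK

omit hw in
theorem nWord_eval (i : Fin 4) :
    (Sys.wN S K ((TW hK).blk i) : GL chevE6.Idx K) = ev w (nWord i) := by
  show (Sys.wN S K (blkF i) : GL chevE6.Idx K) = _
  rw [E6.n_eq prime_two_pow hK, nWord]
  induction blkN i with
  | nil => simp [nL, ev, Sys.wG]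
  | cons a L ih =>
    rw [nL_cons, List.flatMap_cons, ev_append, ← ih]
    congr 1
    rw [Sys.nG_eq S]
    simp [triW, ev, Sys.wG, cv_one, inv_one, CharTwo.neg_eq, mul_assoc]

omit hw in
theorem conj_x (L : List (Fin 4)) {r : ℕ} (hr : r < chevE6.nroots) (t : K) :
    ((TW hK).nW L : GL chevE6.Idx K) * Sys.xG S K r t =
      Sys.xG S K (wL chevE6 (wdN L) r) t * ((TW hK).nW L : GL chevE6.Idx K) := by
  have e : ((TW hK).nW L : GL chevE6.Idx K) = nL S K (wdN L) := by
    show (Sys.wN S K (L.flatMap blkF) : GL chevE6.Idx K) = _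
    rw [wN_nL, List.map_flatMap]
    simp [wdN, blkF_val]
  have hlt : ∀ i ∈ wdN L, i < chevE6.rank := by
    intro i hi
    obtain ⟨j, -, hj⟩ := List.mem_flatMap.mp hi
    exact blkN_lt j i hj
  obtain ⟨u, hu, h⟩ := nL_conj_xG S K hlt hr t
  rw [e, h]
  rcases hu with rfl | rfl
  · rfl
  · rw [CharTwo.neg_eq]

omit hw in
/-- Conjugation of a word by a Weyl word. -/
theorem conj_word (L : List (Fin 4)) {l : List (ℕ × ℕ)} (hl : Ok l) :
    ((TW hK).nW L : GL chevE6.Idx K) * ev w l =
      ev w (l.map fun e => (wL chevE6 (wdN L) e.1, e.2)) * ((TW hK).nW L : GL chevE6.Idx K) := by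
  induction l with
  | nil => simp [ev, Sys.wG]
  | cons e l ih =>
    simp only [Ok, List.forall_mem_cons] at hl
    have e1 : ∀ (x : ℕ × ℕ) (m : List (ℕ × ℕ)), ev w (x :: m) = Sys.xG S K x.1 (cv w x.2) * ev w m :=
      fun x m => by simp [ev, Sys.wG]
    rw [List.map_cons, e1, e1, ← mul_assoc, conj_x hK L hl.1.1, mul_assoc, ih hl.2, ← mul_assoc]

omit hw hK [CharP K 2] [Fintype K] [Field K] in
theorem map_triW (L : List (Fin 4)) {r : ℕ} (hr : r < chevE6.nroots) :
    (triW r).map (fun e => (wL chevE6 (wdN L) e.1, e.2)) = triW (wL chevE6 (wdN L) r) := by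
  have h : wL chevE6 (wdN L) (chevE6.neg r) = chevE6.neg (wL chevE6 (wdN L) r) := by
    have e := congrArg Fin.val (Sys.wperm_negF S (L.flatMap blkF) ⟨r, hr⟩)
    rw [wperm_flat] at e
    simpa [Sys.negF, wperm_flat] using e
  simp [triW, h]

end CfsgLib.E6TwoFive
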