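import Cfsg.Agent.E6TwoFive.Orbit
import Cfsg.Agent.E6TwoFive.ChecksNode
import Cfsg.Agent.E6TwoFive.ChecksNorm
import Cfsg.Agent.E6TwoFive.ChecksY

/-!
Fixed elements of the flipped parts along the paths: an element of order five fixes one element of
each short step and both elements of a long one.
-/

set_option autoImplicit false
set_option maxRecDepth 100000

namespace CfsgLib.E6TwoFive

open Cfsg.Lie CfsgLib.Chevalley CfsgLib.TwistedLie CfsgLib.TwistedLie.E6 CfsgLib.Fi22Twist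

local notation "S" => sysE6

variable {K : Type*} [Field K] [Fintype K] [CharP K 2] (hK : Fintype.card K = 2 ^ 2) (w : K)

local notation "T2" => TW hK

omit [CharP K 2] in
theorem inFlip_mem {L : List (Fin 4)} {r : ℕ} (h : inFlip L r = true) :
    36 ≤ r ∧ r < 72 ∧ r ∈ Sys.flipSet S K ((T2).nW L) := by
  simp only [inFlip, Bool.and_eq_true, Nat.ble_eq, Nat.blt_eq] at h
  obtain ⟨⟨h1, h2⟩, h3⟩ := h
  exact ⟨h1, h2, (flip_mem hK).mpr ⟨h2, (wf_spec L h2).1 ▸ h3⟩⟩

omit [CharP K 2] in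
theorem mem_inFlip {L : List (Fin 4)} {r : ℕ} (hp : 36 ≤ r)
    (h : r ∈ Sys.flipSet S K ((T2).nW L)) : inFlip L r = true := by
  obtain ⟨h2, h3⟩ := (flip_mem hK).mp h
  rw [(wf_spec L h2).1] at h3
  simp [inFlip, hp, h2, h3]

omit [CharP K 2] in
theorem card_flip (L : List (Fin 4)) : Nat.card ((T2).flipFix L) = 2 ^ nFlip L := by
  rw [inv_card_eq, show (T2).wW L = Sys.wperm S (L.flatMap blkF) from rfl, E6.inv_card]
  congr 1
  have e : (Finset.univ.filter fun s : Fin chevE6.nroots =>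
      36 ≤ (s : ℕ) ∧ wL chevE6 (wdN L) (s : ℕ) < 36).map Fin.valEmbedding =
      ((List.range 72).filter (inFlip L)).toFinset := by
    ext r
    simp only [Finset.mem_map, Finset.mem_filter, Finset.mem_univ, true_and, Fin.valEmbedding_apply,
      List.mem_toFinset, List.mem_filter, List.mem_range, inFlip, Bool.and_eq_true, Nat.ble_eq, Nat.blt_eq]
    constructor
    · rintro ⟨s, ⟨h1, h2⟩, rfl⟩; exact ⟨s.isLt, ⟨h1, s.isLt⟩, (wf_spec L s.isLt).1 ▸ h2⟩
    · rintro ⟨h1, ⟨h2, -⟩, h3⟩; exact ⟨⟨r, h1⟩, ⟨h2, (wf_spec L h1).1.symm ▸ h3⟩, rfl⟩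
  rw [← Finset.card_map Fin.valEmbedding, e, List.toFinset_card_of_nodup (List.nodup_range.filter _)]
  rfl

theorem y_ok : ∀ st : Bool, ∀ c ∈ [2, 3], Ok (yS st c) := by decide +kernel

theorem rts_lt : ∀ st : Bool, ∀ r ∈ rts st, r < 72 := by decide +kernel

theorem yS_roots : ∀ st : Bool, ∀ c ∈ [2, 3], ∀ e ∈ yS st c, e.1 ∈ rts st := by decide +kernel

omit [CharP K 2] [Fintype K] in
theorem xG_mem_norm {P : Set ℕ} {a : ℕ} (ha : a < 72)
    (h : ∀ e, 36 ≤ e → e < 72 → e ∈ P → e ≠ a ∧ e ≠ chevE6.neg a ∧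
      ∀ q ∈ chevE6.commTerms a e, 36 ≤ q.1 ∧ q.1 < 72 ∧ q.1 ∈ P) (t : K) :
    ∀ g ∈ uSub chevE6 K P, Sys.xG S K a t * g * (Sys.xG S K a t)⁻¹ ∈ uSub chevE6 K P := by
  intro g hg
  have hle : uSub chevE6 K P ≤ (uSub chevE6 K P).comap (MulAut.conj (Sys.xG S K a t)).toMonoidHom := by
    refine Sys.uSub_le S K fun r hr h1 h2 u => ?_
    obtain ⟨hne, hneg, hq⟩ := h r h1 h2 hr
    rw [Subgroup.mem_comap, MulEquiv.coe_toMonoidHom, MulAut.conj_apply]
    have hc := Sys.xG_comm S K (show a < chevE6.nroots from ha) h2 hne hneg (-t) u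
    rw [← Sys.xG_inv S K, inv_inv] at hc
    rw [hc]
    refine mul_mem (Sys.xG_mem_uSub S K hr h1 h2 u) (wG_pos_mem S K fun e he => ?_)
    simp only [ChevalleyDatum.commWord, List.mem_map] at he
    obtain ⟨q, hq', rfl⟩ := he
    obtain ⟨q1, q2, q3⟩ := hq q hq'
    exact ⟨q1, q2, q3⟩
  exact hle hg

omit [CharP K 2] in
/-- The Levi complement of a state normalises the flipped part. -/
theorem y_norm {L : List (Fin 4)} {st : Bool} (hn : normChk L st = true) {l : List (ℕ × ℕ)}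
    (hl : ∀ e ∈ l, e.1 ∈ rts st) {u : GL chevE6.Idx K}
    (hu : u ∈ uSub chevE6 K (Sys.flipSet S K ((T2).nW L))) :
    ev w l * u * (ev w l)⁻¹ ∈ uSub chevE6 K (Sys.flipSet S K ((T2).nW L)) := by
  induction l with
  | nil => simpa [ev, Sys.wG] using hu
  | cons e l ih =>
    rw [List.forall_mem_cons] at hl
    have h1 := ih hl.2
    have e1 : ev w (e :: l) = Sys.xG S K e.1 (cv w e.2) * ev w l := by simp [ev, Sys.wG]
    rw [e1, show Sys.xG S K e.1 (cv w e.2) * ev w l * u * (Sys.xG S K e.1 (cv w e.2) * ev w l)⁻¹ =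
      Sys.xG S K e.1 (cv w e.2) * (ev w l * u * (ev w l)⁻¹) * (Sys.xG S K e.1 (cv w e.2))⁻¹ by group]
    refine xG_mem_norm (rts_lt st _ hl.1) (fun r h36 h72 hr => ?_) _ _ h1
    simp only [normChk, List.all_eq_true, List.mem_range, Bool.or_eq_true, Bool.not_eq_true',
      Bool.and_eq_true] at hn
    rcases hn r h72 with h | ⟨hnot, hq⟩
    · rw [mem_inFlip hK h36 hr] at h; exact absurd h (by simp)
    · have hne : r ∉ rts st := by simpa using hnot
      refine ⟨fun e' => hne (e' ▸ hl.1), fun e' => hne (e' ▸ rts_neg st _ hl.1), fun q hqm => ?_⟩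
      obtain ⟨k, hk, hke⟩ := List.getElem_of_mem hl.1
      have hk4 : k < 4 := by simpa [rts] using hk
      rcases commF_ok st k hk4 r h72 with h | h
      · exact absurd h hne
      · rw [List.getD_eq_getElem _ _ hk, hke] at h
        exact inFlip_mem hK (hq k hk4 q.1 (h ▸ List.mem_map.mpr ⟨q, hqm, rfl⟩))

variable (hw : w * w = w + 1)

omit hw [CharP K 2] [Fintype K] in
theorem y_three_eq (c : ℕ) : yS false c = [(56, c), (36, cmul c c)] ++ nWord 3 := by
  have h : triW 56 ++ triW 36 = nWord 3 := by decide +kernel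
  rw [yS, yW, show rA false = 56 from rfl, show rB false = 36 from rfl, List.append_assoc, h]

include hw in
theorem y_mem (st : Bool) {c : ℕ} (hc : c ∈ [2, 3]) : ev w (yS st c) ∈ (T2).G := by
  obtain ⟨s0, -, s2, -, s4, s5⟩ := E6.simple_eq
  have hc4 : c < 4 := by
    simp only [List.mem_cons, List.not_mem_nil, or_false] at hc
    omega
  have key : ∀ (i : Fin 4) (a b : ℕ), ((a = 0 ∧ b = 5) ∨ (a = 2 ∧ b = 4)) →
      yS st c = [(chevE6.simple a, c), (chevE6.simple b, cmul c c)] ++ nWord i →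
      ev w (yS st c) ∈ (T2).G := by
    intro i a b hab e
    rw [e, ev_append, ← nWord_eval hK w i]
    refine mul_mem ?_ ((T2).n_mem i)
    have h : Folded.P S (E6.phi prime_two_pow hK) a b (cv w c) ∈ (T2).G :=
      (E6.pair_mem prime_two_pow hK hab (cv w c)).1
    rw [E6.P_eq] at h
    rw [ev, List.map_cons, List.map_cons, List.map_nil, cv_sq w hw hc4]
    exact h
  cases st
  · exact key 3 0 5 (Or.inl ⟨rfl, rfl⟩) (by rw [s0, s5, y_three_eq])
  · refine key 2 2 4 (Or.inr ⟨rfl, rfl⟩) ?_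
    have h : triW 42 ++ triW 37 = nWord 2 := by decide +kernel
    rw [yS, yW, show rA true = 42 from rfl, show rB true = 37 from rfl, List.append_assoc, h, s2, s4]

include hw in
/-- Conjugation by a step word moves one element of order five to another. -/
theorem y_move {g : List (Fin 4)} {a b : Bool} (h : movesTo g a b = true) {c : ℕ}
    (hc : c ∈ [2, 3]) : ∃ c' ∈ [2, 3], nn hK g * ev w (yS a c) = ev w (yS b c') * nn hK g := by
  have hra : rA a < 72 ∧ rB a < 72 := ⟨rts_lt a _ (by simp [rts]), rts_lt a _ (by simp [rts])⟩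
  have e := conj_word hK w g (y_ok a c hc)
  have hmap : (yS a c).map (fun e => (wL chevE6 (wdN g) e.1, e.2)) =
      yW (wL chevE6 (wdN g) (rA a)) (wL chevE6 (wdN g) (rB a)) c := by
    simp [yS, yW, map_triW g (show rA a < chevE6.nroots from hra.1),
      map_triW g (show rB a < chevE6.nroots from hra.2)]
  rw [hmap] at e
  rw [(wf_spec g hra.1).1, (wf_spec g hra.2).1] at e
  simp only [movesTo, Bool.or_eq_true, Bool.and_eq_true, Nat.beq_eq] at h
  rcases h with ⟨h1, h2⟩ | ⟨h1, h2⟩ <;> rw [h1, h2] at e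
  · exact ⟨c, hc, e⟩
  · refine ⟨5 - c, ?_, e.trans ?_⟩
    · simp only [List.mem_cons, List.not_mem_nil, or_false] at hc ⊢; omega
    · rw [ev_eqF w hw (tri_comm b c hc)]
      rfl

include hw in
theorem y_pow (st : Bool) {c : ℕ} (hc : c ∈ [2, 3]) : ev w (yS st c) ^ 5 = 1 := by
  have h := ev_eqF w hw (y5_ok st c hc)
  rw [ev_append, ev_append, ev_append, ev_append] at h
  have h0 : ev w ([] : List (ℕ × ℕ)) = 1 := by simp [ev, Sys.wG]
  rw [← h0, ← h]
  simp [pow_succ, mul_assoc]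

end CfsgLib.E6TwoFive
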