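import Cfsg.Agent.E6TwoFive.Paths

/-!
The centralizer of an element of order five has order at most `100800`.
-/

set_option autoImplicit false
set_option maxRecDepth 100000

namespace CfsgLib.E6TwoFive

open Cfsg.Lie CfsgLib.Chevalley CfsgLib.TwistedLie CfsgLib.TwistedLie.E6 CfsgLib.Fi22Twist

local notation "S" => sysE6

/-- The word conjugating the square of the element of order five to its field conjugate. -/
def lW : List (ℕ × ℕ) := [(56, 1), (36, 1)] ++ [(15, 2), (35, 3)] ++ [(56, 3), (36, 2)]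

theorem lW_ok : sameF (yS false 3 ++ lW) (lW ++ yS false 2 ++ yS false 2) = true := by decide +kernel

theorem lW_neg : sameF ([(15, 2), (35, 3)] ++ nWord 3) (nWord 3 ++ [(56, 2), (36, 3)]) = true := by
  decide +kernel

theorem y2_ne : diffF (yS false 2) [] = true := by decide +kernel

theorem top_set : ∀ r < 72, inFlip (node topN).1 r = (Nat.ble 36 r && !(r == 56) && !(r == 36)) := by
  decide +kernel

theorem top_bound : (node topN).2.2.1 = 64 ∧ (node topN).2.1 = false := by decide +kernel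

theorem keep_sum : (keepN.map fun k => (node k).2.2.1).sum = 315 := by decide +kernel

theorem final_data : ∀ k ∈ keepN ++ swapN, k < 96 ∧ (node k).2.1 = false := by decide +kernel

theorem keep_maps : ∀ k ∈ keepN, wf (node k).1 56 = 56 ∧ wf (node k).1 36 = 36 := by decide +kernel

theorem swap_maps : ∀ k ∈ swapN, wf (node k).1 56 = 36 ∧ wf (node k).1 36 = 56 := by decide +kernel

variable {K : Type*} [Field K] [Fintype K] [CharP K 2] (hK : Fintype.card K = 2 ^ 2) (w : K)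
  (hw : w * w = w + 1)

local notation "T2" => TW hK
local notation "Bo" => Tw.B1 (TW hK)

/-- The element of order five. -/
noncomputable def x0 (w : K) : GL chevE6.Idx K := ev w (yS false 2)

/-- The unipotent radical of the parabolic subgroup. -/
noncomputable def UJ : Subgroup (GL chevE6.Idx K) := (T2).flipFix (node topN).1

omit [CharP K 2] in
theorem UJ_mem {u : GL chevE6.Idx K} :
    u ∈ UJ hK ↔ u ∈ (T2).flipFix (node topN).1 := Iff.rfl

omit [CharP K 2] in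
theorem top_mem {r : ℕ} (hr : 36 ≤ r) (hr' : r < 72) (h1 : r ≠ 56) (h2 : r ≠ 36) :
    r ∈ Sys.flipSet S K ((T2).nW (node topN).1) :=
  (inFlip_mem hK (by rw [top_set r hr']; simp [hr, h1, h2])).2.2

omit [CharP K 2] in
theorem top_not {r : ℕ} (hr : 36 ≤ r) (h : r ∈ Sys.flipSet S K ((T2).nW (node topN).1)) :
    r ≠ 56 ∧ r ≠ 36 := by
  have h' := mem_inFlip hK hr h
  rw [top_set r ((flip_mem hK).mp h).1] at h'
  simpa [hr] using h'

omit [CharP K 2] in
theorem UJ_disjoint {u : GL chevE6.Idx K} (hu : u ∈ UJ hK) (hu' : u ∈ (T2).flipFix [3]) : u = 1 := by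
  have h1 := ((T2).mem_flipFix.mp hu).1
  have h2 := ((T2).mem_flipFix.mp hu').1
  have h : u ∈ uSub chevE6 K (Sys.flipSet S K ((T2).nW (node topN).1)) ⊓
      uSub chevE6 K (Sys.flipSet S K ((T2).nW [3])) := ⟨h1, h2⟩
  rw [Sys.uSub_inf S K (Sys.closed_flipSet S K _) (Sys.closed_flipSet S K _),
    uSub_empty_of fun r hr hp => ?_, Subgroup.mem_bot] at h
  · exact h
  · obtain ⟨hp1, hp2⟩ := ((Sys.pos_iff S r).mp hp)
    obtain ⟨-, h3⟩ := (flip_mem hK).mp hr.2
    obtain ⟨n1, n2⟩ := top_not hK hp1 hr.1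
    have := (by decide +kernel : ∀ r < 72, 36 ≤ r → r ≠ 56 → r ≠ 36 → 36 ≤ wf [3] r) r hp2 hp1 n1 n2
    rw [(wf_spec [3] hp2).1] at h3
    omega

omit [CharP K 2] in
/-- A unipotent element splits into the radical and the root group of the orbit. -/
theorem U_radical {u : GL chevE6.Idx K} (hu : u ∈ chevE6.posUnipotent K ⊓ (T2).G) :
    ∃ a ∈ UJ hK, n3 hK * a * (n3 hK)⁻¹ ∈ Bo ∧ ∃ z ∈ (T2).flipFix [3], u = a * z := by
  obtain ⟨a, ⟨ha1, ha2⟩, z, hz, e, h3, h4⟩ := (T2).U_split 3 hu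
  have hBo : n3 hK * a * (n3 hK)⁻¹ ∈ Bo := by
    rw [n3_eq]; exact (T2).U_le_B1 ⟨h3, h4⟩
  refine ⟨a, (T2).mem_flipFix.mpr ⟨?_, (T2).σ_mem ha2⟩, hBo, z, X_mem_flip hK hz, e⟩
  set m := (T2).nW [3] with hm
  rw [← Sys.uSub_kept_union_flip S K m] at ha1
  obtain ⟨p, hp, f, hf, e'⟩ := Sys.uSub_union_mul S K (Sys.closed_keptSet S K m)
    (Sys.closed_flipSet S K m) (Sys.closed_kept_union_flip S K m) ha1
  have hneg : (m : GL chevE6.Idx K) * f * (m : GL chevE6.Idx K)⁻¹ ∈ chevE6.negUnipotent K := by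
    have hle : uSub chevE6 K (Sys.flipSet S K m) ≤
        (chevE6.negUnipotent K).comap (MulAut.conj (m : GL chevE6.Idx K)).toMonoidHom := by
      refine Sys.uSub_le S K fun r hr h1 h2 t => ?_
      obtain ⟨h, hf⟩ := hr
      obtain ⟨c, -, hct⟩ := Sys.conj_root S K m ⟨r, h⟩
      rw [Subgroup.mem_comap, MulEquiv.coe_toMonoidHom, MulAut.conj_apply,
        show Sys.xG S K r t = Sys.xG S K ((⟨r, h⟩ : Fin chevE6.nroots) : ℕ) t from rfl, (hct t).1]
      exact Sys.xG_mem_negUnipotent S K hf _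
    exact hle hf
  have hpos : (m : GL chevE6.Idx K) * f * (m : GL chevE6.Idx K)⁻¹ ∈ chevE6.borelSubgroup K := by
    have hk := Subgroup.mem_sup_left (T := chevE6.diagonalSubgroup K) (Sys.conj_kept S K m hp)
    have := mul_mem (inv_mem hk) (show (m : GL chevE6.Idx K) * a * (m : GL chevE6.Idx K)⁻¹ ∈
      chevE6.borelSubgroup K from ((T2).B1_le hBo).1)
    rw [e'] at this
    refine (?_ : _ ∈ chevE6.posUnipotent K ⊔ chevE6.diagonalSubgroup K)
    simpa [mul_assoc] using this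
  have h1 : (m : GL chevE6.Idx K) * f * (m : GL chevE6.Idx K)⁻¹ ∈
      chevE6.borelSubgroup K ⊓ chevE6.negUnipotent K := ⟨hpos, hneg⟩
  rw [Sys.borel_inf_neg S K, Subgroup.mem_bot, conj_eq_one_iff] at h1
  rw [e', h1, mul_one]
  refine Sys.uSub_le S K (fun r hr h36 h72 t => ?_) hp
  obtain ⟨-, hk⟩ := (kept_mem hK).mp hr
  refine Sys.xG_mem_uSub S K (top_mem hK h36 h72 (fun h => ?_) fun h => ?_) h36 h72 t
  · subst h; revert hk; decide +kernel
  · subst h; revert hk; decide +kernel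

include hw in
theorem Pj_normalizer : ∀ p ∈ Pj hK, ∀ u ∈ UJ hK, p * u * p⁻¹ ∈ UJ hK := by
  have hrts : ∀ l : List (ℕ × ℕ), (∀ e ∈ l, e.1 ∈ rts false) → ev w l ∈ (T2).G →
      ∀ u ∈ UJ hK, ev w l * u * (ev w l)⁻¹ ∈ UJ hK := by
    intro l hl hG u hu
    have hn := norm_ok (k := topN) (by decide)
    rw [show (nodes.getD topN ([], false, 0, 0, 0)).2.1 = false from top_bound.2] at hn
    exact (T2).mem_flipFix.mpr ⟨y_norm hK w hn hl ((T2).mem_flipFix.mp hu).1,
      (T2).σ_mem (mul_mem (mul_mem hG ((T2).flipFix_le_G _ hu)) (Subgroup.inv_mem _ hG))⟩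
  have hT : ∀ t ∈ (T2).T, ∀ u ∈ UJ hK, t * u * t⁻¹ ∈ UJ hK := by
    intro t ht u hu
    have hd := (T2).T_le ht
    rw [Sys.diagonal_eq S] at hd
    obtain ⟨c, rfl⟩ := hd
    refine (T2).mem_flipFix.mpr ⟨?_, (T2).σ_mem (mul_mem (mul_mem ((T2).T_mem ht)
      ((T2).flipFix_le_G _ hu)) (Subgroup.inv_mem _ ((T2).T_mem ht)))⟩
    have hle : uSub chevE6 K (Sys.flipSet S K ((T2).nW (node topN).1)) ≤
        (uSub chevE6 K (Sys.flipSet S K ((T2).nW (node topN).1))).comap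
          (MulAut.conj (tor chevE6 K c)).toMonoidHom := by
      refine Sys.uSub_le S K fun r hr h1 h2 s => ?_
      rw [Subgroup.mem_comap, MulEquiv.coe_toMonoidHom, MulAut.conj_apply, Sys.tor_conj S K c h2]
      exact Sys.xG_mem_uSub S K hr h1 h2 _
    exact hle ((T2).mem_flipFix.mp hu).1
  have hX : ∀ z ∈ (T2).flipFix [3], ∀ u ∈ UJ hK, z * u * z⁻¹ ∈ UJ hK := by
    intro z hz u hu
    refine (T2).mem_flipFix.mpr ⟨?_, (T2).σ_mem (mul_mem (mul_mem ((T2).flipFix_le_G _ hz)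
      ((T2).flipFix_le_G _ hu)) (Subgroup.inv_mem _ ((T2).flipFix_le_G _ hz)))⟩
    have hn := norm_ok (k := topN) (by decide)
    rw [show (nodes.getD topN ([], false, 0, 0, 0)).2.1 = false from top_bound.2] at hn
    have hz' := (T2).flip_blk 3 ▸ ((T2).mem_flipFix.mp hz).1
    suffices uSub chevE6 K ((T2).cls 3) ≤ Subgroup.normalizer
        (uSub chevE6 K (Sys.flipSet S K ((T2).nW (node topN).1)) : Set (GL chevE6.Idx K)) from
      (Subgroup.mem_normalizer_iff.mp (this hz') u).mp ((T2).mem_flipFix.mp hu).1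
    refine Sys.uSub_le S K fun r hr h1 h2 t => ?_
    have hrr : r ∈ rts false := by
      rcases (cls_three hK).mp hr with rfl | rfl <;> simp [rts, rA, rB]
    have hconj : ∀ s : K, ∀ g ∈ uSub chevE6 K (Sys.flipSet S K ((T2).nW (node topN).1)),
        Sys.xG S K r s * g * (Sys.xG S K r s)⁻¹ ∈
          uSub chevE6 K (Sys.flipSet S K ((T2).nW (node topN).1)) := by
      refine fun s => xG_mem_norm h2 (fun e h36 h72 he => ?_) s
      simp only [normChk, List.all_eq_true, List.mem_range, Bool.or_eq_true, Bool.not_eq_true',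
        Bool.and_eq_true] at hn
      rcases hn e h72 with h | ⟨hnot, hq⟩
      · rw [mem_inFlip hK h36 he] at h; exact absurd h (by simp)
      · have hne : e ∉ rts false := by simpa using hnot
        refine ⟨fun e' => hne (e' ▸ hrr), fun e' => hne (e' ▸ rts_neg _ _ hrr), fun q hqm => ?_⟩
        obtain ⟨k, hk, hke⟩ := List.getElem_of_mem hrr
        have hk4 : k < 4 := by simpa [rts] using hk
        rcases commF_ok false k hk4 e h72 with h | h
        · exact absurd h hne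
        · rw [List.getD_eq_getElem _ _ hk, hke] at h
          exact inFlip_mem hK (hq k hk4 q.1 (h ▸ List.mem_map.mpr ⟨q, hqm, rfl⟩))
    refine Subgroup.mem_normalizer_iff.mpr fun g => ⟨fun hg => hconj t g hg, fun hg => ?_⟩
    have h := hconj (-t) _ hg
    rw [← Sys.xG_inv S K, inv_inv] at h
    simpa [mul_assoc] using h
  have hcomp : ∀ a b : GL chevE6.Idx K, (∀ u ∈ UJ hK, a * u * a⁻¹ ∈ UJ hK) →
      (∀ u ∈ UJ hK, b * u * b⁻¹ ∈ UJ hK) → ∀ u ∈ UJ hK, (a * b) * u * (a * b)⁻¹ ∈ UJ hK :=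
    fun a b ha hb u hu => by
      have := ha _ (hb u hu)
      simpa [mul_assoc] using this
  have hB : ∀ b ∈ Bo, ∀ u ∈ UJ hK, b * u * b⁻¹ ∈ UJ hK := by
    intro b hb
    obtain ⟨v, hv, t, ht, rfl⟩ := (T2).mem_B1.mp hb
    obtain ⟨a, ha, -, z, hz, rfl⟩ := U_radical hK hv
    refine hcomp _ _ (hcomp _ _ (fun u hu => ?_) (hX z hz)) (hT t ht)
    exact mul_mem (mul_mem ha hu) (inv_mem ha)
  have hn3 : ∀ u ∈ UJ hK, n3 hK * u * (n3 hK)⁻¹ ∈ UJ hK := by
    have hG : ev w (nWord 3) ∈ (T2).G := by rw [← nWord_eval hK w 3]; exact (T2).n_mem 3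
    rw [n3_eq, nWord_eval hK w 3]
    exact hrts _ (by decide +kernel) hG
  intro p hp
  rcases mem_Pj hK hp with hp | ⟨b, hb, f, hf, rfl⟩
  · exact hB p hp
  · exact hcomp _ _ (hcomp _ _ (hB b hb) hn3) (hX f hf)

include hw in
theorem lW_mem : ev w lW ∈ Pj hK := by
  have hX : ∀ (c : ℕ), c < 4 → ev w [(56, c), (36, cmul c c)] ∈ Bo := by
    intro c hc
    obtain ⟨s0, -, -, -, -, s5⟩ := E6.simple_eq
    refine (T2).U_le_B1 ((T2).X_le_U 3 ?_)
    show ev w _ ∈ E6.XX prime_two_pow hK 3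
    refine (Folded.mem_X2 S _ (h := two05)).mpr ⟨cv w c, ?_⟩
    rw [E6.P_eq, s0, s5, ← cv_sq w hw hc]
    rfl
  have e : ev w [(15, 2), (35, 3)] = n3 hK * ev w [(56, 2), (36, 3)] * (n3 hK)⁻¹ := by
    rw [eq_mul_inv_iff_mul_eq, n3_eq, nWord_eval hK w 3, ← ev_append, ← ev_append]
    exact ev_eqF w hw lW_neg
  rw [lW, ev_append, ev_append, e]
  exact mul_mem (mul_mem (B1_le_Pj hK (hX 1 (by decide))) (mul_mem (mul_mem (n3_mem_Pj hK)
    (B1_le_Pj hK (hX 2 (by decide)))) (inv_mem (n3_mem_Pj hK)))) (B1_le_Pj hK (hX 3 (by decide)))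

include hw in
theorem x0_spec : x0 w ∈ Pj hK ∧ x0 w ^ 5 = 1 ∧ x0 w ≠ 1 := by
  refine ⟨?_, y_pow w hw false (by simp), fun h => ev_neF w hw y2_ne (h.trans (by simp [ev, Sys.wG]))⟩
  obtain ⟨s0, -, -, -, -, s5⟩ := E6.simple_eq
  rw [x0, y_three_eq, ev_append, ← nWord_eval hK w 3, ← n3_eq hK]
  refine mul_mem (B1_le_Pj hK ((T2).U_le_B1 ((T2).X_le_U 3 ?_))) (n3_mem_Pj hK)
  show ev w _ ∈ E6.XX prime_two_pow hK 3
  refine (Folded.mem_X2 S _ (h := two05)).mpr ⟨cv w 2, ?_⟩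
  rw [E6.P_eq, s0, s5, ← cv_sq w hw (by decide)]
  rfl

end CfsgLib.E6TwoFive
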